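import Cfsg.Agent.Lib.H34.TCLyB.Chk
set_option autoImplicit false
set_option maxRecDepth 100000
set_option linter.all false
namespace H34.TCLyB
open H35.TC
section
variable {G : Type} [Group G] {g : Lt → G} {H : Subgroup G}
/-- the points of the nodes -/
noncomputable def cP (g : Lt → G) (H : Subgroup G) : ℕ → G ⧸ H := cc (fa g) lt P ((1 : G) : G ⧸ H)
theorem dp_a_0_s (hinv : ∀ x, g (inv x) = (g x)⁻¹) (hr : ∀ r ∈ rels, (r.map g).prod = 1) (hH : ∀ r ∈ subs, (r.map g).prod ∈ H)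
    (j u : ℕ) (hu : u < M) (h : dp_a_0 j u = true) : Good (fa g) T MG M (cP g H) Lt.a u := by
  unfold dp_a_0 at h
  rcases brec_true h with h | h
  · exact lDef_good (T := T) (x := Lt.a) (by decide) rfl h
  · exact lF_good (T := T) (x := Lt.a) (by decide) [Lt.w, Lt.w, Lt.ai, Lt.wi] (hole_rel hinv hr (by decide +kernel)) h
theorem dp_a_1_s (hinv : ∀ x, g (inv x) = (g x)⁻¹) (hr : ∀ r ∈ rels, (r.map g).prod = 1) (hH : ∀ r ∈ subs, (r.map g).prod ∈ H)
    (j u : ℕ) (hu : u < M) (h : dp_a_1 j u = true) : Good (fa g) T MG M (cP g H) Lt.a u := by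
  unfold dp_a_1 at h
  rcases brec_true h with h | h
  · exact lF_good (T := T) (x := Lt.a) (by decide) [Lt.wi, Lt.wi, Lt.ai, Lt.w] (hole_rel hinv hr (by decide +kernel)) h
  · exact lF_good (T := T) (x := Lt.a) (by decide) [Lt.ci, Lt.ci, Lt.ai, Lt.ui] (hole_rel hinv hr (by decide +kernel)) h
theorem dp_a_2_s (hinv : ∀ x, g (inv x) = (g x)⁻¹) (hr : ∀ r ∈ rels, (r.map g).prod = 1) (hH : ∀ r ∈ subs, (r.map g).prod ∈ H)
    (j u : ℕ) (hu : u < M) (h : dp_a_2 j u = true) : Good (fa g) T MG M (cP g H) Lt.a u := by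
  unfold dp_a_2 at h
  rcases brec_true h with h | h
  · exact lF_good (T := T) (x := Lt.a) (by decide) [Lt.c, Lt.c, Lt.ai, Lt.u] (hole_rel hinv hr (by decide +kernel)) h
  · exact dp_a_1_s hinv hr hH j u hu h
theorem dp_a_3_s (hinv : ∀ x, g (inv x) = (g x)⁻¹) (hr : ∀ r ∈ rels, (r.map g).prod = 1) (hH : ∀ r ∈ subs, (r.map g).prod ∈ H)
    (j u : ℕ) (hu : u < M) (h : dp_a_3 j u = true) : Good (fa g) T MG M (cP g H) Lt.a u := by
  unfold dp_a_3 at h
  rcases brec_true h with h | h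
  · exact lS_good (T := T) (x := Lt.a) (by decide) hu [Lt.ai] (hole_rel hinv hr (by decide +kernel)) h
  · exact lF_good (T := T) (x := Lt.a) (by decide) [Lt.a, Lt.b, Lt.ai, Lt.ai, Lt.bi] (hole_rel hinv hr (by decide +kernel)) h
theorem dp_a_4_s (hinv : ∀ x, g (inv x) = (g x)⁻¹) (hr : ∀ r ∈ rels, (r.map g).prod = 1) (hH : ∀ r ∈ subs, (r.map g).prod ∈ H)
    (j u : ℕ) (hu : u < M) (h : dp_a_4 j u = true) : Good (fa g) T MG M (cP g H) Lt.a u := by
  unfold dp_a_4 at h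
  rcases brec_true h with h | h
  · exact lF_good (T := T) (x := Lt.a) (by decide) [Lt.a, Lt.bi, Lt.ai, Lt.ai, Lt.b] (hole_rel hinv hr (by decide +kernel)) h
  · exact lF_good (T := T) (x := Lt.a) (by decide) [Lt.b, Lt.ai, Lt.ai, Lt.bi, Lt.a] (hole_rel hinv hr (by decide +kernel)) h
theorem dp_a_5_s (hinv : ∀ x, g (inv x) = (g x)⁻¹) (hr : ∀ r ∈ rels, (r.map g).prod = 1) (hH : ∀ r ∈ subs, (r.map g).prod ∈ H)
    (j u : ℕ) (hu : u < M) (h : dp_a_5 j u = true) : Good (fa g) T MG M (cP g H) Lt.a u := by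
  unfold dp_a_5 at h
  rcases brec_true h with h | h
  · exact lF_good (T := T) (x := Lt.a) (by decide) [Lt.bi, Lt.ai, Lt.ai, Lt.b, Lt.a] (hole_rel hinv hr (by decide +kernel)) h
  · exact lS_good (T := T) (x := Lt.a) (by decide) hu [Lt.u, Lt.ai, Lt.ci] (hole_rel hinv hr (by decide +kernel)) h
theorem dp_a_6_s (hinv : ∀ x, g (inv x) = (g x)⁻¹) (hr : ∀ r ∈ rels, (r.map g).prod = 1) (hH : ∀ r ∈ subs, (r.map g).prod ∈ H)
    (j u : ℕ) (hu : u < M) (h : dp_a_6 j u = true) : Good (fa g) T MG M (cP g H) Lt.a u := by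
  unfold dp_a_6 at h
  rcases brec_true h with h | h
  · exact lF_good (T := T) (x := Lt.a) (by decide) [Lt.a, Lt.a, Lt.a, Lt.a, Lt.a, Lt.a, Lt.a] (hole_rel hinv hr (by decide +kernel)) h
  · exact lS_good (T := T) (x := Lt.a) (by decide) hu [Lt.ui, Lt.ai, Lt.c] (hole_rel hinv hr (by decide +kernel)) h
theorem dp_a_7_s (hinv : ∀ x, g (inv x) = (g x)⁻¹) (hr : ∀ r ∈ rels, (r.map g).prod = 1) (hH : ∀ r ∈ subs, (r.map g).prod ∈ H)
    (j u : ℕ) (hu : u < M) (h : dp_a_7 j u = true) : Good (fa g) T MG M (cP g H) Lt.a u := by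
  unfold dp_a_7 at h
  rcases brec_true h with h | h
  · exact lS_good (T := T) (x := Lt.a) (by decide) hu [Lt.wi, Lt.wi, Lt.ai, Lt.w] (hole_rel hinv hr (by decide +kernel)) h
  · exact lS_good (T := T) (x := Lt.a) (by decide) hu [Lt.a, Lt.b, Lt.ai, Lt.ai, Lt.bi] (hole_rel hinv hr (by decide +kernel)) h
theorem dp_a_8_s (hinv : ∀ x, g (inv x) = (g x)⁻¹) (hr : ∀ r ∈ rels, (r.map g).prod = 1) (hH : ∀ r ∈ subs, (r.map g).prod ∈ H)
    (j u : ℕ) (hu : u < M) (h : dp_a_8 j u = true) : Good (fa g) T MG M (cP g H) Lt.a u := by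
  unfold dp_a_8 at h
  rcases brec_true h with h | h
  · exact lH_good (T := T) (x := Lt.a) (by decide) [] [] (by rw [show cP g H 0 = _ from cc_zero]; exact sub_rel hinv (hH _ (by decide))) h
  · exact lS_good (T := T) (x := Lt.a) (by decide) hu [Lt.bi, Lt.ai, Lt.ai, Lt.b, Lt.a] (hole_rel hinv hr (by decide +kernel)) h
theorem dp_a_9_s (hinv : ∀ x, g (inv x) = (g x)⁻¹) (hr : ∀ r ∈ rels, (r.map g).prod = 1) (hH : ∀ r ∈ subs, (r.map g).prod ∈ H)
    (j u : ℕ) (hu : u < M) (h : dp_a_9 j u = true) : Good (fa g) T MG M (cP g H) Lt.a u := by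
  unfold dp_a_9 at h
  rcases brec_true h with h | h
  · exact lS_good (T := T) (x := Lt.a) (by decide) hu [Lt.c, Lt.c, Lt.ai, Lt.u] (hole_rel hinv hr (by decide +kernel)) h
  · exact lS_good (T := T) (x := Lt.a) (by decide) hu [Lt.a, Lt.bi, Lt.ai, Lt.ai, Lt.b] (hole_rel hinv hr (by decide +kernel)) h
theorem dp_a_10_s (hinv : ∀ x, g (inv x) = (g x)⁻¹) (hr : ∀ r ∈ rels, (r.map g).prod = 1) (hH : ∀ r ∈ subs, (r.map g).prod ∈ H)
    (j u : ℕ) (hu : u < M) (h : dp_a_10 j u = true) : Good (fa g) T MG M (cP g H) Lt.a u := by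
  unfold dp_a_10 at h
  rcases brec_true h with h | h
  · exact lS_good (T := T) (x := Lt.a) (by decide) hu [Lt.ci, Lt.ci, Lt.ai, Lt.ui] (hole_rel hinv hr (by decide +kernel)) h
  · exact dp_a_9_s hinv hr hH j u hu h
theorem dp_a_11_s (hinv : ∀ x, g (inv x) = (g x)⁻¹) (hr : ∀ r ∈ rels, (r.map g).prod = 1) (hH : ∀ r ∈ subs, (r.map g).prod ∈ H)
    (j u : ℕ) (hu : u < M) (h : dp_a_11 j u = true) : Good (fa g) T MG M (cP g H) Lt.a u := by
  unfold dp_a_11 at h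
  rcases brec_true h with h | h
  · exact dp_a_8_s hinv hr hH j u hu h
  · exact dp_a_10_s hinv hr hH j u hu h
theorem dp_a_12_s (hinv : ∀ x, g (inv x) = (g x)⁻¹) (hr : ∀ r ∈ rels, (r.map g).prod = 1) (hH : ∀ r ∈ subs, (r.map g).prod ∈ H)
    (j u : ℕ) (hu : u < M) (h : dp_a_12 j u = true) : Good (fa g) T MG M (cP g H) Lt.a u := by
  unfold dp_a_12 at h
  rcases brec_true h with h | h
  · exact dp_a_7_s hinv hr hH j u hu h
  · exact dp_a_11_s hinv hr hH j u hu h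
theorem dp_a_13_s (hinv : ∀ x, g (inv x) = (g x)⁻¹) (hr : ∀ r ∈ rels, (r.map g).prod = 1) (hH : ∀ r ∈ subs, (r.map g).prod ∈ H)
    (j u : ℕ) (hu : u < M) (h : dp_a_13 j u = true) : Good (fa g) T MG M (cP g H) Lt.a u := by
  unfold dp_a_13 at h
  rcases brec_true h with h | h
  · exact dp_a_6_s hinv hr hH j u hu h
  · exact dp_a_12_s hinv hr hH j u hu h
theorem dp_a_14_s (hinv : ∀ x, g (inv x) = (g x)⁻¹) (hr : ∀ r ∈ rels, (r.map g).prod = 1) (hH : ∀ r ∈ subs, (r.map g).prod ∈ H)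
    (j u : ℕ) (hu : u < M) (h : dp_a_14 j u = true) : Good (fa g) T MG M (cP g H) Lt.a u := by
  unfold dp_a_14 at h
  rcases brec_true h with h | h
  · exact dp_a_5_s hinv hr hH j u hu h
  · exact dp_a_13_s hinv hr hH j u hu h
theorem dp_a_15_s (hinv : ∀ x, g (inv x) = (g x)⁻¹) (hr : ∀ r ∈ rels, (r.map g).prod = 1) (hH : ∀ r ∈ subs, (r.map g).prod ∈ H)
    (j u : ℕ) (hu : u < M) (h : dp_a_15 j u = true) : Good (fa g) T MG M (cP g H) Lt.a u := by
  unfold dp_a_15 at h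
  rcases brec_true h with h | h
  · exact dp_a_4_s hinv hr hH j u hu h
  · exact dp_a_14_s hinv hr hH j u hu h
theorem dp_a_16_s (hinv : ∀ x, g (inv x) = (g x)⁻¹) (hr : ∀ r ∈ rels, (r.map g).prod = 1) (hH : ∀ r ∈ subs, (r.map g).prod ∈ H)
    (j u : ℕ) (hu : u < M) (h : dp_a_16 j u = true) : Good (fa g) T MG M (cP g H) Lt.a u := by
  unfold dp_a_16 at h
  rcases brec_true h with h | h
  · exact dp_a_3_s hinv hr hH j u hu h
  · exact dp_a_15_s hinv hr hH j u hu h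
theorem dp_a_17_s (hinv : ∀ x, g (inv x) = (g x)⁻¹) (hr : ∀ r ∈ rels, (r.map g).prod = 1) (hH : ∀ r ∈ subs, (r.map g).prod ∈ H)
    (j u : ℕ) (hu : u < M) (h : dp_a_17 j u = true) : Good (fa g) T MG M (cP g H) Lt.a u := by
  unfold dp_a_17 at h
  rcases brec_true h with h | h
  · exact dp_a_2_s hinv hr hH j u hu h
  · exact dp_a_16_s hinv hr hH j u hu h
theorem dp_a_18_s (hinv : ∀ x, g (inv x) = (g x)⁻¹) (hr : ∀ r ∈ rels, (r.map g).prod = 1) (hH : ∀ r ∈ subs, (r.map g).prod ∈ H)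
    (j u : ℕ) (hu : u < M) (h : dp_a_18 j u = true) : Good (fa g) T MG M (cP g H) Lt.a u := by
  unfold dp_a_18 at h
  rcases brec_true h with h | h
  · exact dp_a_0_s hinv hr hH j u hu h
  · exact dp_a_17_s hinv hr hH j u hu h
theorem dp_a_19_s (hinv : ∀ x, g (inv x) = (g x)⁻¹) (hr : ∀ r ∈ rels, (r.map g).prod = 1) (hH : ∀ r ∈ subs, (r.map g).prod ∈ H)
    (j u : ℕ) (hu : u < M) (h : dp_a_19 j u = true) : Good (fa g) T MG M (cP g H) Lt.a u := by
  unfold dp_a_19 at h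
  rcases brec_true h with h | h
  · rcases brec_true h with h | h
    · exact lF3_good (T := T) (x := Lt.a) (by decide) .ui .ai .c (hole_rel hinv hr (by decide +kernel)) h
    · exact lPar_good (T := T) (x := Lt.a) (x' := Lt.ai) (by decide) rfl (inv_rel hinv _ _ rfl) h
  · exact dp_a_18_s hinv hr hH j u hu h
theorem snd_a (hinv : ∀ x, g (inv x) = (g x)⁻¹) (hr : ∀ r ∈ rels, (r.map g).prod = 1) (hH : ∀ r ∈ subs, (r.map g).prod ∈ H)
    (j u : ℕ) (hu : u < M) (h : disp_a j u = true) : Good (fa g) T MG M (cP g H) Lt.a u := by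
  unfold disp_a at h
  rcases brec_true h with h | h
  · rcases brec_true h with h | h
    · exact lF1_good (T := T) (x := Lt.a) (by decide) .ai (hole_rel hinv hr (by decide +kernel)) h
    · exact lF3_good (T := T) (x := Lt.a) (by decide) .u .ai .ci (hole_rel hinv hr (by decide +kernel)) h
  · exact dp_a_19_s hinv hr hH j u hu h
theorem snc_a (hinv : ∀ x, g (inv x) = (g x)⁻¹) (hr : ∀ r ∈ rels, (r.map g).prod = 1) (hH : ∀ r ∈ subs, (r.map g).prod ∈ H)
    (j u : ℕ) (hu : u < M) (h : chk_a j u = true) : (T Lt.a u < A ∧ Good (fa g) T MG M (cP g H) Lt.a u) ∨ (A ≤ T Lt.a u ∧ MG u < A) := by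
  unfold chk_a at h
  cases hb : Nat.ble A (T_a u) with
  | true => rw [hb] at h; exact Or.inr ⟨le_of_ble hb, le_of_ble h⟩
  | false => rw [hb] at h; exact Or.inl ⟨lt_of_ble_false hb, snd_a hinv hr hH j u hu h⟩
theorem dp_ai_0_s (hinv : ∀ x, g (inv x) = (g x)⁻¹) (hr : ∀ r ∈ rels, (r.map g).prod = 1) (hH : ∀ r ∈ subs, (r.map g).prod ∈ H)
    (j u : ℕ) (hu : u < M) (h : dp_ai_0 j u = true) : Good (fa g) T MG M (cP g H) Lt.ai u := by
  unfold dp_ai_0 at h
  rcases brec_true h with h | h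
  · exact lPar_good (T := T) (x := Lt.ai) (x' := Lt.a) (by decide) rfl (inv_rel hinv _ _ rfl) h
  · exact lF_good (T := T) (x := Lt.ai) (by decide) [Lt.u, Lt.a, Lt.c, Lt.c] (hole_rel hinv hr (by decide +kernel)) h
theorem dp_ai_1_s (hinv : ∀ x, g (inv x) = (g x)⁻¹) (hr : ∀ r ∈ rels, (r.map g).prod = 1) (hH : ∀ r ∈ subs, (r.map g).prod ∈ H)
    (j u : ℕ) (hu : u < M) (h : dp_ai_1 j u = true) : Good (fa g) T MG M (cP g H) Lt.ai u := by
  unfold dp_ai_1 at h
  rcases brec_true h with h | h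
  · exact lF_good (T := T) (x := Lt.ai) (by decide) [Lt.wi, Lt.a, Lt.w, Lt.w] (hole_rel hinv hr (by decide +kernel)) h
  · exact lS_good (T := T) (x := Lt.ai) (by decide) hu [Lt.a] (hole_rel hinv hr (by decide +kernel)) h
theorem dp_ai_2_s (hinv : ∀ x, g (inv x) = (g x)⁻¹) (hr : ∀ r ∈ rels, (r.map g).prod = 1) (hH : ∀ r ∈ subs, (r.map g).prod ∈ H)
    (j u : ℕ) (hu : u < M) (h : dp_ai_2 j u = true) : Good (fa g) T MG M (cP g H) Lt.ai u := by
  unfold dp_ai_2 at h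
  rcases brec_true h with h | h
  · exact lF_good (T := T) (x := Lt.ai) (by decide) [Lt.ui, Lt.a, Lt.ci, Lt.ci] (hole_rel hinv hr (by decide +kernel)) h
  · exact dp_ai_1_s hinv hr hH j u hu h
theorem dp_ai_3_s (hinv : ∀ x, g (inv x) = (g x)⁻¹) (hr : ∀ r ∈ rels, (r.map g).prod = 1) (hH : ∀ r ∈ subs, (r.map g).prod ∈ H)
    (j u : ℕ) (hu : u < M) (h : dp_ai_3 j u = true) : Good (fa g) T MG M (cP g H) Lt.ai u := by
  unfold dp_ai_3 at h
  rcases brec_true h with h | h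
  · exact lF_good (T := T) (x := Lt.ai) (by decide) [Lt.w, Lt.a, Lt.wi, Lt.wi] (hole_rel hinv hr (by decide +kernel)) h
  · exact lF_good (T := T) (x := Lt.ai) (by decide) [Lt.ai, Lt.b, Lt.a, Lt.a, Lt.bi] (hole_rel hinv hr (by decide +kernel)) h
theorem dp_ai_4_s (hinv : ∀ x, g (inv x) = (g x)⁻¹) (hr : ∀ r ∈ rels, (r.map g).prod = 1) (hH : ∀ r ∈ subs, (r.map g).prod ∈ H)
    (j u : ℕ) (hu : u < M) (h : dp_ai_4 j u = true) : Good (fa g) T MG M (cP g H) Lt.ai u := by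
  unfold dp_ai_4 at h
  rcases brec_true h with h | h
  · exact lF_good (T := T) (x := Lt.ai) (by decide) [Lt.ai, Lt.bi, Lt.a, Lt.a, Lt.b] (hole_rel hinv hr (by decide +kernel)) h
  · exact lF_good (T := T) (x := Lt.ai) (by decide) [Lt.b, Lt.a, Lt.a, Lt.bi, Lt.ai] (hole_rel hinv hr (by decide +kernel)) h
theorem dp_ai_5_s (hinv : ∀ x, g (inv x) = (g x)⁻¹) (hr : ∀ r ∈ rels, (r.map g).prod = 1) (hH : ∀ r ∈ subs, (r.map g).prod ∈ H)
    (j u : ℕ) (hu : u < M) (h : dp_ai_5 j u = true) : Good (fa g) T MG M (cP g H) Lt.ai u := by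
  unfold dp_ai_5 at h
  rcases brec_true h with h | h
  · exact lF_good (T := T) (x := Lt.ai) (by decide) [Lt.bi, Lt.a, Lt.a, Lt.b, Lt.ai] (hole_rel hinv hr (by decide +kernel)) h
  · exact lS_good (T := T) (x := Lt.ai) (by decide) hu [Lt.ci, Lt.a, Lt.u] (hole_rel hinv hr (by decide +kernel)) h
theorem dp_ai_6_s (hinv : ∀ x, g (inv x) = (g x)⁻¹) (hr : ∀ r ∈ rels, (r.map g).prod = 1) (hH : ∀ r ∈ subs, (r.map g).prod ∈ H)
    (j u : ℕ) (hu : u < M) (h : dp_ai_6 j u = true) : Good (fa g) T MG M (cP g H) Lt.ai u := by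
  unfold dp_ai_6 at h
  rcases brec_true h with h | h
  · exact lS_good (T := T) (x := Lt.ai) (by decide) hu [Lt.u, Lt.a, Lt.c, Lt.c] (hole_rel hinv hr (by decide +kernel)) h
  · exact lS_good (T := T) (x := Lt.ai) (by decide) hu [Lt.ui, Lt.a, Lt.ci, Lt.ci] (hole_rel hinv hr (by decide +kernel)) h
theorem dp_ai_7_s (hinv : ∀ x, g (inv x) = (g x)⁻¹) (hr : ∀ r ∈ rels, (r.map g).prod = 1) (hH : ∀ r ∈ subs, (r.map g).prod ∈ H)
    (j u : ℕ) (hu : u < M) (h : dp_ai_7 j u = true) : Good (fa g) T MG M (cP g H) Lt.ai u := by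
  unfold dp_ai_7 at h
  rcases brec_true h with h | h
  · exact lF_good (T := T) (x := Lt.ai) (by decide) [Lt.bi, Lt.ai, Lt.bi, Lt.ai, Lt.bi, Lt.ai, Lt.bi] (hole_rel hinv hr (by decide +kernel)) h
  · exact lS_good (T := T) (x := Lt.ai) (by decide) hu [Lt.ai, Lt.b, Lt.a, Lt.a, Lt.bi] (hole_rel hinv hr (by decide +kernel)) h
theorem dp_ai_8_s (hinv : ∀ x, g (inv x) = (g x)⁻¹) (hr : ∀ r ∈ rels, (r.map g).prod = 1) (hH : ∀ r ∈ subs, (r.map g).prod ∈ H)
    (j u : ℕ) (hu : u < M) (h : dp_ai_8 j u = true) : Good (fa g) T MG M (cP g H) Lt.ai u := by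
  unfold dp_ai_8 at h
  rcases brec_true h with h | h
  · exact lF_good (T := T) (x := Lt.ai) (by decide) [Lt.ai, Lt.ai, Lt.ai, Lt.ai, Lt.ai, Lt.ai, Lt.ai] (hole_rel hinv hr (by decide +kernel)) h
  · exact dp_ai_7_s hinv hr hH j u hu h
theorem dp_ai_9_s (hinv : ∀ x, g (inv x) = (g x)⁻¹) (hr : ∀ r ∈ rels, (r.map g).prod = 1) (hH : ∀ r ∈ subs, (r.map g).prod ∈ H)
    (j u : ℕ) (hu : u < M) (h : dp_ai_9 j u = true) : Good (fa g) T MG M (cP g H) Lt.ai u := by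
  unfold dp_ai_9 at h
  rcases brec_true h with h | h
  · exact dp_ai_6_s hinv hr hH j u hu h
  · exact dp_ai_8_s hinv hr hH j u hu h
theorem dp_ai_10_s (hinv : ∀ x, g (inv x) = (g x)⁻¹) (hr : ∀ r ∈ rels, (r.map g).prod = 1) (hH : ∀ r ∈ subs, (r.map g).prod ∈ H)
    (j u : ℕ) (hu : u < M) (h : dp_ai_10 j u = true) : Good (fa g) T MG M (cP g H) Lt.ai u := by
  unfold dp_ai_10 at h
  rcases brec_true h with h | h
  · exact lS_good (T := T) (x := Lt.ai) (by decide) hu [Lt.c, Lt.a, Lt.ui] (hole_rel hinv hr (by decide +kernel)) h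
  · exact dp_ai_9_s hinv hr hH j u hu h
theorem dp_ai_11_s (hinv : ∀ x, g (inv x) = (g x)⁻¹) (hr : ∀ r ∈ rels, (r.map g).prod = 1) (hH : ∀ r ∈ subs, (r.map g).prod ∈ H)
    (j u : ℕ) (hu : u < M) (h : dp_ai_11 j u = true) : Good (fa g) T MG M (cP g H) Lt.ai u := by
  unfold dp_ai_11 at h
  rcases brec_true h with h | h
  · exact dp_ai_5_s hinv hr hH j u hu h
  · exact dp_ai_10_s hinv hr hH j u hu h
theorem dp_ai_12_s (hinv : ∀ x, g (inv x) = (g x)⁻¹) (hr : ∀ r ∈ rels, (r.map g).prod = 1) (hH : ∀ r ∈ subs, (r.map g).prod ∈ H)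
    (j u : ℕ) (hu : u < M) (h : dp_ai_12 j u = true) : Good (fa g) T MG M (cP g H) Lt.ai u := by
  unfold dp_ai_12 at h
  rcases brec_true h with h | h
  · exact dp_ai_4_s hinv hr hH j u hu h
  · exact dp_ai_11_s hinv hr hH j u hu h
theorem dp_ai_13_s (hinv : ∀ x, g (inv x) = (g x)⁻¹) (hr : ∀ r ∈ rels, (r.map g).prod = 1) (hH : ∀ r ∈ subs, (r.map g).prod ∈ H)
    (j u : ℕ) (hu : u < M) (h : dp_ai_13 j u = true) : Good (fa g) T MG M (cP g H) Lt.ai u := by
  unfold dp_ai_13 at h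
  rcases brec_true h with h | h
  · exact dp_ai_3_s hinv hr hH j u hu h
  · exact dp_ai_12_s hinv hr hH j u hu h
theorem dp_ai_14_s (hinv : ∀ x, g (inv x) = (g x)⁻¹) (hr : ∀ r ∈ rels, (r.map g).prod = 1) (hH : ∀ r ∈ subs, (r.map g).prod ∈ H)
    (j u : ℕ) (hu : u < M) (h : dp_ai_14 j u = true) : Good (fa g) T MG M (cP g H) Lt.ai u := by
  unfold dp_ai_14 at h
  rcases brec_true h with h | h
  · exact dp_ai_2_s hinv hr hH j u hu h
  · exact dp_ai_13_s hinv hr hH j u hu h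
theorem dp_ai_15_s (hinv : ∀ x, g (inv x) = (g x)⁻¹) (hr : ∀ r ∈ rels, (r.map g).prod = 1) (hH : ∀ r ∈ subs, (r.map g).prod ∈ H)
    (j u : ℕ) (hu : u < M) (h : dp_ai_15 j u = true) : Good (fa g) T MG M (cP g H) Lt.ai u := by
  unfold dp_ai_15 at h
  rcases brec_true h with h | h
  · exact dp_ai_0_s hinv hr hH j u hu h
  · exact dp_ai_14_s hinv hr hH j u hu h
theorem dp_ai_16_s (hinv : ∀ x, g (inv x) = (g x)⁻¹) (hr : ∀ r ∈ rels, (r.map g).prod = 1) (hH : ∀ r ∈ subs, (r.map g).prod ∈ H)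
    (j u : ℕ) (hu : u < M) (h : dp_ai_16 j u = true) : Good (fa g) T MG M (cP g H) Lt.ai u := by
  unfold dp_ai_16 at h
  rcases brec_true h with h | h
  · rcases brec_true h with h | h
    · exact lF3_good (T := T) (x := Lt.ai) (by decide) .ci .a .u (hole_rel hinv hr (by decide +kernel)) h
    · exact lDef_good (T := T) (x := Lt.ai) (by decide) rfl h
  · exact dp_ai_15_s hinv hr hH j u hu h
theorem snd_ai (hinv : ∀ x, g (inv x) = (g x)⁻¹) (hr : ∀ r ∈ rels, (r.map g).prod = 1) (hH : ∀ r ∈ subs, (r.map g).prod ∈ H)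
    (j u : ℕ) (hu : u < M) (h : disp_ai j u = true) : Good (fa g) T MG M (cP g H) Lt.ai u := by
  unfold disp_ai at h
  rcases brec_true h with h | h
  · rcases brec_true h with h | h
    · exact lF1_good (T := T) (x := Lt.ai) (by decide) .a (hole_rel hinv hr (by decide +kernel)) h
    · exact lF3_good (T := T) (x := Lt.ai) (by decide) .c .a .ui (hole_rel hinv hr (by decide +kernel)) h
  · exact dp_ai_16_s hinv hr hH j u hu h
theorem snc_ai (hinv : ∀ x, g (inv x) = (g x)⁻¹) (hr : ∀ r ∈ rels, (r.map g).prod = 1) (hH : ∀ r ∈ subs, (r.map g).prod ∈ H)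
    (j u : ℕ) (hu : u < M) (h : chk_ai j u = true) : (T Lt.ai u < A ∧ Good (fa g) T MG M (cP g H) Lt.ai u) ∨ (A ≤ T Lt.ai u ∧ MG u < A) := by
  unfold chk_ai at h
  cases hb : Nat.ble A (T_ai u) with
  | true => rw [hb] at h; exact Or.inr ⟨le_of_ble hb, le_of_ble h⟩
  | false => rw [hb] at h; exact Or.inl ⟨lt_of_ble_false hb, snd_ai hinv hr hH j u hu h⟩
theorem dp_b_0_s (hinv : ∀ x, g (inv x) = (g x)⁻¹) (hr : ∀ r ∈ rels, (r.map g).prod = 1) (hH : ∀ r ∈ subs, (r.map g).prod ∈ H)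
    (j u : ℕ) (hu : u < M) (h : dp_b_0 j u = true) : Good (fa g) T MG M (cP g H) Lt.b u := by
  unfold dp_b_0 at h
  rcases brec_true h with h | h
  · exact lF_good (T := T) (x := Lt.b) (by decide) [Lt.b, Lt.b, Lt.b, Lt.b] (hole_rel hinv hr (by decide +kernel)) h
  · exact lS_good (T := T) (x := Lt.b) (by decide) hu [Lt.bi] (hole_rel hinv hr (by decide +kernel)) h
theorem dp_b_1_s (hinv : ∀ x, g (inv x) = (g x)⁻¹) (hr : ∀ r ∈ rels, (r.map g).prod = 1) (hH : ∀ r ∈ subs, (r.map g).prod ∈ H)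
    (j u : ℕ) (hu : u < M) (h : dp_b_1 j u = true) : Good (fa g) T MG M (cP g H) Lt.b u := by
  unfold dp_b_1 at h
  rcases brec_true h with h | h
  · exact lS_good (T := T) (x := Lt.b) (by decide) hu [Lt.wi, Lt.bi, Lt.w] (hole_rel hinv hr (by decide +kernel)) h
  · exact lF_good (T := T) (x := Lt.b) (by decide) [Lt.v, Lt.w, Lt.bi, Lt.ci, Lt.b, Lt.vi, Lt.bi, Lt.c] (hole_rel hinv hr (by decide +kernel)) h
theorem dp_b_2_s (hinv : ∀ x, g (inv x) = (g x)⁻¹) (hr : ∀ r ∈ rels, (r.map g).prod = 1) (hH : ∀ r ∈ subs, (r.map g).prod ∈ H)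
    (j u : ℕ) (hu : u < M) (h : dp_b_2 j u = true) : Good (fa g) T MG M (cP g H) Lt.b u := by
  unfold dp_b_2 at h
  rcases brec_true h with h | h
  · exact lS_good (T := T) (x := Lt.b) (by decide) hu [Lt.c, Lt.bi, Lt.vi] (hole_rel hinv hr (by decide +kernel)) h
  · exact dp_b_1_s hinv hr hH j u hu h
theorem dp_b_3_s (hinv : ∀ x, g (inv x) = (g x)⁻¹) (hr : ∀ r ∈ rels, (r.map g).prod = 1) (hH : ∀ r ∈ subs, (r.map g).prod ∈ H)
    (j u : ℕ) (hu : u < M) (h : dp_b_3 j u = true) : Good (fa g) T MG M (cP g H) Lt.b u := by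
  unfold dp_b_3 at h
  rcases brec_true h with h | h
  · exact lF_good (T := T) (x := Lt.b) (by decide) [Lt.vi, Lt.bi, Lt.c, Lt.b, Lt.v, Lt.w, Lt.bi, Lt.ci] (hole_rel hinv hr (by decide +kernel)) h
  · exact lS_good (T := T) (x := Lt.b) (by decide) hu [Lt.w, Lt.bi, Lt.wi] (hole_rel hinv hr (by decide +kernel)) h
theorem dp_b_4_s (hinv : ∀ x, g (inv x) = (g x)⁻¹) (hr : ∀ r ∈ rels, (r.map g).prod = 1) (hH : ∀ r ∈ subs, (r.map g).prod ∈ H)
    (j u : ℕ) (hu : u < M) (h : dp_b_4 j u = true) : Good (fa g) T MG M (cP g H) Lt.b u := by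
  unfold dp_b_4 at h
  rcases brec_true h with h | h
  · exact lF_good (T := T) (x := Lt.b) (by decide) [Lt.ai, Lt.ai, Lt.bi, Lt.a, Lt.a] (hole_rel hinv hr (by decide +kernel)) h
  · exact lF_good (T := T) (x := Lt.b) (by decide) [Lt.ui, Lt.bi, Lt.c, Lt.b, Lt.u, Lt.wi, Lt.bi, Lt.ci] (hole_rel hinv hr (by decide +kernel)) h
theorem dp_b_5_s (hinv : ∀ x, g (inv x) = (g x)⁻¹) (hr : ∀ r ∈ rels, (r.map g).prod = 1) (hH : ∀ r ∈ subs, (r.map g).prod ∈ H)
    (j u : ℕ) (hu : u < M) (h : dp_b_5 j u = true) : Good (fa g) T MG M (cP g H) Lt.b u := by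
  unfold dp_b_5 at h
  rcases brec_true h with h | h
  · exact dp_b_3_s hinv hr hH j u hu h
  · exact dp_b_4_s hinv hr hH j u hu h
theorem dp_b_6_s (hinv : ∀ x, g (inv x) = (g x)⁻¹) (hr : ∀ r ∈ rels, (r.map g).prod = 1) (hH : ∀ r ∈ subs, (r.map g).prod ∈ H)
    (j u : ℕ) (hu : u < M) (h : dp_b_6 j u = true) : Good (fa g) T MG M (cP g H) Lt.b u := by
  unfold dp_b_6 at h
  rcases brec_true h with h | h
  · exact dp_b_2_s hinv hr hH j u hu h
  · exact dp_b_5_s hinv hr hH j u hu h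
theorem dp_b_7_s (hinv : ∀ x, g (inv x) = (g x)⁻¹) (hr : ∀ r ∈ rels, (r.map g).prod = 1) (hH : ∀ r ∈ subs, (r.map g).prod ∈ H)
    (j u : ℕ) (hu : u < M) (h : dp_b_7 j u = true) : Good (fa g) T MG M (cP g H) Lt.b u := by
  unfold dp_b_7 at h
  rcases brec_true h with h | h
  · exact lF_good (T := T) (x := Lt.b) (by decide) [Lt.w, Lt.ui, Lt.bi, Lt.ci, Lt.b, Lt.u, Lt.bi, Lt.c] (hole_rel hinv hr (by decide +kernel)) h
  · exact lF_good (T := T) (x := Lt.b) (by decide) [Lt.u, Lt.wi, Lt.bi, Lt.ci, Lt.b, Lt.ui, Lt.bi, Lt.c] (hole_rel hinv hr (by decide +kernel)) h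
theorem dp_b_8_s (hinv : ∀ x, g (inv x) = (g x)⁻¹) (hr : ∀ r ∈ rels, (r.map g).prod = 1) (hH : ∀ r ∈ subs, (r.map g).prod ∈ H)
    (j u : ℕ) (hu : u < M) (h : dp_b_8 j u = true) : Good (fa g) T MG M (cP g H) Lt.b u := by
  unfold dp_b_8 at h
  rcases brec_true h with h | h
  · exact lF_good (T := T) (x := Lt.b) (by decide) [Lt.a, Lt.a, Lt.bi, Lt.ai, Lt.ai] (hole_rel hinv hr (by decide +kernel)) h
  · exact lF_good (T := T) (x := Lt.b) (by decide) [Lt.v, Lt.bi, Lt.c, Lt.b, Lt.wi, Lt.vi, Lt.bi, Lt.ci] (hole_rel hinv hr (by decide +kernel)) h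
theorem dp_b_9_s (hinv : ∀ x, g (inv x) = (g x)⁻¹) (hr : ∀ r ∈ rels, (r.map g).prod = 1) (hH : ∀ r ∈ subs, (r.map g).prod ∈ H)
    (j u : ℕ) (hu : u < M) (h : dp_b_9 j u = true) : Good (fa g) T MG M (cP g H) Lt.b u := by
  unfold dp_b_9 at h
  rcases brec_true h with h | h
  · exact lF_good (T := T) (x := Lt.b) (by decide) [Lt.u, Lt.bi, Lt.c, Lt.b, Lt.w, Lt.ui, Lt.bi, Lt.ci] (hole_rel hinv hr (by decide +kernel)) h
  · exact dp_b_8_s hinv hr hH j u hu h
theorem dp_b_10_s (hinv : ∀ x, g (inv x) = (g x)⁻¹) (hr : ∀ r ∈ rels, (r.map g).prod = 1) (hH : ∀ r ∈ subs, (r.map g).prod ∈ H)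
    (j u : ℕ) (hu : u < M) (h : dp_b_10 j u = true) : Good (fa g) T MG M (cP g H) Lt.b u := by
  unfold dp_b_10 at h
  rcases brec_true h with h | h
  · exact dp_b_7_s hinv hr hH j u hu h
  · exact dp_b_9_s hinv hr hH j u hu h
theorem dp_b_11_s (hinv : ∀ x, g (inv x) = (g x)⁻¹) (hr : ∀ r ∈ rels, (r.map g).prod = 1) (hH : ∀ r ∈ subs, (r.map g).prod ∈ H)
    (j u : ℕ) (hu : u < M) (h : dp_b_11 j u = true) : Good (fa g) T MG M (cP g H) Lt.b u := by
  unfold dp_b_11 at h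
  rcases brec_true h with h | h
  · exact lF_good (T := T) (x := Lt.b) (by decide) [Lt.wi, Lt.vi, Lt.bi, Lt.ci, Lt.b, Lt.v, Lt.bi, Lt.c] (hole_rel hinv hr (by decide +kernel)) h
  · exact lF_good (T := T) (x := Lt.b) (by decide) [Lt.u, Lt.bi, Lt.c, Lt.b, Lt.vi, Lt.ci, Lt.vi, Lt.bi, Lt.ui] (hole_rel hinv hr (by decide +kernel)) h
theorem dp_b_12_s (hinv : ∀ x, g (inv x) = (g x)⁻¹) (hr : ∀ r ∈ rels, (r.map g).prod = 1) (hH : ∀ r ∈ subs, (r.map g).prod ∈ H)
    (j u : ℕ) (hu : u < M) (h : dp_b_12 j u = true) : Good (fa g) T MG M (cP g H) Lt.b u := by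
  unfold dp_b_12 at h
  rcases brec_true h with h | h
  · exact lF_good (T := T) (x := Lt.b) (by decide) [Lt.v, Lt.c, Lt.v, Lt.bi, Lt.ci, Lt.b, Lt.ui, Lt.bi, Lt.u] (hole_rel hinv hr (by decide +kernel)) h
  · exact lF_good (T := T) (x := Lt.b) (by decide) [Lt.c, Lt.c, Lt.v, Lt.bi, Lt.ci, Lt.ci, Lt.bi, Lt.ci, Lt.b] (hole_rel hinv hr (by decide +kernel)) h
theorem dp_b_13_s (hinv : ∀ x, g (inv x) = (g x)⁻¹) (hr : ∀ r ∈ rels, (r.map g).prod = 1) (hH : ∀ r ∈ subs, (r.map g).prod ∈ H)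
    (j u : ℕ) (hu : u < M) (h : dp_b_13 j u = true) : Good (fa g) T MG M (cP g H) Lt.b u := by
  unfold dp_b_13 at h
  rcases brec_true h with h | h
  · exact dp_b_11_s hinv hr hH j u hu h
  · exact dp_b_12_s hinv hr hH j u hu h
theorem dp_b_14_s (hinv : ∀ x, g (inv x) = (g x)⁻¹) (hr : ∀ r ∈ rels, (r.map g).prod = 1) (hH : ∀ r ∈ subs, (r.map g).prod ∈ H)
    (j u : ℕ) (hu : u < M) (h : dp_b_14 j u = true) : Good (fa g) T MG M (cP g H) Lt.b u := by
  unfold dp_b_14 at h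
  rcases brec_true h with h | h
  · exact lF_good (T := T) (x := Lt.b) (by decide) [Lt.b, Lt.c, Lt.c, Lt.v, Lt.bi, Lt.ci, Lt.ci, Lt.bi, Lt.ci] (hole_rel hinv hr (by decide +kernel)) h
  · exact lS_good (T := T) (x := Lt.b) (by decide) hu [Lt.ci, Lt.bi, Lt.v] (hole_rel hinv hr (by decide +kernel)) h
theorem dp_b_15_s (hinv : ∀ x, g (inv x) = (g x)⁻¹) (hr : ∀ r ∈ rels, (r.map g).prod = 1) (hH : ∀ r ∈ subs, (r.map g).prod ∈ H)
    (j u : ℕ) (hu : u < M) (h : dp_b_15 j u = true) : Good (fa g) T MG M (cP g H) Lt.b u := by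
  unfold dp_b_15 at h
  rcases brec_true h with h | h
  · exact lH_good (T := T) (x := Lt.b) (by decide) [] [] (by rw [show cP g H 0 = _ from cc_zero]; exact sub_rel hinv (hH _ (by decide))) h
  · exact dp_b_14_s hinv hr hH j u hu h
theorem dp_b_16_s (hinv : ∀ x, g (inv x) = (g x)⁻¹) (hr : ∀ r ∈ rels, (r.map g).prod = 1) (hH : ∀ r ∈ subs, (r.map g).prod ∈ H)
    (j u : ℕ) (hu : u < M) (h : dp_b_16 j u = true) : Good (fa g) T MG M (cP g H) Lt.b u := by
  unfold dp_b_16 at h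
  rcases brec_true h with h | h
  · exact lS_good (T := T) (x := Lt.b) (by decide) hu [Lt.v, Lt.w, Lt.bi, Lt.ci, Lt.b, Lt.vi, Lt.bi, Lt.c] (hole_rel hinv hr (by decide +kernel)) h
  · exact dp_b_15_s hinv hr hH j u hu h
theorem dp_b_17_s (hinv : ∀ x, g (inv x) = (g x)⁻¹) (hr : ∀ r ∈ rels, (r.map g).prod = 1) (hH : ∀ r ∈ subs, (r.map g).prod ∈ H)
    (j u : ℕ) (hu : u < M) (h : dp_b_17 j u = true) : Good (fa g) T MG M (cP g H) Lt.b u := by
  unfold dp_b_17 at h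
  rcases brec_true h with h | h
  · exact lS_good (T := T) (x := Lt.b) (by decide) hu [Lt.ai, Lt.ai, Lt.bi, Lt.a, Lt.a] (hole_rel hinv hr (by decide +kernel)) h
  · exact lS_good (T := T) (x := Lt.b) (by decide) hu [Lt.a, Lt.a, Lt.bi, Lt.ai, Lt.ai] (hole_rel hinv hr (by decide +kernel)) h
theorem dp_b_18_s (hinv : ∀ x, g (inv x) = (g x)⁻¹) (hr : ∀ r ∈ rels, (r.map g).prod = 1) (hH : ∀ r ∈ subs, (r.map g).prod ∈ H)
    (j u : ℕ) (hu : u < M) (h : dp_b_18 j u = true) : Good (fa g) T MG M (cP g H) Lt.b u := by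
  unfold dp_b_18 at h
  rcases brec_true h with h | h
  · exact lF_good (T := T) (x := Lt.b) (by decide) [Lt.vi, Lt.ci, Lt.vi, Lt.bi, Lt.ui, Lt.b, Lt.u, Lt.bi, Lt.c] (hole_rel hinv hr (by decide +kernel)) h
  · exact lS_good (T := T) (x := Lt.b) (by decide) hu [Lt.w, Lt.ui, Lt.bi, Lt.ci, Lt.b, Lt.u, Lt.bi, Lt.c] (hole_rel hinv hr (by decide +kernel)) h
theorem dp_b_19_s (hinv : ∀ x, g (inv x) = (g x)⁻¹) (hr : ∀ r ∈ rels, (r.map g).prod = 1) (hH : ∀ r ∈ subs, (r.map g).prod ∈ H)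
    (j u : ℕ) (hu : u < M) (h : dp_b_19 j u = true) : Good (fa g) T MG M (cP g H) Lt.b u := by
  unfold dp_b_19 at h
  rcases brec_true h with h | h
  · exact lS_good (T := T) (x := Lt.b) (by decide) hu [Lt.u, Lt.bi, Lt.c, Lt.b, Lt.w, Lt.ui, Lt.bi, Lt.ci] (hole_rel hinv hr (by decide +kernel)) h
  · exact dp_b_18_s hinv hr hH j u hu h
theorem dp_b_20_s (hinv : ∀ x, g (inv x) = (g x)⁻¹) (hr : ∀ r ∈ rels, (r.map g).prod = 1) (hH : ∀ r ∈ subs, (r.map g).prod ∈ H)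
    (j u : ℕ) (hu : u < M) (h : dp_b_20 j u = true) : Good (fa g) T MG M (cP g H) Lt.b u := by
  unfold dp_b_20 at h
  rcases brec_true h with h | h
  · exact dp_b_17_s hinv hr hH j u hu h
  · exact dp_b_19_s hinv hr hH j u hu h
theorem dp_b_21_s (hinv : ∀ x, g (inv x) = (g x)⁻¹) (hr : ∀ r ∈ rels, (r.map g).prod = 1) (hH : ∀ r ∈ subs, (r.map g).prod ∈ H)
    (j u : ℕ) (hu : u < M) (h : dp_b_21 j u = true) : Good (fa g) T MG M (cP g H) Lt.b u := by
  unfold dp_b_21 at h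
  rcases brec_true h with h | h
  · exact dp_b_16_s hinv hr hH j u hu h
  · exact dp_b_20_s hinv hr hH j u hu h
theorem dp_b_22_s (hinv : ∀ x, g (inv x) = (g x)⁻¹) (hr : ∀ r ∈ rels, (r.map g).prod = 1) (hH : ∀ r ∈ subs, (r.map g).prod ∈ H)
    (j u : ℕ) (hu : u < M) (h : dp_b_22 j u = true) : Good (fa g) T MG M (cP g H) Lt.b u := by
  unfold dp_b_22 at h
  rcases brec_true h with h | h
  · exact dp_b_13_s hinv hr hH j u hu h
  · exact dp_b_21_s hinv hr hH j u hu h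
theorem dp_b_23_s (hinv : ∀ x, g (inv x) = (g x)⁻¹) (hr : ∀ r ∈ rels, (r.map g).prod = 1) (hH : ∀ r ∈ subs, (r.map g).prod ∈ H)
    (j u : ℕ) (hu : u < M) (h : dp_b_23 j u = true) : Good (fa g) T MG M (cP g H) Lt.b u := by
  unfold dp_b_23 at h
  rcases brec_true h with h | h
  · exact dp_b_10_s hinv hr hH j u hu h
  · exact dp_b_22_s hinv hr hH j u hu h
theorem dp_b_24_s (hinv : ∀ x, g (inv x) = (g x)⁻¹) (hr : ∀ r ∈ rels, (r.map g).prod = 1) (hH : ∀ r ∈ subs, (r.map g).prod ∈ H)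
    (j u : ℕ) (hu : u < M) (h : dp_b_24 j u = true) : Good (fa g) T MG M (cP g H) Lt.b u := by
  unfold dp_b_24 at h
  rcases brec_true h with h | h
  · exact dp_b_6_s hinv hr hH j u hu h
  · exact dp_b_23_s hinv hr hH j u hu h
theorem dp_b_25_s (hinv : ∀ x, g (inv x) = (g x)⁻¹) (hr : ∀ r ∈ rels, (r.map g).prod = 1) (hH : ∀ r ∈ subs, (r.map g).prod ∈ H)
    (j u : ℕ) (hu : u < M) (h : dp_b_25 j u = true) : Good (fa g) T MG M (cP g H) Lt.b u := by
  unfold dp_b_25 at h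
  rcases brec_true h with h | h
  · exact dp_b_0_s hinv hr hH j u hu h
  · exact dp_b_24_s hinv hr hH j u hu h
theorem dp_b_26_s (hinv : ∀ x, g (inv x) = (g x)⁻¹) (hr : ∀ r ∈ rels, (r.map g).prod = 1) (hH : ∀ r ∈ subs, (r.map g).prod ∈ H)
    (j u : ℕ) (hu : u < M) (h : dp_b_26 j u = true) : Good (fa g) T MG M (cP g H) Lt.b u := by
  unfold dp_b_26 at h
  rcases brec_true h with h | h
  · exact lDef_good (T := T) (x := Lt.b) (by decide) rfl h
  · exact dp_b_25_s hinv hr hH j u hu h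
theorem dp_b_27_s (hinv : ∀ x, g (inv x) = (g x)⁻¹) (hr : ∀ r ∈ rels, (r.map g).prod = 1) (hH : ∀ r ∈ subs, (r.map g).prod ∈ H)
    (j u : ℕ) (hu : u < M) (h : dp_b_27 j u = true) : Good (fa g) T MG M (cP g H) Lt.b u := by
  unfold dp_b_27 at h
  rcases brec_true h with h | h
  · exact lF3_good (T := T) (x := Lt.b) (by decide) .ci .bi .v (hole_rel hinv hr (by decide +kernel)) h
  · exact dp_b_26_s hinv hr hH j u hu h
theorem dp_b_28_s (hinv : ∀ x, g (inv x) = (g x)⁻¹) (hr : ∀ r ∈ rels, (r.map g).prod = 1) (hH : ∀ r ∈ subs, (r.map g).prod ∈ H)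
    (j u : ℕ) (hu : u < M) (h : dp_b_28 j u = true) : Good (fa g) T MG M (cP g H) Lt.b u := by
  unfold dp_b_28 at h
  rcases brec_true h with h | h
  · rcases brec_true h with h | h
    · exact lF3_good (T := T) (x := Lt.b) (by decide) .w .bi .wi (hole_rel hinv hr (by decide +kernel)) h
    · rcases brec_true h with h | h
      · exact lPar_good (T := T) (x := Lt.b) (x' := Lt.bi) (by decide) rfl (inv_rel hinv _ _ rfl) h
      · exact lF3_good (T := T) (x := Lt.b) (by decide) .c .bi .vi (hole_rel hinv hr (by decide +kernel)) h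
  · exact dp_b_27_s hinv hr hH j u hu h
theorem snd_b (hinv : ∀ x, g (inv x) = (g x)⁻¹) (hr : ∀ r ∈ rels, (r.map g).prod = 1) (hH : ∀ r ∈ subs, (r.map g).prod ∈ H)
    (j u : ℕ) (hu : u < M) (h : disp_b j u = true) : Good (fa g) T MG M (cP g H) Lt.b u := by
  unfold disp_b at h
  rcases brec_true h with h | h
  · rcases brec_true h with h | h
    · exact lF1_good (T := T) (x := Lt.b) (by decide) .bi (hole_rel hinv hr (by decide +kernel)) h
    · exact lF3_good (T := T) (x := Lt.b) (by decide) .wi .bi .w (hole_rel hinv hr (by decide +kernel)) h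
  · exact dp_b_28_s hinv hr hH j u hu h
theorem snc_b (hinv : ∀ x, g (inv x) = (g x)⁻¹) (hr : ∀ r ∈ rels, (r.map g).prod = 1) (hH : ∀ r ∈ subs, (r.map g).prod ∈ H)
    (j u : ℕ) (hu : u < M) (h : chk_b j u = true) : (T Lt.b u < A ∧ Good (fa g) T MG M (cP g H) Lt.b u) ∨ (A ≤ T Lt.b u ∧ MG u < A) := by
  unfold chk_b at h
  cases hb : Nat.ble A (T_b u) with
  | true => rw [hb] at h; exact Or.inr ⟨le_of_ble hb, le_of_ble h⟩
  | false => rw [hb] at h; exact Or.inl ⟨lt_of_ble_false hb, snd_b hinv hr hH j u hu h⟩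
theorem dp_bi_0_s (hinv : ∀ x, g (inv x) = (g x)⁻¹) (hr : ∀ r ∈ rels, (r.map g).prod = 1) (hH : ∀ r ∈ subs, (r.map g).prod ∈ H)
    (j u : ℕ) (hu : u < M) (h : dp_bi_0 j u = true) : Good (fa g) T MG M (cP g H) Lt.bi u := by
  unfold dp_bi_0 at h
  rcases brec_true h with h | h
  · exact lS_good (T := T) (x := Lt.bi) (by decide) hu [Lt.b] (hole_rel hinv hr (by decide +kernel)) h
  · exact lF_good (T := T) (x := Lt.bi) (by decide) [Lt.bi, Lt.bi, Lt.bi, Lt.bi] (hole_rel hinv hr (by decide +kernel)) h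
theorem dp_bi_1_s (hinv : ∀ x, g (inv x) = (g x)⁻¹) (hr : ∀ r ∈ rels, (r.map g).prod = 1) (hH : ∀ r ∈ subs, (r.map g).prod ∈ H)
    (j u : ℕ) (hu : u < M) (h : dp_bi_1 j u = true) : Good (fa g) T MG M (cP g H) Lt.bi u := by
  unfold dp_bi_1 at h
  rcases brec_true h with h | h
  · exact lS_good (T := T) (x := Lt.bi) (by decide) hu [Lt.v, Lt.b, Lt.ci] (hole_rel hinv hr (by decide +kernel)) h
  · exact lF_good (T := T) (x := Lt.bi) (by decide) [Lt.ci, Lt.b, Lt.u, Lt.bi, Lt.c, Lt.b, Lt.w, Lt.ui] (hole_rel hinv hr (by decide +kernel)) h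
theorem dp_bi_2_s (hinv : ∀ x, g (inv x) = (g x)⁻¹) (hr : ∀ r ∈ rels, (r.map g).prod = 1) (hH : ∀ r ∈ subs, (r.map g).prod ∈ H)
    (j u : ℕ) (hu : u < M) (h : dp_bi_2 j u = true) : Good (fa g) T MG M (cP g H) Lt.bi u := by
  unfold dp_bi_2 at h
  rcases brec_true h with h | h
  · exact lS_good (T := T) (x := Lt.bi) (by decide) hu [Lt.w, Lt.b, Lt.wi] (hole_rel hinv hr (by decide +kernel)) h
  · exact lF_good (T := T) (x := Lt.bi) (by decide) [Lt.ai, Lt.ai, Lt.b, Lt.a, Lt.a] (hole_rel hinv hr (by decide +kernel)) h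
theorem dp_bi_3_s (hinv : ∀ x, g (inv x) = (g x)⁻¹) (hr : ∀ r ∈ rels, (r.map g).prod = 1) (hH : ∀ r ∈ subs, (r.map g).prod ∈ H)
    (j u : ℕ) (hu : u < M) (h : dp_bi_3 j u = true) : Good (fa g) T MG M (cP g H) Lt.bi u := by
  unfold dp_bi_3 at h
  rcases brec_true h with h | h
  · exact lS_good (T := T) (x := Lt.bi) (by decide) hu [Lt.vi, Lt.b, Lt.c] (hole_rel hinv hr (by decide +kernel)) h
  · exact dp_bi_2_s hinv hr hH j u hu h
theorem dp_bi_4_s (hinv : ∀ x, g (inv x) = (g x)⁻¹) (hr : ∀ r ∈ rels, (r.map g).prod = 1) (hH : ∀ r ∈ subs, (r.map g).prod ∈ H)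
    (j u : ℕ) (hu : u < M) (h : dp_bi_4 j u = true) : Good (fa g) T MG M (cP g H) Lt.bi u := by
  unfold dp_bi_4 at h
  rcases brec_true h with h | h
  · exact dp_bi_1_s hinv hr hH j u hu h
  · exact dp_bi_3_s hinv hr hH j u hu h
theorem dp_bi_5_s (hinv : ∀ x, g (inv x) = (g x)⁻¹) (hr : ∀ r ∈ rels, (r.map g).prod = 1) (hH : ∀ r ∈ subs, (r.map g).prod ∈ H)
    (j u : ℕ) (hu : u < M) (h : dp_bi_5 j u = true) : Good (fa g) T MG M (cP g H) Lt.bi u := by
  unfold dp_bi_5 at h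
  rcases brec_true h with h | h
  · exact lF_good (T := T) (x := Lt.bi) (by decide) [Lt.ci, Lt.b, Lt.v, Lt.bi, Lt.c, Lt.b, Lt.wi, Lt.vi] (hole_rel hinv hr (by decide +kernel)) h
  · exact lS_good (T := T) (x := Lt.bi) (by decide) hu [Lt.wi, Lt.b, Lt.w] (hole_rel hinv hr (by decide +kernel)) h
theorem dp_bi_6_s (hinv : ∀ x, g (inv x) = (g x)⁻¹) (hr : ∀ r ∈ rels, (r.map g).prod = 1) (hH : ∀ r ∈ subs, (r.map g).prod ∈ H)
    (j u : ℕ) (hu : u < M) (h : dp_bi_6 j u = true) : Good (fa g) T MG M (cP g H) Lt.bi u := by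
  unfold dp_bi_6 at h
  rcases brec_true h with h | h
  · exact lF_good (T := T) (x := Lt.bi) (by decide) [Lt.u, Lt.b, Lt.v, Lt.c, Lt.v, Lt.bi, Lt.ci, Lt.b, Lt.ui] (hole_rel hinv hr (by decide +kernel)) h
  · exact lF_good (T := T) (x := Lt.bi) (by decide) [Lt.ui, Lt.b, Lt.u, Lt.bi, Lt.c, Lt.b, Lt.vi, Lt.ci, Lt.vi] (hole_rel hinv hr (by decide +kernel)) h
theorem dp_bi_7_s (hinv : ∀ x, g (inv x) = (g x)⁻¹) (hr : ∀ r ∈ rels, (r.map g).prod = 1) (hH : ∀ r ∈ subs, (r.map g).prod ∈ H)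
    (j u : ℕ) (hu : u < M) (h : dp_bi_7 j u = true) : Good (fa g) T MG M (cP g H) Lt.bi u := by
  unfold dp_bi_7 at h
  rcases brec_true h with h | h
  · exact dp_bi_5_s hinv hr hH j u hu h
  · exact dp_bi_6_s hinv hr hH j u hu h
theorem dp_bi_8_s (hinv : ∀ x, g (inv x) = (g x)⁻¹) (hr : ∀ r ∈ rels, (r.map g).prod = 1) (hH : ∀ r ∈ subs, (r.map g).prod ∈ H)
    (j u : ℕ) (hu : u < M) (h : dp_bi_8 j u = true) : Good (fa g) T MG M (cP g H) Lt.bi u := by
  unfold dp_bi_8 at h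
  rcases brec_true h with h | h
  · exact lF_good (T := T) (x := Lt.bi) (by decide) [Lt.c, Lt.b, Lt.w, Lt.ui, Lt.bi, Lt.ci, Lt.b, Lt.u] (hole_rel hinv hr (by decide +kernel)) h
  · exact lF_good (T := T) (x := Lt.bi) (by decide) [Lt.c, Lt.b, Lt.v, Lt.w, Lt.bi, Lt.ci, Lt.b, Lt.vi] (hole_rel hinv hr (by decide +kernel)) h
theorem dp_bi_9_s (hinv : ∀ x, g (inv x) = (g x)⁻¹) (hr : ∀ r ∈ rels, (r.map g).prod = 1) (hH : ∀ r ∈ subs, (r.map g).prod ∈ H)
    (j u : ℕ) (hu : u < M) (h : dp_bi_9 j u = true) : Good (fa g) T MG M (cP g H) Lt.bi u := by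
  unfold dp_bi_9 at h
  rcases brec_true h with h | h
  · exact lF_good (T := T) (x := Lt.bi) (by decide) [Lt.c, Lt.b, Lt.u, Lt.wi, Lt.bi, Lt.ci, Lt.b, Lt.ui] (hole_rel hinv hr (by decide +kernel)) h
  · exact lS_good (T := T) (x := Lt.bi) (by decide) hu [Lt.bi, Lt.bi, Lt.bi, Lt.bi] (hole_rel hinv hr (by decide +kernel)) h
theorem dp_bi_10_s (hinv : ∀ x, g (inv x) = (g x)⁻¹) (hr : ∀ r ∈ rels, (r.map g).prod = 1) (hH : ∀ r ∈ subs, (r.map g).prod ∈ H)
    (j u : ℕ) (hu : u < M) (h : dp_bi_10 j u = true) : Good (fa g) T MG M (cP g H) Lt.bi u := by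
  unfold dp_bi_10 at h
  rcases brec_true h with h | h
  · exact dp_bi_8_s hinv hr hH j u hu h
  · exact dp_bi_9_s hinv hr hH j u hu h
theorem dp_bi_11_s (hinv : ∀ x, g (inv x) = (g x)⁻¹) (hr : ∀ r ∈ rels, (r.map g).prod = 1) (hH : ∀ r ∈ subs, (r.map g).prod ∈ H)
    (j u : ℕ) (hu : u < M) (h : dp_bi_11 j u = true) : Good (fa g) T MG M (cP g H) Lt.bi u := by
  unfold dp_bi_11 at h
  rcases brec_true h with h | h
  · exact lF_good (T := T) (x := Lt.bi) (by decide) [Lt.ci, Lt.b, Lt.c, Lt.bi, Lt.c, Lt.b, Lt.w, Lt.w, Lt.ci] (hole_rel hinv hr (by decide +kernel)) h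
  · exact lF_good (T := T) (x := Lt.bi) (by decide) [Lt.ci, Lt.b, Lt.vi, Lt.bi, Lt.c, Lt.b, Lt.v, Lt.w] (hole_rel hinv hr (by decide +kernel)) h
theorem dp_bi_12_s (hinv : ∀ x, g (inv x) = (g x)⁻¹) (hr : ∀ r ∈ rels, (r.map g).prod = 1) (hH : ∀ r ∈ subs, (r.map g).prod ∈ H)
    (j u : ℕ) (hu : u < M) (h : dp_bi_12 j u = true) : Good (fa g) T MG M (cP g H) Lt.bi u := by
  unfold dp_bi_12 at h
  rcases brec_true h with h | h
  · exact lF_good (T := T) (x := Lt.bi) (by decide) [Lt.ci, Lt.ci, Lt.bi, Lt.ci, Lt.b, Lt.b, Lt.c, Lt.c, Lt.v] (hole_rel hinv hr (by decide +kernel)) h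
  · exact dp_bi_11_s hinv hr hH j u hu h
theorem dp_bi_13_s (hinv : ∀ x, g (inv x) = (g x)⁻¹) (hr : ∀ r ∈ rels, (r.map g).prod = 1) (hH : ∀ r ∈ subs, (r.map g).prod ∈ H)
    (j u : ℕ) (hu : u < M) (h : dp_bi_13 j u = true) : Good (fa g) T MG M (cP g H) Lt.bi u := by
  unfold dp_bi_13 at h
  rcases brec_true h with h | h
  · exact lF_good (T := T) (x := Lt.bi) (by decide) [Lt.ci, Lt.b, Lt.ui, Lt.bi, Lt.c, Lt.b, Lt.u, Lt.wi] (hole_rel hinv hr (by decide +kernel)) h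
  · exact dp_bi_12_s hinv hr hH j u hu h
theorem dp_bi_14_s (hinv : ∀ x, g (inv x) = (g x)⁻¹) (hr : ∀ r ∈ rels, (r.map g).prod = 1) (hH : ∀ r ∈ subs, (r.map g).prod ∈ H)
    (j u : ℕ) (hu : u < M) (h : dp_bi_14 j u = true) : Good (fa g) T MG M (cP g H) Lt.bi u := by
  unfold dp_bi_14 at h
  rcases brec_true h with h | h
  · exact lS_good (T := T) (x := Lt.bi) (by decide) hu [Lt.ci, Lt.b, Lt.v, Lt.bi, Lt.c, Lt.b, Lt.wi, Lt.vi] (hole_rel hinv hr (by decide +kernel)) h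
  · exact lF_good (T := T) (x := Lt.bi) (by decide) [Lt.c, Lt.b, Lt.c, Lt.c, Lt.b, Lt.vi, Lt.ci, Lt.ci, Lt.bi] (hole_rel hinv hr (by decide +kernel)) h
theorem dp_bi_15_s (hinv : ∀ x, g (inv x) = (g x)⁻¹) (hr : ∀ r ∈ rels, (r.map g).prod = 1) (hH : ∀ r ∈ subs, (r.map g).prod ∈ H)
    (j u : ℕ) (hu : u < M) (h : dp_bi_15 j u = true) : Good (fa g) T MG M (cP g H) Lt.bi u := by
  unfold dp_bi_15 at h
  rcases brec_true h with h | h
  · exact lF_good (T := T) (x := Lt.bi) (by decide) [Lt.c, Lt.b, Lt.wi, Lt.vi, Lt.bi, Lt.ci, Lt.b, Lt.v] (hole_rel hinv hr (by decide +kernel)) h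
  · exact dp_bi_14_s hinv hr hH j u hu h
theorem dp_bi_16_s (hinv : ∀ x, g (inv x) = (g x)⁻¹) (hr : ∀ r ∈ rels, (r.map g).prod = 1) (hH : ∀ r ∈ subs, (r.map g).prod ∈ H)
    (j u : ℕ) (hu : u < M) (h : dp_bi_16 j u = true) : Good (fa g) T MG M (cP g H) Lt.bi u := by
  unfold dp_bi_16 at h
  rcases brec_true h with h | h
  · exact lS_good (T := T) (x := Lt.bi) (by decide) hu [Lt.c, Lt.b, Lt.u, Lt.wi, Lt.bi, Lt.ci, Lt.b, Lt.ui] (hole_rel hinv hr (by decide +kernel)) h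
  · exact lS_good (T := T) (x := Lt.bi) (by decide) hu [Lt.c, Lt.b, Lt.c, Lt.c, Lt.b, Lt.vi, Lt.ci, Lt.ci, Lt.bi] (hole_rel hinv hr (by decide +kernel)) h
theorem dp_bi_17_s (hinv : ∀ x, g (inv x) = (g x)⁻¹) (hr : ∀ r ∈ rels, (r.map g).prod = 1) (hH : ∀ r ∈ subs, (r.map g).prod ∈ H)
    (j u : ℕ) (hu : u < M) (h : dp_bi_17 j u = true) : Good (fa g) T MG M (cP g H) Lt.bi u := by
  unfold dp_bi_17 at h
  rcases brec_true h with h | h
  · exact lF_good (T := T) (x := Lt.bi) (by decide) [Lt.a, Lt.a, Lt.b, Lt.ai, Lt.ai] (hole_rel hinv hr (by decide +kernel)) h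
  · exact dp_bi_16_s hinv hr hH j u hu h
theorem dp_bi_18_s (hinv : ∀ x, g (inv x) = (g x)⁻¹) (hr : ∀ r ∈ rels, (r.map g).prod = 1) (hH : ∀ r ∈ subs, (r.map g).prod ∈ H)
    (j u : ℕ) (hu : u < M) (h : dp_bi_18 j u = true) : Good (fa g) T MG M (cP g H) Lt.bi u := by
  unfold dp_bi_18 at h
  rcases brec_true h with h | h
  · exact dp_bi_15_s hinv hr hH j u hu h
  · exact dp_bi_17_s hinv hr hH j u hu h
theorem dp_bi_19_s (hinv : ∀ x, g (inv x) = (g x)⁻¹) (hr : ∀ r ∈ rels, (r.map g).prod = 1) (hH : ∀ r ∈ subs, (r.map g).prod ∈ H)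
    (j u : ℕ) (hu : u < M) (h : dp_bi_19 j u = true) : Good (fa g) T MG M (cP g H) Lt.bi u := by
  unfold dp_bi_19 at h
  rcases brec_true h with h | h
  · exact dp_bi_13_s hinv hr hH j u hu h
  · exact dp_bi_18_s hinv hr hH j u hu h
theorem dp_bi_20_s (hinv : ∀ x, g (inv x) = (g x)⁻¹) (hr : ∀ r ∈ rels, (r.map g).prod = 1) (hH : ∀ r ∈ subs, (r.map g).prod ∈ H)
    (j u : ℕ) (hu : u < M) (h : dp_bi_20 j u = true) : Good (fa g) T MG M (cP g H) Lt.bi u := by
  unfold dp_bi_20 at h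
  rcases brec_true h with h | h
  · exact dp_bi_10_s hinv hr hH j u hu h
  · exact dp_bi_19_s hinv hr hH j u hu h
theorem dp_bi_21_s (hinv : ∀ x, g (inv x) = (g x)⁻¹) (hr : ∀ r ∈ rels, (r.map g).prod = 1) (hH : ∀ r ∈ subs, (r.map g).prod ∈ H)
    (j u : ℕ) (hu : u < M) (h : dp_bi_21 j u = true) : Good (fa g) T MG M (cP g H) Lt.bi u := by
  unfold dp_bi_21 at h
  rcases brec_true h with h | h
  · exact dp_bi_7_s hinv hr hH j u hu h
  · exact dp_bi_20_s hinv hr hH j u hu h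
theorem dp_bi_22_s (hinv : ∀ x, g (inv x) = (g x)⁻¹) (hr : ∀ r ∈ rels, (r.map g).prod = 1) (hH : ∀ r ∈ subs, (r.map g).prod ∈ H)
    (j u : ℕ) (hu : u < M) (h : dp_bi_22 j u = true) : Good (fa g) T MG M (cP g H) Lt.bi u := by
  unfold dp_bi_22 at h
  rcases brec_true h with h | h
  · exact dp_bi_4_s hinv hr hH j u hu h
  · exact dp_bi_21_s hinv hr hH j u hu h
theorem dp_bi_23_s (hinv : ∀ x, g (inv x) = (g x)⁻¹) (hr : ∀ r ∈ rels, (r.map g).prod = 1) (hH : ∀ r ∈ subs, (r.map g).prod ∈ H)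
    (j u : ℕ) (hu : u < M) (h : dp_bi_23 j u = true) : Good (fa g) T MG M (cP g H) Lt.bi u := by
  unfold dp_bi_23 at h
  rcases brec_true h with h | h
  · exact dp_bi_0_s hinv hr hH j u hu h
  · exact dp_bi_22_s hinv hr hH j u hu h
theorem dp_bi_24_s (hinv : ∀ x, g (inv x) = (g x)⁻¹) (hr : ∀ r ∈ rels, (r.map g).prod = 1) (hH : ∀ r ∈ subs, (r.map g).prod ∈ H)
    (j u : ℕ) (hu : u < M) (h : dp_bi_24 j u = true) : Good (fa g) T MG M (cP g H) Lt.bi u := by
  unfold dp_bi_24 at h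
  rcases brec_true h with h | h
  · exact lPar_good (T := T) (x := Lt.bi) (x' := Lt.b) (by decide) rfl (inv_rel hinv _ _ rfl) h
  · exact dp_bi_23_s hinv hr hH j u hu h
theorem dp_bi_25_s (hinv : ∀ x, g (inv x) = (g x)⁻¹) (hr : ∀ r ∈ rels, (r.map g).prod = 1) (hH : ∀ r ∈ subs, (r.map g).prod ∈ H)
    (j u : ℕ) (hu : u < M) (h : dp_bi_25 j u = true) : Good (fa g) T MG M (cP g H) Lt.bi u := by
  unfold dp_bi_25 at h
  rcases brec_true h with h | h
  · exact lF3_good (T := T) (x := Lt.bi) (by decide) .v .b .ci (hole_rel hinv hr (by decide +kernel)) h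
  · exact dp_bi_24_s hinv hr hH j u hu h
theorem dp_bi_26_s (hinv : ∀ x, g (inv x) = (g x)⁻¹) (hr : ∀ r ∈ rels, (r.map g).prod = 1) (hH : ∀ r ∈ subs, (r.map g).prod ∈ H)
    (j u : ℕ) (hu : u < M) (h : dp_bi_26 j u = true) : Good (fa g) T MG M (cP g H) Lt.bi u := by
  unfold dp_bi_26 at h
  rcases brec_true h with h | h
  · rcases brec_true h with h | h
    · exact lF3_good (T := T) (x := Lt.bi) (by decide) .wi .b .w (hole_rel hinv hr (by decide +kernel)) h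
    · rcases brec_true h with h | h
      · exact lF3_good (T := T) (x := Lt.bi) (by decide) .vi .b .c (hole_rel hinv hr (by decide +kernel)) h
      · exact lDef_good (T := T) (x := Lt.bi) (by decide) rfl h
  · exact dp_bi_25_s hinv hr hH j u hu h
theorem snd_bi (hinv : ∀ x, g (inv x) = (g x)⁻¹) (hr : ∀ r ∈ rels, (r.map g).prod = 1) (hH : ∀ r ∈ subs, (r.map g).prod ∈ H)
    (j u : ℕ) (hu : u < M) (h : disp_bi j u = true) : Good (fa g) T MG M (cP g H) Lt.bi u := by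
  unfold disp_bi at h
  rcases brec_true h with h | h
  · rcases brec_true h with h | h
    · exact lF1_good (T := T) (x := Lt.bi) (by decide) .b (hole_rel hinv hr (by decide +kernel)) h
    · exact lF3_good (T := T) (x := Lt.bi) (by decide) .w .b .wi (hole_rel hinv hr (by decide +kernel)) h
  · exact dp_bi_26_s hinv hr hH j u hu h
theorem snc_bi (hinv : ∀ x, g (inv x) = (g x)⁻¹) (hr : ∀ r ∈ rels, (r.map g).prod = 1) (hH : ∀ r ∈ subs, (r.map g).prod ∈ H)
    (j u : ℕ) (hu : u < M) (h : chk_bi j u = true) : (T Lt.bi u < A ∧ Good (fa g) T MG M (cP g H) Lt.bi u) ∨ (A ≤ T Lt.bi u ∧ MG u < A) := by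
  unfold chk_bi at h
  cases hb : Nat.ble A (T_bi u) with
  | true => rw [hb] at h; exact Or.inr ⟨le_of_ble hb, le_of_ble h⟩
  | false => rw [hb] at h; exact Or.inl ⟨lt_of_ble_false hb, snd_bi hinv hr hH j u hu h⟩
theorem dp_c_0_s (hinv : ∀ x, g (inv x) = (g x)⁻¹) (hr : ∀ r ∈ rels, (r.map g).prod = 1) (hH : ∀ r ∈ subs, (r.map g).prod ∈ H)
    (j u : ℕ) (hu : u < M) (h : dp_c_0 j u = true) : Good (fa g) T MG M (cP g H) Lt.c u := by
  unfold dp_c_0 at h
  rcases brec_true h with h | h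
  · exact lF3_good (T := T) (x := Lt.c) (by decide) .a .ui .ai (hole_rel hinv hr (by decide +kernel)) h
  · exact lS_good (T := T) (x := Lt.c) (by decide) hu [Lt.ci] (hole_rel hinv hr (by decide +kernel)) h
theorem dp_c_1_s (hinv : ∀ x, g (inv x) = (g x)⁻¹) (hr : ∀ r ∈ rels, (r.map g).prod = 1) (hH : ∀ r ∈ subs, (r.map g).prod ∈ H)
    (j u : ℕ) (hu : u < M) (h : dp_c_1 j u = true) : Good (fa g) T MG M (cP g H) Lt.c u := by
  unfold dp_c_1 at h
  rcases brec_true h with h | h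
  · exact lF_good (T := T) (x := Lt.c) (by decide) [Lt.w, Lt.ui, Lt.ci, Lt.u] (hole_rel hinv hr (by decide +kernel)) h
  · exact lF_good (T := T) (x := Lt.c) (by decide) [Lt.c, Lt.c, Lt.c, Lt.c] (hole_rel hinv hr (by decide +kernel)) h
theorem dp_c_2_s (hinv : ∀ x, g (inv x) = (g x)⁻¹) (hr : ∀ r ∈ rels, (r.map g).prod = 1) (hH : ∀ r ∈ subs, (r.map g).prod ∈ H)
    (j u : ℕ) (hu : u < M) (h : dp_c_2 j u = true) : Good (fa g) T MG M (cP g H) Lt.c u := by
  unfold dp_c_2 at h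
  rcases brec_true h with h | h
  · exact lF_good (T := T) (x := Lt.c) (by decide) [Lt.u, Lt.wi, Lt.ci, Lt.ui] (hole_rel hinv hr (by decide +kernel)) h
  · exact dp_c_1_s hinv hr hH j u hu h
theorem dp_c_3_s (hinv : ∀ x, g (inv x) = (g x)⁻¹) (hr : ∀ r ∈ rels, (r.map g).prod = 1) (hH : ∀ r ∈ subs, (r.map g).prod ∈ H)
    (j u : ℕ) (hu : u < M) (h : dp_c_3 j u = true) : Good (fa g) T MG M (cP g H) Lt.c u := by
  unfold dp_c_3 at h
  rcases brec_true h with h | h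
  · exact lF_good (T := T) (x := Lt.c) (by decide) [Lt.v, Lt.wi, Lt.wi, Lt.ci, Lt.vi] (hole_rel hinv hr (by decide +kernel)) h
  · exact lF_good (T := T) (x := Lt.c) (by decide) [Lt.c, Lt.ai, Lt.u, Lt.a] (hole_rel hinv hr (by decide +kernel)) h
theorem dp_c_4_s (hinv : ∀ x, g (inv x) = (g x)⁻¹) (hr : ∀ r ∈ rels, (r.map g).prod = 1) (hH : ∀ r ∈ subs, (r.map g).prod ∈ H)
    (j u : ℕ) (hu : u < M) (h : dp_c_4 j u = true) : Good (fa g) T MG M (cP g H) Lt.c u := by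
  unfold dp_c_4 at h
  rcases brec_true h with h | h
  · exact lF_good (T := T) (x := Lt.c) (by decide) [Lt.ai, Lt.u, Lt.a, Lt.c] (hole_rel hinv hr (by decide +kernel)) h
  · exact dp_c_3_s hinv hr hH j u hu h
theorem dp_c_5_s (hinv : ∀ x, g (inv x) = (g x)⁻¹) (hr : ∀ r ∈ rels, (r.map g).prod = 1) (hH : ∀ r ∈ subs, (r.map g).prod ∈ H)
    (j u : ℕ) (hu : u < M) (h : dp_c_5 j u = true) : Good (fa g) T MG M (cP g H) Lt.c u := by
  unfold dp_c_5 at h
  rcases brec_true h with h | h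
  · exact lS_good (T := T) (x := Lt.c) (by decide) hu [Lt.w, Lt.ci, Lt.wi] (hole_rel hinv hr (by decide +kernel)) h
  · exact lS_good (T := T) (x := Lt.c) (by decide) hu [Lt.wi, Lt.ci, Lt.w] (hole_rel hinv hr (by decide +kernel)) h
theorem dp_c_6_s (hinv : ∀ x, g (inv x) = (g x)⁻¹) (hr : ∀ r ∈ rels, (r.map g).prod = 1) (hH : ∀ r ∈ subs, (r.map g).prod ∈ H)
    (j u : ℕ) (hu : u < M) (h : dp_c_6 j u = true) : Good (fa g) T MG M (cP g H) Lt.c u := by
  unfold dp_c_6 at h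
  rcases brec_true h with h | h
  · exact lF_good (T := T) (x := Lt.c) (by decide) [Lt.w, Lt.w, Lt.vi, Lt.ci, Lt.v] (hole_rel hinv hr (by decide +kernel)) h
  · exact dp_c_5_s hinv hr hH j u hu h
theorem dp_c_7_s (hinv : ∀ x, g (inv x) = (g x)⁻¹) (hr : ∀ r ∈ rels, (r.map g).prod = 1) (hH : ∀ r ∈ subs, (r.map g).prod ∈ H)
    (j u : ℕ) (hu : u < M) (h : dp_c_7 j u = true) : Good (fa g) T MG M (cP g H) Lt.c u := by
  unfold dp_c_7 at h
  rcases brec_true h with h | h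
  · exact lF_good (T := T) (x := Lt.c) (by decide) [Lt.v, Lt.bi, Lt.ci, Lt.b, Lt.ui, Lt.bi, Lt.u, Lt.b, Lt.v] (hole_rel hinv hr (by decide +kernel)) h
  · exact lF_good (T := T) (x := Lt.c) (by decide) [Lt.b, Lt.w, Lt.ui, Lt.bi, Lt.ci, Lt.b, Lt.u, Lt.bi] (hole_rel hinv hr (by decide +kernel)) h
theorem dp_c_8_s (hinv : ∀ x, g (inv x) = (g x)⁻¹) (hr : ∀ r ∈ rels, (r.map g).prod = 1) (hH : ∀ r ∈ subs, (r.map g).prod ∈ H)
    (j u : ℕ) (hu : u < M) (h : dp_c_8 j u = true) : Good (fa g) T MG M (cP g H) Lt.c u := by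
  unfold dp_c_8 at h
  rcases brec_true h with h | h
  · exact lF_good (T := T) (x := Lt.c) (by decide) [Lt.b, Lt.u, Lt.wi, Lt.bi, Lt.ci, Lt.b, Lt.ui, Lt.bi] (hole_rel hinv hr (by decide +kernel)) h
  · exact lF_good (T := T) (x := Lt.c) (by decide) [Lt.b, Lt.wi, Lt.vi, Lt.bi, Lt.ci, Lt.b, Lt.v, Lt.bi] (hole_rel hinv hr (by decide +kernel)) h
theorem dp_c_9_s (hinv : ∀ x, g (inv x) = (g x)⁻¹) (hr : ∀ r ∈ rels, (r.map g).prod = 1) (hH : ∀ r ∈ subs, (r.map g).prod ∈ H)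
    (j u : ℕ) (hu : u < M) (h : dp_c_9 j u = true) : Good (fa g) T MG M (cP g H) Lt.c u := by
  unfold dp_c_9 at h
  rcases brec_true h with h | h
  · exact dp_c_7_s hinv hr hH j u hu h
  · exact dp_c_8_s hinv hr hH j u hu h
theorem dp_c_10_s (hinv : ∀ x, g (inv x) = (g x)⁻¹) (hr : ∀ r ∈ rels, (r.map g).prod = 1) (hH : ∀ r ∈ subs, (r.map g).prod ∈ H)
    (j u : ℕ) (hu : u < M) (h : dp_c_10 j u = true) : Good (fa g) T MG M (cP g H) Lt.c u := by
  unfold dp_c_10 at h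
  rcases brec_true h with h | h
  · exact lS_good (T := T) (x := Lt.c) (by decide) hu [Lt.b, Lt.v, Lt.w, Lt.bi, Lt.ci, Lt.b, Lt.vi, Lt.bi] (hole_rel hinv hr (by decide +kernel)) h
  · exact lS_good (T := T) (x := Lt.c) (by decide) hu [Lt.a, Lt.ui, Lt.ai] (hole_rel hinv hr (by decide +kernel)) h
theorem dp_c_11_s (hinv : ∀ x, g (inv x) = (g x)⁻¹) (hr : ∀ r ∈ rels, (r.map g).prod = 1) (hH : ∀ r ∈ subs, (r.map g).prod ∈ H)
    (j u : ℕ) (hu : u < M) (h : dp_c_11 j u = true) : Good (fa g) T MG M (cP g H) Lt.c u := by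
  unfold dp_c_11 at h
  rcases brec_true h with h | h
  · exact lS_good (T := T) (x := Lt.c) (by decide) hu [Lt.bi, Lt.vi, Lt.b] (hole_rel hinv hr (by decide +kernel)) h
  · exact dp_c_10_s hinv hr hH j u hu h
theorem dp_c_12_s (hinv : ∀ x, g (inv x) = (g x)⁻¹) (hr : ∀ r ∈ rels, (r.map g).prod = 1) (hH : ∀ r ∈ subs, (r.map g).prod ∈ H)
    (j u : ℕ) (hu : u < M) (h : dp_c_12 j u = true) : Good (fa g) T MG M (cP g H) Lt.c u := by
  unfold dp_c_12 at h
  rcases brec_true h with h | h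
  · exact lS_good (T := T) (x := Lt.c) (by decide) hu [Lt.w, Lt.ui, Lt.ci, Lt.u] (hole_rel hinv hr (by decide +kernel)) h
  · exact dp_c_11_s hinv hr hH j u hu h
theorem dp_c_13_s (hinv : ∀ x, g (inv x) = (g x)⁻¹) (hr : ∀ r ∈ rels, (r.map g).prod = 1) (hH : ∀ r ∈ subs, (r.map g).prod ∈ H)
    (j u : ℕ) (hu : u < M) (h : dp_c_13 j u = true) : Good (fa g) T MG M (cP g H) Lt.c u := by
  unfold dp_c_13 at h
  rcases brec_true h with h | h
  · exact lF_good (T := T) (x := Lt.c) (by decide) [Lt.b, Lt.vi, Lt.ci, Lt.ci, Lt.bi, Lt.bi, Lt.c, Lt.b, Lt.c] (hole_rel hinv hr (by decide +kernel)) h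
  · exact lF_good (T := T) (x := Lt.c) (by decide) [Lt.b, Lt.ai, Lt.bi, Lt.c, Lt.b, Lt.a, Lt.vi, Lt.ci, Lt.bi, Lt.c] (hole_rel hinv hr (by decide +kernel)) h
theorem dp_c_14_s (hinv : ∀ x, g (inv x) = (g x)⁻¹) (hr : ∀ r ∈ rels, (r.map g).prod = 1) (hH : ∀ r ∈ subs, (r.map g).prod ∈ H)
    (j u : ℕ) (hu : u < M) (h : dp_c_14 j u = true) : Good (fa g) T MG M (cP g H) Lt.c u := by
  unfold dp_c_14 at h
  rcases brec_true h with h | h
  · exact lF_good (T := T) (x := Lt.c) (by decide) [Lt.c, Lt.b, Lt.vi, Lt.ci, Lt.ci, Lt.bi, Lt.bi, Lt.c, Lt.b] (hole_rel hinv hr (by decide +kernel)) h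
  · exact dp_c_13_s hinv hr hH j u hu h
theorem dp_c_15_s (hinv : ∀ x, g (inv x) = (g x)⁻¹) (hr : ∀ r ∈ rels, (r.map g).prod = 1) (hH : ∀ r ∈ subs, (r.map g).prod ∈ H)
    (j u : ℕ) (hu : u < M) (h : dp_c_15 j u = true) : Good (fa g) T MG M (cP g H) Lt.c u := by
  unfold dp_c_15 at h
  rcases brec_true h with h | h
  · exact lF_good (T := T) (x := Lt.c) (by decide) [Lt.b, Lt.v, Lt.w, Lt.bi, Lt.ci, Lt.b, Lt.vi, Lt.bi] (hole_rel hinv hr (by decide +kernel)) h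
  · exact lS_good (T := T) (x := Lt.c) (by decide) hu [Lt.c, Lt.c, Lt.c, Lt.c] (hole_rel hinv hr (by decide +kernel)) h
theorem dp_c_16_s (hinv : ∀ x, g (inv x) = (g x)⁻¹) (hr : ∀ r ∈ rels, (r.map g).prod = 1) (hH : ∀ r ∈ subs, (r.map g).prod ∈ H)
    (j u : ℕ) (hu : u < M) (h : dp_c_16 j u = true) : Good (fa g) T MG M (cP g H) Lt.c u := by
  unfold dp_c_16 at h
  rcases brec_true h with h | h
  · exact lS_good (T := T) (x := Lt.c) (by decide) hu [Lt.v, Lt.bi, Lt.ci, Lt.b, Lt.ui, Lt.bi, Lt.u, Lt.b, Lt.v] (hole_rel hinv hr (by decide +kernel)) h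
  · exact dp_c_15_s hinv hr hH j u hu h
theorem dp_c_17_s (hinv : ∀ x, g (inv x) = (g x)⁻¹) (hr : ∀ r ∈ rels, (r.map g).prod = 1) (hH : ∀ r ∈ subs, (r.map g).prod ∈ H)
    (j u : ℕ) (hu : u < M) (h : dp_c_17 j u = true) : Good (fa g) T MG M (cP g H) Lt.c u := by
  unfold dp_c_17 at h
  rcases brec_true h with h | h
  · exact dp_c_14_s hinv hr hH j u hu h
  · exact dp_c_16_s hinv hr hH j u hu h
theorem dp_c_18_s (hinv : ∀ x, g (inv x) = (g x)⁻¹) (hr : ∀ r ∈ rels, (r.map g).prod = 1) (hH : ∀ r ∈ subs, (r.map g).prod ∈ H)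
    (j u : ℕ) (hu : u < M) (h : dp_c_18 j u = true) : Good (fa g) T MG M (cP g H) Lt.c u := by
  unfold dp_c_18 at h
  rcases brec_true h with h | h
  · exact dp_c_12_s hinv hr hH j u hu h
  · exact dp_c_17_s hinv hr hH j u hu h
theorem dp_c_19_s (hinv : ∀ x, g (inv x) = (g x)⁻¹) (hr : ∀ r ∈ rels, (r.map g).prod = 1) (hH : ∀ r ∈ subs, (r.map g).prod ∈ H)
    (j u : ℕ) (hu : u < M) (h : dp_c_19 j u = true) : Good (fa g) T MG M (cP g H) Lt.c u := by
  unfold dp_c_19 at h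
  rcases brec_true h with h | h
  · exact dp_c_9_s hinv hr hH j u hu h
  · exact dp_c_18_s hinv hr hH j u hu h
theorem dp_c_20_s (hinv : ∀ x, g (inv x) = (g x)⁻¹) (hr : ∀ r ∈ rels, (r.map g).prod = 1) (hH : ∀ r ∈ subs, (r.map g).prod ∈ H)
    (j u : ℕ) (hu : u < M) (h : dp_c_20 j u = true) : Good (fa g) T MG M (cP g H) Lt.c u := by
  unfold dp_c_20 at h
  rcases brec_true h with h | h
  · exact dp_c_6_s hinv hr hH j u hu h
  · exact dp_c_19_s hinv hr hH j u hu h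
theorem dp_c_21_s (hinv : ∀ x, g (inv x) = (g x)⁻¹) (hr : ∀ r ∈ rels, (r.map g).prod = 1) (hH : ∀ r ∈ subs, (r.map g).prod ∈ H)
    (j u : ℕ) (hu : u < M) (h : dp_c_21 j u = true) : Good (fa g) T MG M (cP g H) Lt.c u := by
  unfold dp_c_21 at h
  rcases brec_true h with h | h
  · exact dp_c_4_s hinv hr hH j u hu h
  · exact dp_c_20_s hinv hr hH j u hu h
theorem dp_c_22_s (hinv : ∀ x, g (inv x) = (g x)⁻¹) (hr : ∀ r ∈ rels, (r.map g).prod = 1) (hH : ∀ r ∈ subs, (r.map g).prod ∈ H)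
    (j u : ℕ) (hu : u < M) (h : dp_c_22 j u = true) : Good (fa g) T MG M (cP g H) Lt.c u := by
  unfold dp_c_22 at h
  rcases brec_true h with h | h
  · exact dp_c_2_s hinv hr hH j u hu h
  · exact dp_c_21_s hinv hr hH j u hu h
theorem dp_c_23_s (hinv : ∀ x, g (inv x) = (g x)⁻¹) (hr : ∀ r ∈ rels, (r.map g).prod = 1) (hH : ∀ r ∈ subs, (r.map g).prod ∈ H)
    (j u : ℕ) (hu : u < M) (h : dp_c_23 j u = true) : Good (fa g) T MG M (cP g H) Lt.c u := by
  unfold dp_c_23 at h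
  rcases brec_true h with h | h
  · exact dp_c_0_s hinv hr hH j u hu h
  · exact dp_c_22_s hinv hr hH j u hu h
theorem dp_c_24_s (hinv : ∀ x, g (inv x) = (g x)⁻¹) (hr : ∀ r ∈ rels, (r.map g).prod = 1) (hH : ∀ r ∈ subs, (r.map g).prod ∈ H)
    (j u : ℕ) (hu : u < M) (h : dp_c_24 j u = true) : Good (fa g) T MG M (cP g H) Lt.c u := by
  unfold dp_c_24 at h
  rcases brec_true h with h | h
  · rcases brec_true h with h | h
    · exact lDef_good (T := T) (x := Lt.c) (by decide) rfl h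
    · exact lF3_good (T := T) (x := Lt.c) (by decide) .bi .vi .b (hole_rel hinv hr (by decide +kernel)) h
  · exact dp_c_23_s hinv hr hH j u hu h
theorem dp_c_25_s (hinv : ∀ x, g (inv x) = (g x)⁻¹) (hr : ∀ r ∈ rels, (r.map g).prod = 1) (hH : ∀ r ∈ subs, (r.map g).prod ∈ H)
    (j u : ℕ) (hu : u < M) (h : dp_c_25 j u = true) : Good (fa g) T MG M (cP g H) Lt.c u := by
  unfold dp_c_25 at h
  rcases brec_true h with h | h
  · rcases brec_true h with h | h
    · exact lF3_good (T := T) (x := Lt.c) (by decide) .w .ci .wi (hole_rel hinv hr (by decide +kernel)) h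
    · exact lPar_good (T := T) (x := Lt.c) (x' := Lt.ci) (by decide) rfl (inv_rel hinv _ _ rfl) h
  · exact dp_c_24_s hinv hr hH j u hu h
theorem snd_c (hinv : ∀ x, g (inv x) = (g x)⁻¹) (hr : ∀ r ∈ rels, (r.map g).prod = 1) (hH : ∀ r ∈ subs, (r.map g).prod ∈ H)
    (j u : ℕ) (hu : u < M) (h : disp_c j u = true) : Good (fa g) T MG M (cP g H) Lt.c u := by
  unfold disp_c at h
  rcases brec_true h with h | h
  · rcases brec_true h with h | h
    · exact lF1_good (T := T) (x := Lt.c) (by decide) .ci (hole_rel hinv hr (by decide +kernel)) h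
    · exact lF3_good (T := T) (x := Lt.c) (by decide) .wi .ci .w (hole_rel hinv hr (by decide +kernel)) h
  · exact dp_c_25_s hinv hr hH j u hu h
theorem snc_c (hinv : ∀ x, g (inv x) = (g x)⁻¹) (hr : ∀ r ∈ rels, (r.map g).prod = 1) (hH : ∀ r ∈ subs, (r.map g).prod ∈ H)
    (j u : ℕ) (hu : u < M) (h : chk_c j u = true) : (T Lt.c u < A ∧ Good (fa g) T MG M (cP g H) Lt.c u) ∨ (A ≤ T Lt.c u ∧ MG u < A) := by
  unfold chk_c at h
  cases hb : Nat.ble A (T_c u) with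
  | true => rw [hb] at h; exact Or.inr ⟨le_of_ble hb, le_of_ble h⟩
  | false => rw [hb] at h; exact Or.inl ⟨lt_of_ble_false hb, snd_c hinv hr hH j u hu h⟩
theorem dp_ci_0_s (hinv : ∀ x, g (inv x) = (g x)⁻¹) (hr : ∀ r ∈ rels, (r.map g).prod = 1) (hH : ∀ r ∈ subs, (r.map g).prod ∈ H)
    (j u : ℕ) (hu : u < M) (h : dp_ci_0 j u = true) : Good (fa g) T MG M (cP g H) Lt.ci u := by
  unfold dp_ci_0 at h
  rcases brec_true h with h | h
  · exact lF3_good (T := T) (x := Lt.ci) (by decide) .bi .v .b (hole_rel hinv hr (by decide +kernel)) h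
  · exact lS_good (T := T) (x := Lt.ci) (by decide) hu [Lt.c] (hole_rel hinv hr (by decide +kernel)) h
theorem dp_ci_1_s (hinv : ∀ x, g (inv x) = (g x)⁻¹) (hr : ∀ r ∈ rels, (r.map g).prod = 1) (hH : ∀ r ∈ subs, (r.map g).prod ∈ H)
    (j u : ℕ) (hu : u < M) (h : dp_ci_1 j u = true) : Good (fa g) T MG M (cP g H) Lt.ci u := by
  unfold dp_ci_1 at h
  rcases brec_true h with h | h
  · exact lF_good (T := T) (x := Lt.ci) (by decide) [Lt.ai, Lt.ui, Lt.a, Lt.ci] (hole_rel hinv hr (by decide +kernel)) h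
  · exact lF_good (T := T) (x := Lt.ci) (by decide) [Lt.ui, Lt.c, Lt.u, Lt.wi] (hole_rel hinv hr (by decide +kernel)) h
theorem dp_ci_2_s (hinv : ∀ x, g (inv x) = (g x)⁻¹) (hr : ∀ r ∈ rels, (r.map g).prod = 1) (hH : ∀ r ∈ subs, (r.map g).prod ∈ H)
    (j u : ℕ) (hu : u < M) (h : dp_ci_2 j u = true) : Good (fa g) T MG M (cP g H) Lt.ci u := by
  unfold dp_ci_2 at h
  rcases brec_true h with h | h
  · exact lF_good (T := T) (x := Lt.ci) (by decide) [Lt.u, Lt.c, Lt.w, Lt.ui] (hole_rel hinv hr (by decide +kernel)) h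
  · exact dp_ci_1_s hinv hr hH j u hu h
theorem dp_ci_3_s (hinv : ∀ x, g (inv x) = (g x)⁻¹) (hr : ∀ r ∈ rels, (r.map g).prod = 1) (hH : ∀ r ∈ subs, (r.map g).prod ∈ H)
    (j u : ℕ) (hu : u < M) (h : dp_ci_3 j u = true) : Good (fa g) T MG M (cP g H) Lt.ci u := by
  unfold dp_ci_3 at h
  rcases brec_true h with h | h
  · exact lF_good (T := T) (x := Lt.ci) (by decide) [Lt.ci, Lt.ai, Lt.ui, Lt.a] (hole_rel hinv hr (by decide +kernel)) h
  · exact lF_good (T := T) (x := Lt.ci) (by decide) [Lt.ci, Lt.ci, Lt.ci, Lt.ci] (hole_rel hinv hr (by decide +kernel)) h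
theorem dp_ci_4_s (hinv : ∀ x, g (inv x) = (g x)⁻¹) (hr : ∀ r ∈ rels, (r.map g).prod = 1) (hH : ∀ r ∈ subs, (r.map g).prod ∈ H)
    (j u : ℕ) (hu : u < M) (h : dp_ci_4 j u = true) : Good (fa g) T MG M (cP g H) Lt.ci u := by
  unfold dp_ci_4 at h
  rcases brec_true h with h | h
  · exact lF_good (T := T) (x := Lt.ci) (by decide) [Lt.v, Lt.c, Lt.w, Lt.w, Lt.vi] (hole_rel hinv hr (by decide +kernel)) h
  · exact dp_ci_3_s hinv hr hH j u hu h
theorem dp_ci_5_s (hinv : ∀ x, g (inv x) = (g x)⁻¹) (hr : ∀ r ∈ rels, (r.map g).prod = 1) (hH : ∀ r ∈ subs, (r.map g).prod ∈ H)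
    (j u : ℕ) (hu : u < M) (h : dp_ci_5 j u = true) : Good (fa g) T MG M (cP g H) Lt.ci u := by
  unfold dp_ci_5 at h
  rcases brec_true h with h | h
  · exact lS_good (T := T) (x := Lt.ci) (by decide) hu [Lt.w, Lt.c, Lt.wi] (hole_rel hinv hr (by decide +kernel)) h
  · exact lF_good (T := T) (x := Lt.ci) (by decide) [Lt.b, Lt.u, Lt.bi, Lt.c, Lt.b, Lt.w, Lt.ui, Lt.bi] (hole_rel hinv hr (by decide +kernel)) h
theorem dp_ci_6_s (hinv : ∀ x, g (inv x) = (g x)⁻¹) (hr : ∀ r ∈ rels, (r.map g).prod = 1) (hH : ∀ r ∈ subs, (r.map g).prod ∈ H)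
    (j u : ℕ) (hu : u < M) (h : dp_ci_6 j u = true) : Good (fa g) T MG M (cP g H) Lt.ci u := by
  unfold dp_ci_6 at h
  rcases brec_true h with h | h
  · exact lS_good (T := T) (x := Lt.ci) (by decide) hu [Lt.wi, Lt.c, Lt.w] (hole_rel hinv hr (by decide +kernel)) h
  · exact dp_ci_5_s hinv hr hH j u hu h
theorem dp_ci_7_s (hinv : ∀ x, g (inv x) = (g x)⁻¹) (hr : ∀ r ∈ rels, (r.map g).prod = 1) (hH : ∀ r ∈ subs, (r.map g).prod ∈ H)
    (j u : ℕ) (hu : u < M) (h : dp_ci_7 j u = true) : Good (fa g) T MG M (cP g H) Lt.ci u := by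
  unfold dp_ci_7 at h
  rcases brec_true h with h | h
  · exact lF_good (T := T) (x := Lt.ci) (by decide) [Lt.b, Lt.ui, Lt.bi, Lt.c, Lt.b, Lt.u, Lt.wi, Lt.bi] (hole_rel hinv hr (by decide +kernel)) h
  · exact lF_good (T := T) (x := Lt.ci) (by decide) [Lt.b, Lt.vi, Lt.bi, Lt.c, Lt.b, Lt.v, Lt.w, Lt.bi] (hole_rel hinv hr (by decide +kernel)) h
theorem dp_ci_8_s (hinv : ∀ x, g (inv x) = (g x)⁻¹) (hr : ∀ r ∈ rels, (r.map g).prod = 1) (hH : ∀ r ∈ subs, (r.map g).prod ∈ H)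
    (j u : ℕ) (hu : u < M) (h : dp_ci_8 j u = true) : Good (fa g) T MG M (cP g H) Lt.ci u := by
  unfold dp_ci_8 at h
  rcases brec_true h with h | h
  · exact lF_good (T := T) (x := Lt.ci) (by decide) [Lt.vi, Lt.c, Lt.v, Lt.wi, Lt.wi] (hole_rel hinv hr (by decide +kernel)) h
  · exact dp_ci_7_s hinv hr hH j u hu h
theorem dp_ci_9_s (hinv : ∀ x, g (inv x) = (g x)⁻¹) (hr : ∀ r ∈ rels, (r.map g).prod = 1) (hH : ∀ r ∈ subs, (r.map g).prod ∈ H)
    (j u : ℕ) (hu : u < M) (h : dp_ci_9 j u = true) : Good (fa g) T MG M (cP g H) Lt.ci u := by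
  unfold dp_ci_9 at h
  rcases brec_true h with h | h
  · exact lF_good (T := T) (x := Lt.ci) (by decide) [Lt.ci, Lt.bi, Lt.bi, Lt.c, Lt.b, Lt.c, Lt.c, Lt.b, Lt.vi] (hole_rel hinv hr (by decide +kernel)) h
  · exact lF_good (T := T) (x := Lt.ci) (by decide) [Lt.b, Lt.v, Lt.bi, Lt.c, Lt.b, Lt.wi, Lt.vi, Lt.bi] (hole_rel hinv hr (by decide +kernel)) h
theorem dp_ci_10_s (hinv : ∀ x, g (inv x) = (g x)⁻¹) (hr : ∀ r ∈ rels, (r.map g).prod = 1) (hH : ∀ r ∈ subs, (r.map g).prod ∈ H)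
    (j u : ℕ) (hu : u < M) (h : dp_ci_10 j u = true) : Good (fa g) T MG M (cP g H) Lt.ci u := by
  unfold dp_ci_10 at h
  rcases brec_true h with h | h
  · exact lF_good (T := T) (x := Lt.ci) (by decide) [Lt.ci, Lt.bi, Lt.ci, Lt.b, Lt.b, Lt.c, Lt.c, Lt.v, Lt.bi] (hole_rel hinv hr (by decide +kernel)) h
  · exact lF_good (T := T) (x := Lt.ci) (by decide) [Lt.bi, Lt.bi, Lt.c, Lt.b, Lt.c, Lt.c, Lt.b, Lt.vi, Lt.ci] (hole_rel hinv hr (by decide +kernel)) h
theorem dp_ci_11_s (hinv : ∀ x, g (inv x) = (g x)⁻¹) (hr : ∀ r ∈ rels, (r.map g).prod = 1) (hH : ∀ r ∈ subs, (r.map g).prod ∈ H)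
    (j u : ℕ) (hu : u < M) (h : dp_ci_11 j u = true) : Good (fa g) T MG M (cP g H) Lt.ci u := by
  unfold dp_ci_11 at h
  rcases brec_true h with h | h
  · exact lS_good (T := T) (x := Lt.ci) (by decide) hu [Lt.a, Lt.u, Lt.ai] (hole_rel hinv hr (by decide +kernel)) h
  · exact dp_ci_10_s hinv hr hH j u hu h
theorem dp_ci_12_s (hinv : ∀ x, g (inv x) = (g x)⁻¹) (hr : ∀ r ∈ rels, (r.map g).prod = 1) (hH : ∀ r ∈ subs, (r.map g).prod ∈ H)
    (j u : ℕ) (hu : u < M) (h : dp_ci_12 j u = true) : Good (fa g) T MG M (cP g H) Lt.ci u := by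
  unfold dp_ci_12 at h
  rcases brec_true h with h | h
  · exact lS_good (T := T) (x := Lt.ci) (by decide) hu [Lt.bi, Lt.v, Lt.b] (hole_rel hinv hr (by decide +kernel)) h
  · exact dp_ci_11_s hinv hr hH j u hu h
theorem dp_ci_13_s (hinv : ∀ x, g (inv x) = (g x)⁻¹) (hr : ∀ r ∈ rels, (r.map g).prod = 1) (hH : ∀ r ∈ subs, (r.map g).prod ∈ H)
    (j u : ℕ) (hu : u < M) (h : dp_ci_13 j u = true) : Good (fa g) T MG M (cP g H) Lt.ci u := by
  unfold dp_ci_13 at h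
  rcases brec_true h with h | h
  · exact dp_ci_9_s hinv hr hH j u hu h
  · exact dp_ci_12_s hinv hr hH j u hu h
theorem dp_ci_14_s (hinv : ∀ x, g (inv x) = (g x)⁻¹) (hr : ∀ r ∈ rels, (r.map g).prod = 1) (hH : ∀ r ∈ subs, (r.map g).prod ∈ H)
    (j u : ℕ) (hu : u < M) (h : dp_ci_14 j u = true) : Good (fa g) T MG M (cP g H) Lt.ci u := by
  unfold dp_ci_14 at h
  rcases brec_true h with h | h
  · exact dp_ci_8_s hinv hr hH j u hu h
  · exact dp_ci_13_s hinv hr hH j u hu h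
theorem dp_ci_15_s (hinv : ∀ x, g (inv x) = (g x)⁻¹) (hr : ∀ r ∈ rels, (r.map g).prod = 1) (hH : ∀ r ∈ subs, (r.map g).prod ∈ H)
    (j u : ℕ) (hu : u < M) (h : dp_ci_15 j u = true) : Good (fa g) T MG M (cP g H) Lt.ci u := by
  unfold dp_ci_15 at h
  rcases brec_true h with h | h
  · exact dp_ci_6_s hinv hr hH j u hu h
  · exact dp_ci_14_s hinv hr hH j u hu h
theorem dp_ci_16_s (hinv : ∀ x, g (inv x) = (g x)⁻¹) (hr : ∀ r ∈ rels, (r.map g).prod = 1) (hH : ∀ r ∈ subs, (r.map g).prod ∈ H)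
    (j u : ℕ) (hu : u < M) (h : dp_ci_16 j u = true) : Good (fa g) T MG M (cP g H) Lt.ci u := by
  unfold dp_ci_16 at h
  rcases brec_true h with h | h
  · exact dp_ci_4_s hinv hr hH j u hu h
  · exact dp_ci_15_s hinv hr hH j u hu h
theorem dp_ci_17_s (hinv : ∀ x, g (inv x) = (g x)⁻¹) (hr : ∀ r ∈ rels, (r.map g).prod = 1) (hH : ∀ r ∈ subs, (r.map g).prod ∈ H)
    (j u : ℕ) (hu : u < M) (h : dp_ci_17 j u = true) : Good (fa g) T MG M (cP g H) Lt.ci u := by
  unfold dp_ci_17 at h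
  rcases brec_true h with h | h
  · exact dp_ci_2_s hinv hr hH j u hu h
  · exact dp_ci_16_s hinv hr hH j u hu h
theorem dp_ci_18_s (hinv : ∀ x, g (inv x) = (g x)⁻¹) (hr : ∀ r ∈ rels, (r.map g).prod = 1) (hH : ∀ r ∈ subs, (r.map g).prod ∈ H)
    (j u : ℕ) (hu : u < M) (h : dp_ci_18 j u = true) : Good (fa g) T MG M (cP g H) Lt.ci u := by
  unfold dp_ci_18 at h
  rcases brec_true h with h | h
  · exact dp_ci_0_s hinv hr hH j u hu h
  · exact dp_ci_17_s hinv hr hH j u hu h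
theorem dp_ci_19_s (hinv : ∀ x, g (inv x) = (g x)⁻¹) (hr : ∀ r ∈ rels, (r.map g).prod = 1) (hH : ∀ r ∈ subs, (r.map g).prod ∈ H)
    (j u : ℕ) (hu : u < M) (h : dp_ci_19 j u = true) : Good (fa g) T MG M (cP g H) Lt.ci u := by
  unfold dp_ci_19 at h
  rcases brec_true h with h | h
  · rcases brec_true h with h | h
    · exact lPar_good (T := T) (x := Lt.ci) (x' := Lt.c) (by decide) rfl (inv_rel hinv _ _ rfl) h
    · exact lF3_good (T := T) (x := Lt.ci) (by decide) .a .u .ai (hole_rel hinv hr (by decide +kernel)) h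
  · exact dp_ci_18_s hinv hr hH j u hu h
theorem dp_ci_20_s (hinv : ∀ x, g (inv x) = (g x)⁻¹) (hr : ∀ r ∈ rels, (r.map g).prod = 1) (hH : ∀ r ∈ subs, (r.map g).prod ∈ H)
    (j u : ℕ) (hu : u < M) (h : dp_ci_20 j u = true) : Good (fa g) T MG M (cP g H) Lt.ci u := by
  unfold dp_ci_20 at h
  rcases brec_true h with h | h
  · rcases brec_true h with h | h
    · exact lF3_good (T := T) (x := Lt.ci) (by decide) .w .c .wi (hole_rel hinv hr (by decide +kernel)) h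
    · exact lDef_good (T := T) (x := Lt.ci) (by decide) rfl h
  · exact dp_ci_19_s hinv hr hH j u hu h
theorem snd_ci (hinv : ∀ x, g (inv x) = (g x)⁻¹) (hr : ∀ r ∈ rels, (r.map g).prod = 1) (hH : ∀ r ∈ subs, (r.map g).prod ∈ H)
    (j u : ℕ) (hu : u < M) (h : disp_ci j u = true) : Good (fa g) T MG M (cP g H) Lt.ci u := by
  unfold disp_ci at h
  rcases brec_true h with h | h
  · rcases brec_true h with h | h
    · exact lF1_good (T := T) (x := Lt.ci) (by decide) .c (hole_rel hinv hr (by decide +kernel)) h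
    · exact lF3_good (T := T) (x := Lt.ci) (by decide) .wi .c .w (hole_rel hinv hr (by decide +kernel)) h
  · exact dp_ci_20_s hinv hr hH j u hu h
theorem snc_ci (hinv : ∀ x, g (inv x) = (g x)⁻¹) (hr : ∀ r ∈ rels, (r.map g).prod = 1) (hH : ∀ r ∈ subs, (r.map g).prod ∈ H)
    (j u : ℕ) (hu : u < M) (h : chk_ci j u = true) : (T Lt.ci u < A ∧ Good (fa g) T MG M (cP g H) Lt.ci u) ∨ (A ≤ T Lt.ci u ∧ MG u < A) := by
  unfold chk_ci at h
  cases hb : Nat.ble A (T_ci u) with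
  | true => rw [hb] at h; exact Or.inr ⟨le_of_ble hb, le_of_ble h⟩
  | false => rw [hb] at h; exact Or.inl ⟨lt_of_ble_false hb, snd_ci hinv hr hH j u hu h⟩
theorem dp_u_0_s (hinv : ∀ x, g (inv x) = (g x)⁻¹) (hr : ∀ r ∈ rels, (r.map g).prod = 1) (hH : ∀ r ∈ subs, (r.map g).prod ∈ H)
    (j u : ℕ) (hu : u < M) (h : dp_u_0 j u = true) : Good (fa g) T MG M (cP g H) Lt.u u := by
  unfold dp_u_0 at h
  rcases brec_true h with h | h
  · exact lF_good (T := T) (x := Lt.u) (by decide) [Lt.a, Lt.c, Lt.c, Lt.ai] (hole_rel hinv hr (by decide +kernel)) h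
  · exact lF_good (T := T) (x := Lt.u) (by decide) [Lt.c, Lt.w, Lt.ui, Lt.ci] (hole_rel hinv hr (by decide +kernel)) h
theorem dp_u_1_s (hinv : ∀ x, g (inv x) = (g x)⁻¹) (hr : ∀ r ∈ rels, (r.map g).prod = 1) (hH : ∀ r ∈ subs, (r.map g).prod ∈ H)
    (j u : ℕ) (hu : u < M) (h : dp_u_1 j u = true) : Good (fa g) T MG M (cP g H) Lt.u u := by
  unfold dp_u_1 at h
  rcases brec_true h with h | h
  · exact lS_good (T := T) (x := Lt.u) (by decide) hu [Lt.wi, Lt.ui, Lt.w] (hole_rel hinv hr (by decide +kernel)) h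
  · exact lF_good (T := T) (x := Lt.u) (by decide) [Lt.bi, Lt.c, Lt.b, Lt.w, Lt.ui, Lt.bi, Lt.ci, Lt.b] (hole_rel hinv hr (by decide +kernel)) h
theorem dp_u_2_s (hinv : ∀ x, g (inv x) = (g x)⁻¹) (hr : ∀ r ∈ rels, (r.map g).prod = 1) (hH : ∀ r ∈ subs, (r.map g).prod ∈ H)
    (j u : ℕ) (hu : u < M) (h : dp_u_2 j u = true) : Good (fa g) T MG M (cP g H) Lt.u u := by
  unfold dp_u_2 at h
  rcases brec_true h with h | h
  · exact lS_good (T := T) (x := Lt.u) (by decide) hu [Lt.vi, Lt.ui, Lt.v] (hole_rel hinv hr (by decide +kernel)) h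
  · exact lS_good (T := T) (x := Lt.u) (by decide) hu [Lt.v, Lt.ui, Lt.vi] (hole_rel hinv hr (by decide +kernel)) h
theorem dp_u_3_s (hinv : ∀ x, g (inv x) = (g x)⁻¹) (hr : ∀ r ∈ rels, (r.map g).prod = 1) (hH : ∀ r ∈ subs, (r.map g).prod ∈ H)
    (j u : ℕ) (hu : u < M) (h : dp_u_3 j u = true) : Good (fa g) T MG M (cP g H) Lt.u u := by
  unfold dp_u_3 at h
  rcases brec_true h with h | h
  · exact lF_good (T := T) (x := Lt.u) (by decide) [Lt.wi, Lt.bi, Lt.ci, Lt.b, Lt.ui, Lt.bi, Lt.c, Lt.b] (hole_rel hinv hr (by decide +kernel)) h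
  · exact lS_good (T := T) (x := Lt.u) (by decide) hu [Lt.wi, Lt.bi, Lt.ci, Lt.b, Lt.ui, Lt.bi, Lt.c, Lt.b] (hole_rel hinv hr (by decide +kernel)) h
theorem dp_u_4_s (hinv : ∀ x, g (inv x) = (g x)⁻¹) (hr : ∀ r ∈ rels, (r.map g).prod = 1) (hH : ∀ r ∈ subs, (r.map g).prod ∈ H)
    (j u : ℕ) (hu : u < M) (h : dp_u_4 j u = true) : Good (fa g) T MG M (cP g H) Lt.u u := by
  unfold dp_u_4 at h
  rcases brec_true h with h | h
  · exact lS_good (T := T) (x := Lt.u) (by decide) hu [Lt.w, Lt.ui, Lt.wi] (hole_rel hinv hr (by decide +kernel)) h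
  · exact dp_u_3_s hinv hr hH j u hu h
theorem dp_u_5_s (hinv : ∀ x, g (inv x) = (g x)⁻¹) (hr : ∀ r ∈ rels, (r.map g).prod = 1) (hH : ∀ r ∈ subs, (r.map g).prod ∈ H)
    (j u : ℕ) (hu : u < M) (h : dp_u_5 j u = true) : Good (fa g) T MG M (cP g H) Lt.u u := by
  unfold dp_u_5 at h
  rcases brec_true h with h | h
  · exact lS_good (T := T) (x := Lt.u) (by decide) hu [Lt.ai, Lt.ci, Lt.a] (hole_rel hinv hr (by decide +kernel)) h
  · exact dp_u_4_s hinv hr hH j u hu h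
theorem dp_u_6_s (hinv : ∀ x, g (inv x) = (g x)⁻¹) (hr : ∀ r ∈ rels, (r.map g).prod = 1) (hH : ∀ r ∈ subs, (r.map g).prod ∈ H)
    (j u : ℕ) (hu : u < M) (h : dp_u_6 j u = true) : Good (fa g) T MG M (cP g H) Lt.u u := by
  unfold dp_u_6 at h
  rcases brec_true h with h | h
  · exact dp_u_2_s hinv hr hH j u hu h
  · exact dp_u_5_s hinv hr hH j u hu h
theorem dp_u_7_s (hinv : ∀ x, g (inv x) = (g x)⁻¹) (hr : ∀ r ∈ rels, (r.map g).prod = 1) (hH : ∀ r ∈ subs, (r.map g).prod ∈ H)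
    (j u : ℕ) (hu : u < M) (h : dp_u_7 j u = true) : Good (fa g) T MG M (cP g H) Lt.u u := by
  unfold dp_u_7 at h
  rcases brec_true h with h | h
  · exact dp_u_1_s hinv hr hH j u hu h
  · exact dp_u_6_s hinv hr hH j u hu h
theorem dp_u_8_s (hinv : ∀ x, g (inv x) = (g x)⁻¹) (hr : ∀ r ∈ rels, (r.map g).prod = 1) (hH : ∀ r ∈ subs, (r.map g).prod ∈ H)
    (j u : ℕ) (hu : u < M) (h : dp_u_8 j u = true) : Good (fa g) T MG M (cP g H) Lt.u u := by
  unfold dp_u_8 at h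
  rcases brec_true h with h | h
  · exact lF_good (T := T) (x := Lt.u) (by decide) [Lt.wi, Lt.ci, Lt.ui, Lt.c] (hole_rel hinv hr (by decide +kernel)) h
  · exact dp_u_7_s hinv hr hH j u hu h
theorem dp_u_9_s (hinv : ∀ x, g (inv x) = (g x)⁻¹) (hr : ∀ r ∈ rels, (r.map g).prod = 1) (hH : ∀ r ∈ subs, (r.map g).prod ∈ H)
    (j u : ℕ) (hu : u < M) (h : dp_u_9 j u = true) : Good (fa g) T MG M (cP g H) Lt.u u := by
  unfold dp_u_9 at h
  rcases brec_true h with h | h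
  · exact lS_good (T := T) (x := Lt.u) (by decide) hu [Lt.ui] (hole_rel hinv hr (by decide +kernel)) h
  · exact dp_u_8_s hinv hr hH j u hu h
theorem dp_u_10_s (hinv : ∀ x, g (inv x) = (g x)⁻¹) (hr : ∀ r ∈ rels, (r.map g).prod = 1) (hH : ∀ r ∈ subs, (r.map g).prod ∈ H)
    (j u : ℕ) (hu : u < M) (h : dp_u_10 j u = true) : Good (fa g) T MG M (cP g H) Lt.u u := by
  unfold dp_u_10 at h
  rcases brec_true h with h | h
  · exact dp_u_0_s hinv hr hH j u hu h
  · exact dp_u_9_s hinv hr hH j u hu h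
theorem dp_u_11_s (hinv : ∀ x, g (inv x) = (g x)⁻¹) (hr : ∀ r ∈ rels, (r.map g).prod = 1) (hH : ∀ r ∈ subs, (r.map g).prod ∈ H)
    (j u : ℕ) (hu : u < M) (h : dp_u_11 j u = true) : Good (fa g) T MG M (cP g H) Lt.u u := by
  unfold dp_u_11 at h
  rcases brec_true h with h | h
  · exact lF3_good (T := T) (x := Lt.u) (by decide) .ai .ci .a (hole_rel hinv hr (by decide +kernel)) h
  · exact dp_u_10_s hinv hr hH j u hu h
theorem dp_u_12_s (hinv : ∀ x, g (inv x) = (g x)⁻¹) (hr : ∀ r ∈ rels, (r.map g).prod = 1) (hH : ∀ r ∈ subs, (r.map g).prod ∈ H)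
    (j u : ℕ) (hu : u < M) (h : dp_u_12 j u = true) : Good (fa g) T MG M (cP g H) Lt.u u := by
  unfold dp_u_12 at h
  rcases brec_true h with h | h
  · rcases brec_true h with h | h
    · exact lF3_good (T := T) (x := Lt.u) (by decide) .vi .ui .v (hole_rel hinv hr (by decide +kernel)) h
    · exact lF3_good (T := T) (x := Lt.u) (by decide) .v .ui .vi (hole_rel hinv hr (by decide +kernel)) h
  · exact dp_u_11_s hinv hr hH j u hu h
theorem dp_u_13_s (hinv : ∀ x, g (inv x) = (g x)⁻¹) (hr : ∀ r ∈ rels, (r.map g).prod = 1) (hH : ∀ r ∈ subs, (r.map g).prod ∈ H)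
    (j u : ℕ) (hu : u < M) (h : dp_u_13 j u = true) : Good (fa g) T MG M (cP g H) Lt.u u := by
  unfold dp_u_13 at h
  rcases brec_true h with h | h
  · rcases brec_true h with h | h
    · exact lF3_good (T := T) (x := Lt.u) (by decide) .w .ui .wi (hole_rel hinv hr (by decide +kernel)) h
    · rcases brec_true h with h | h
      · exact lDef_good (T := T) (x := Lt.u) (by decide) rfl h
      · exact lPar_good (T := T) (x := Lt.u) (x' := Lt.ui) (by decide) rfl (inv_rel hinv _ _ rfl) h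
  · exact dp_u_12_s hinv hr hH j u hu h
theorem snd_u (hinv : ∀ x, g (inv x) = (g x)⁻¹) (hr : ∀ r ∈ rels, (r.map g).prod = 1) (hH : ∀ r ∈ subs, (r.map g).prod ∈ H)
    (j u : ℕ) (hu : u < M) (h : disp_u j u = true) : Good (fa g) T MG M (cP g H) Lt.u u := by
  unfold disp_u at h
  rcases brec_true h with h | h
  · rcases brec_true h with h | h
    · exact lF1_good (T := T) (x := Lt.u) (by decide) .ui (hole_rel hinv hr (by decide +kernel)) h
    · exact lF3_good (T := T) (x := Lt.u) (by decide) .wi .ui .w (hole_rel hinv hr (by decide +kernel)) h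
  · exact dp_u_13_s hinv hr hH j u hu h
theorem snc_u (hinv : ∀ x, g (inv x) = (g x)⁻¹) (hr : ∀ r ∈ rels, (r.map g).prod = 1) (hH : ∀ r ∈ subs, (r.map g).prod ∈ H)
    (j u : ℕ) (hu : u < M) (h : chk_u j u = true) : (T Lt.u u < A ∧ Good (fa g) T MG M (cP g H) Lt.u u) ∨ (A ≤ T Lt.u u ∧ MG u < A) := by
  unfold chk_u at h
  cases hb : Nat.ble A (T_u u) with
  | true => rw [hb] at h; exact Or.inr ⟨le_of_ble hb, le_of_ble h⟩
  | false => rw [hb] at h; exact Or.inl ⟨lt_of_ble_false hb, snd_u hinv hr hH j u hu h⟩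
theorem dp_ui_0_s (hinv : ∀ x, g (inv x) = (g x)⁻¹) (hr : ∀ r ∈ rels, (r.map g).prod = 1) (hH : ∀ r ∈ subs, (r.map g).prod ∈ H)
    (j u : ℕ) (hu : u < M) (h : dp_ui_0 j u = true) : Good (fa g) T MG M (cP g H) Lt.ui u := by
  unfold dp_ui_0 at h
  rcases brec_true h with h | h
  · exact lS_good (T := T) (x := Lt.ui) (by decide) hu [Lt.u] (hole_rel hinv hr (by decide +kernel)) h
  · exact lF_good (T := T) (x := Lt.ui) (by decide) [Lt.a, Lt.ci, Lt.ci, Lt.ai] (hole_rel hinv hr (by decide +kernel)) h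
theorem dp_ui_1_s (hinv : ∀ x, g (inv x) = (g x)⁻¹) (hr : ∀ r ∈ rels, (r.map g).prod = 1) (hH : ∀ r ∈ subs, (r.map g).prod ∈ H)
    (j u : ℕ) (hu : u < M) (h : dp_ui_1 j u = true) : Good (fa g) T MG M (cP g H) Lt.ui u := by
  unfold dp_ui_1 at h
  rcases brec_true h with h | h
  · exact lF_good (T := T) (x := Lt.ui) (by decide) [Lt.bi, Lt.c, Lt.b, Lt.u, Lt.wi, Lt.bi, Lt.ci, Lt.b] (hole_rel hinv hr (by decide +kernel)) h
  · exact lS_good (T := T) (x := Lt.ui) (by decide) hu [Lt.w, Lt.u, Lt.wi] (hole_rel hinv hr (by decide +kernel)) h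
theorem dp_ui_2_s (hinv : ∀ x, g (inv x) = (g x)⁻¹) (hr : ∀ r ∈ rels, (r.map g).prod = 1) (hH : ∀ r ∈ subs, (r.map g).prod ∈ H)
    (j u : ℕ) (hu : u < M) (h : dp_ui_2 j u = true) : Good (fa g) T MG M (cP g H) Lt.ui u := by
  unfold dp_ui_2 at h
  rcases brec_true h with h | h
  · exact lS_good (T := T) (x := Lt.ui) (by decide) hu [Lt.v, Lt.u, Lt.vi] (hole_rel hinv hr (by decide +kernel)) h
  · exact lF_good (T := T) (x := Lt.ui) (by decide) [Lt.bi, Lt.ci, Lt.b, Lt.u, Lt.bi, Lt.c, Lt.b, Lt.w] (hole_rel hinv hr (by decide +kernel)) h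
theorem dp_ui_3_s (hinv : ∀ x, g (inv x) = (g x)⁻¹) (hr : ∀ r ∈ rels, (r.map g).prod = 1) (hH : ∀ r ∈ subs, (r.map g).prod ∈ H)
    (j u : ℕ) (hu : u < M) (h : dp_ui_3 j u = true) : Good (fa g) T MG M (cP g H) Lt.ui u := by
  unfold dp_ui_3 at h
  rcases brec_true h with h | h
  · exact lS_good (T := T) (x := Lt.ui) (by decide) hu [Lt.vi, Lt.u, Lt.v] (hole_rel hinv hr (by decide +kernel)) h
  · exact lS_good (T := T) (x := Lt.ui) (by decide) hu [Lt.wi, Lt.u, Lt.w] (hole_rel hinv hr (by decide +kernel)) h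
theorem dp_ui_4_s (hinv : ∀ x, g (inv x) = (g x)⁻¹) (hr : ∀ r ∈ rels, (r.map g).prod = 1) (hH : ∀ r ∈ subs, (r.map g).prod ∈ H)
    (j u : ℕ) (hu : u < M) (h : dp_ui_4 j u = true) : Good (fa g) T MG M (cP g H) Lt.ui u := by
  unfold dp_ui_4 at h
  rcases brec_true h with h | h
  · exact lS_good (T := T) (x := Lt.ui) (by decide) hu [Lt.bi, Lt.u, Lt.b, Lt.v, Lt.c, Lt.v, Lt.bi, Lt.ci, Lt.b] (hole_rel hinv hr (by decide +kernel)) h
  · exact dp_ui_3_s hinv hr hH j u hu h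
theorem dp_ui_5_s (hinv : ∀ x, g (inv x) = (g x)⁻¹) (hr : ∀ r ∈ rels, (r.map g).prod = 1) (hH : ∀ r ∈ subs, (r.map g).prod ∈ H)
    (j u : ℕ) (hu : u < M) (h : dp_ui_5 j u = true) : Good (fa g) T MG M (cP g H) Lt.ui u := by
  unfold dp_ui_5 at h
  rcases brec_true h with h | h
  · exact lS_good (T := T) (x := Lt.ui) (by decide) hu [Lt.ai, Lt.c, Lt.a] (hole_rel hinv hr (by decide +kernel)) h
  · exact dp_ui_4_s hinv hr hH j u hu h
theorem dp_ui_6_s (hinv : ∀ x, g (inv x) = (g x)⁻¹) (hr : ∀ r ∈ rels, (r.map g).prod = 1) (hH : ∀ r ∈ subs, (r.map g).prod ∈ H)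
    (j u : ℕ) (hu : u < M) (h : dp_ui_6 j u = true) : Good (fa g) T MG M (cP g H) Lt.ui u := by
  unfold dp_ui_6 at h
  rcases brec_true h with h | h
  · exact dp_ui_2_s hinv hr hH j u hu h
  · exact dp_ui_5_s hinv hr hH j u hu h
theorem dp_ui_7_s (hinv : ∀ x, g (inv x) = (g x)⁻¹) (hr : ∀ r ∈ rels, (r.map g).prod = 1) (hH : ∀ r ∈ subs, (r.map g).prod ∈ H)
    (j u : ℕ) (hu : u < M) (h : dp_ui_7 j u = true) : Good (fa g) T MG M (cP g H) Lt.ui u := by
  unfold dp_ui_7 at h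
  rcases brec_true h with h | h
  · exact dp_ui_1_s hinv hr hH j u hu h
  · exact dp_ui_6_s hinv hr hH j u hu h
theorem dp_ui_8_s (hinv : ∀ x, g (inv x) = (g x)⁻¹) (hr : ∀ r ∈ rels, (r.map g).prod = 1) (hH : ∀ r ∈ subs, (r.map g).prod ∈ H)
    (j u : ℕ) (hu : u < M) (h : dp_ui_8 j u = true) : Good (fa g) T MG M (cP g H) Lt.ui u := by
  unfold dp_ui_8 at h
  rcases brec_true h with h | h
  · exact lF_good (T := T) (x := Lt.ui) (by decide) [Lt.c, Lt.u, Lt.wi, Lt.ci] (hole_rel hinv hr (by decide +kernel)) h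
  · exact dp_ui_7_s hinv hr hH j u hu h
theorem dp_ui_9_s (hinv : ∀ x, g (inv x) = (g x)⁻¹) (hr : ∀ r ∈ rels, (r.map g).prod = 1) (hH : ∀ r ∈ subs, (r.map g).prod ∈ H)
    (j u : ℕ) (hu : u < M) (h : dp_ui_9 j u = true) : Good (fa g) T MG M (cP g H) Lt.ui u := by
  unfold dp_ui_9 at h
  rcases brec_true h with h | h
  · exact lF_good (T := T) (x := Lt.ui) (by decide) [Lt.ci, Lt.u, Lt.c, Lt.w] (hole_rel hinv hr (by decide +kernel)) h
  · exact dp_ui_8_s hinv hr hH j u hu h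
theorem dp_ui_10_s (hinv : ∀ x, g (inv x) = (g x)⁻¹) (hr : ∀ r ∈ rels, (r.map g).prod = 1) (hH : ∀ r ∈ subs, (r.map g).prod ∈ H)
    (j u : ℕ) (hu : u < M) (h : dp_ui_10 j u = true) : Good (fa g) T MG M (cP g H) Lt.ui u := by
  unfold dp_ui_10 at h
  rcases brec_true h with h | h
  · exact dp_ui_0_s hinv hr hH j u hu h
  · exact dp_ui_9_s hinv hr hH j u hu h
theorem dp_ui_11_s (hinv : ∀ x, g (inv x) = (g x)⁻¹) (hr : ∀ r ∈ rels, (r.map g).prod = 1) (hH : ∀ r ∈ subs, (r.map g).prod ∈ H)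
    (j u : ℕ) (hu : u < M) (h : dp_ui_11 j u = true) : Good (fa g) T MG M (cP g H) Lt.ui u := by
  unfold dp_ui_11 at h
  rcases brec_true h with h | h
  · exact lF3_good (T := T) (x := Lt.ui) (by decide) .ai .c .a (hole_rel hinv hr (by decide +kernel)) h
  · exact dp_ui_10_s hinv hr hH j u hu h
theorem dp_ui_12_s (hinv : ∀ x, g (inv x) = (g x)⁻¹) (hr : ∀ r ∈ rels, (r.map g).prod = 1) (hH : ∀ r ∈ subs, (r.map g).prod ∈ H)
    (j u : ℕ) (hu : u < M) (h : dp_ui_12 j u = true) : Good (fa g) T MG M (cP g H) Lt.ui u := by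
  unfold dp_ui_12 at h
  rcases brec_true h with h | h
  · rcases brec_true h with h | h
    · exact lF3_good (T := T) (x := Lt.ui) (by decide) .v .u .vi (hole_rel hinv hr (by decide +kernel)) h
    · exact lF3_good (T := T) (x := Lt.ui) (by decide) .vi .u .v (hole_rel hinv hr (by decide +kernel)) h
  · exact dp_ui_11_s hinv hr hH j u hu h
theorem dp_ui_13_s (hinv : ∀ x, g (inv x) = (g x)⁻¹) (hr : ∀ r ∈ rels, (r.map g).prod = 1) (hH : ∀ r ∈ subs, (r.map g).prod ∈ H)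
    (j u : ℕ) (hu : u < M) (h : dp_ui_13 j u = true) : Good (fa g) T MG M (cP g H) Lt.ui u := by
  unfold dp_ui_13 at h
  rcases brec_true h with h | h
  · rcases brec_true h with h | h
    · exact lF3_good (T := T) (x := Lt.ui) (by decide) .wi .u .w (hole_rel hinv hr (by decide +kernel)) h
    · rcases brec_true h with h | h
      · exact lPar_good (T := T) (x := Lt.ui) (x' := Lt.u) (by decide) rfl (inv_rel hinv _ _ rfl) h
      · exact lDef_good (T := T) (x := Lt.ui) (by decide) rfl h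
  · exact dp_ui_12_s hinv hr hH j u hu h
theorem snd_ui (hinv : ∀ x, g (inv x) = (g x)⁻¹) (hr : ∀ r ∈ rels, (r.map g).prod = 1) (hH : ∀ r ∈ subs, (r.map g).prod ∈ H)
    (j u : ℕ) (hu : u < M) (h : disp_ui j u = true) : Good (fa g) T MG M (cP g H) Lt.ui u := by
  unfold disp_ui at h
  rcases brec_true h with h | h
  · rcases brec_true h with h | h
    · exact lF1_good (T := T) (x := Lt.ui) (by decide) .u (hole_rel hinv hr (by decide +kernel)) h
    · exact lF3_good (T := T) (x := Lt.ui) (by decide) .w .u .wi (hole_rel hinv hr (by decide +kernel)) h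
  · exact dp_ui_13_s hinv hr hH j u hu h
theorem snc_ui (hinv : ∀ x, g (inv x) = (g x)⁻¹) (hr : ∀ r ∈ rels, (r.map g).prod = 1) (hH : ∀ r ∈ subs, (r.map g).prod ∈ H)
    (j u : ℕ) (hu : u < M) (h : chk_ui j u = true) : (T Lt.ui u < A ∧ Good (fa g) T MG M (cP g H) Lt.ui u) ∨ (A ≤ T Lt.ui u ∧ MG u < A) := by
  unfold chk_ui at h
  cases hb : Nat.ble A (T_ui u) with
  | true => rw [hb] at h; exact Or.inr ⟨le_of_ble hb, le_of_ble h⟩
  | false => rw [hb] at h; exact Or.inl ⟨lt_of_ble_false hb, snd_ui hinv hr hH j u hu h⟩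
theorem dp_v_0_s (hinv : ∀ x, g (inv x) = (g x)⁻¹) (hr : ∀ r ∈ rels, (r.map g).prod = 1) (hH : ∀ r ∈ subs, (r.map g).prod ∈ H)
    (j u : ℕ) (hu : u < M) (h : dp_v_0 j u = true) : Good (fa g) T MG M (cP g H) Lt.v u := by
  unfold dp_v_0 at h
  rcases brec_true h with h | h
  · exact lF_good (T := T) (x := Lt.v) (by decide) [Lt.wi, Lt.wi, Lt.ci, Lt.vi, Lt.c] (hole_rel hinv hr (by decide +kernel)) h
  · exact lS_good (T := T) (x := Lt.v) (by decide) hu [Lt.u, Lt.vi, Lt.ui] (hole_rel hinv hr (by decide +kernel)) h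
theorem dp_v_1_s (hinv : ∀ x, g (inv x) = (g x)⁻¹) (hr : ∀ r ∈ rels, (r.map g).prod = 1) (hH : ∀ r ∈ subs, (r.map g).prod ∈ H)
    (j u : ℕ) (hu : u < M) (h : dp_v_1 j u = true) : Good (fa g) T MG M (cP g H) Lt.v u := by
  unfold dp_v_1 at h
  rcases brec_true h with h | h
  · exact lF_good (T := T) (x := Lt.v) (by decide) [Lt.bi, Lt.c, Lt.b, Lt.wi, Lt.vi, Lt.bi, Lt.ci, Lt.b] (hole_rel hinv hr (by decide +kernel)) h
  · exact lS_good (T := T) (x := Lt.v) (by decide) hu [Lt.w, Lt.vi, Lt.wi] (hole_rel hinv hr (by decide +kernel)) h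
theorem dp_v_2_s (hinv : ∀ x, g (inv x) = (g x)⁻¹) (hr : ∀ r ∈ rels, (r.map g).prod = 1) (hH : ∀ r ∈ subs, (r.map g).prod ∈ H)
    (j u : ℕ) (hu : u < M) (h : dp_v_2 j u = true) : Good (fa g) T MG M (cP g H) Lt.v u := by
  unfold dp_v_2 at h
  rcases brec_true h with h | h
  · exact lS_good (T := T) (x := Lt.v) (by decide) hu [Lt.bi, Lt.c, Lt.b, Lt.wi, Lt.vi, Lt.bi, Lt.ci, Lt.b] (hole_rel hinv hr (by decide +kernel)) h
  · exact lS_good (T := T) (x := Lt.v) (by decide) hu [Lt.ui, Lt.vi, Lt.u] (hole_rel hinv hr (by decide +kernel)) h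
theorem dp_v_3_s (hinv : ∀ x, g (inv x) = (g x)⁻¹) (hr : ∀ r ∈ rels, (r.map g).prod = 1) (hH : ∀ r ∈ subs, (r.map g).prod ∈ H)
    (j u : ℕ) (hu : u < M) (h : dp_v_3 j u = true) : Good (fa g) T MG M (cP g H) Lt.v u := by
  unfold dp_v_3 at h
  rcases brec_true h with h | h
  · exact lF_good (T := T) (x := Lt.v) (by decide) [Lt.c, Lt.v, Lt.ai, Lt.vi, Lt.a, Lt.c, Lt.ui, Lt.bi, Lt.ci, Lt.b] (hole_rel hinv hr (by decide +kernel)) h
  · exact dp_v_2_s hinv hr hH j u hu h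
theorem dp_v_4_s (hinv : ∀ x, g (inv x) = (g x)⁻¹) (hr : ∀ r ∈ rels, (r.map g).prod = 1) (hH : ∀ r ∈ subs, (r.map g).prod ∈ H)
    (j u : ℕ) (hu : u < M) (h : dp_v_4 j u = true) : Good (fa g) T MG M (cP g H) Lt.v u := by
  unfold dp_v_4 at h
  rcases brec_true h with h | h
  · exact lS_good (T := T) (x := Lt.v) (by decide) hu [Lt.wi, Lt.vi, Lt.w] (hole_rel hinv hr (by decide +kernel)) h
  · exact dp_v_3_s hinv hr hH j u hu h
theorem dp_v_5_s (hinv : ∀ x, g (inv x) = (g x)⁻¹) (hr : ∀ r ∈ rels, (r.map g).prod = 1) (hH : ∀ r ∈ subs, (r.map g).prod ∈ H)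
    (j u : ℕ) (hu : u < M) (h : dp_v_5 j u = true) : Good (fa g) T MG M (cP g H) Lt.v u := by
  unfold dp_v_5 at h
  rcases brec_true h with h | h
  · exact lS_good (T := T) (x := Lt.v) (by decide) hu [Lt.b, Lt.ci, Lt.bi] (hole_rel hinv hr (by decide +kernel)) h
  · exact dp_v_4_s hinv hr hH j u hu h
theorem dp_v_6_s (hinv : ∀ x, g (inv x) = (g x)⁻¹) (hr : ∀ r ∈ rels, (r.map g).prod = 1) (hH : ∀ r ∈ subs, (r.map g).prod ∈ H)
    (j u : ℕ) (hu : u < M) (h : dp_v_6 j u = true) : Good (fa g) T MG M (cP g H) Lt.v u := by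
  unfold dp_v_6 at h
  rcases brec_true h with h | h
  · exact dp_v_1_s hinv hr hH j u hu h
  · exact dp_v_5_s hinv hr hH j u hu h
theorem dp_v_7_s (hinv : ∀ x, g (inv x) = (g x)⁻¹) (hr : ∀ r ∈ rels, (r.map g).prod = 1) (hH : ∀ r ∈ subs, (r.map g).prod ∈ H)
    (j u : ℕ) (hu : u < M) (h : dp_v_7 j u = true) : Good (fa g) T MG M (cP g H) Lt.v u := by
  unfold dp_v_7 at h
  rcases brec_true h with h | h
  · exact dp_v_0_s hinv hr hH j u hu h
  · exact dp_v_6_s hinv hr hH j u hu h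
theorem dp_v_8_s (hinv : ∀ x, g (inv x) = (g x)⁻¹) (hr : ∀ r ∈ rels, (r.map g).prod = 1) (hH : ∀ r ∈ subs, (r.map g).prod ∈ H)
    (j u : ℕ) (hu : u < M) (h : dp_v_8 j u = true) : Good (fa g) T MG M (cP g H) Lt.v u := by
  unfold dp_v_8 at h
  rcases brec_true h with h | h
  · exact lF_good (T := T) (x := Lt.v) (by decide) [Lt.c, Lt.w, Lt.w, Lt.vi, Lt.ci] (hole_rel hinv hr (by decide +kernel)) h
  · exact dp_v_7_s hinv hr hH j u hu h
theorem dp_v_9_s (hinv : ∀ x, g (inv x) = (g x)⁻¹) (hr : ∀ r ∈ rels, (r.map g).prod = 1) (hH : ∀ r ∈ subs, (r.map g).prod ∈ H)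
    (j u : ℕ) (hu : u < M) (h : dp_v_9 j u = true) : Good (fa g) T MG M (cP g H) Lt.v u := by
  unfold dp_v_9 at h
  rcases brec_true h with h | h
  · exact lS_good (T := T) (x := Lt.v) (by decide) hu [Lt.vi] (hole_rel hinv hr (by decide +kernel)) h
  · exact dp_v_8_s hinv hr hH j u hu h
theorem dp_v_10_s (hinv : ∀ x, g (inv x) = (g x)⁻¹) (hr : ∀ r ∈ rels, (r.map g).prod = 1) (hH : ∀ r ∈ subs, (r.map g).prod ∈ H)
    (j u : ℕ) (hu : u < M) (h : dp_v_10 j u = true) : Good (fa g) T MG M (cP g H) Lt.v u := by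
  unfold dp_v_10 at h
  rcases brec_true h with h | h
  · exact lF3_good (T := T) (x := Lt.v) (by decide) .b .ci .bi (hole_rel hinv hr (by decide +kernel)) h
  · exact dp_v_9_s hinv hr hH j u hu h
theorem dp_v_11_s (hinv : ∀ x, g (inv x) = (g x)⁻¹) (hr : ∀ r ∈ rels, (r.map g).prod = 1) (hH : ∀ r ∈ subs, (r.map g).prod ∈ H)
    (j u : ℕ) (hu : u < M) (h : dp_v_11 j u = true) : Good (fa g) T MG M (cP g H) Lt.v u := by
  unfold dp_v_11 at h
  rcases brec_true h with h | h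
  · exact lF3_good (T := T) (x := Lt.v) (by decide) .u .vi .ui (hole_rel hinv hr (by decide +kernel)) h
  · exact dp_v_10_s hinv hr hH j u hu h
theorem dp_v_12_s (hinv : ∀ x, g (inv x) = (g x)⁻¹) (hr : ∀ r ∈ rels, (r.map g).prod = 1) (hH : ∀ r ∈ subs, (r.map g).prod ∈ H)
    (j u : ℕ) (hu : u < M) (h : dp_v_12 j u = true) : Good (fa g) T MG M (cP g H) Lt.v u := by
  unfold dp_v_12 at h
  rcases brec_true h with h | h
  · rcases brec_true h with h | h
    · exact lF3_good (T := T) (x := Lt.v) (by decide) .w .vi .wi (hole_rel hinv hr (by decide +kernel)) h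
    · exact lF3_good (T := T) (x := Lt.v) (by decide) .ui .vi .u (hole_rel hinv hr (by decide +kernel)) h
  · exact dp_v_11_s hinv hr hH j u hu h
theorem snd_v (hinv : ∀ x, g (inv x) = (g x)⁻¹) (hr : ∀ r ∈ rels, (r.map g).prod = 1) (hH : ∀ r ∈ subs, (r.map g).prod ∈ H)
    (j u : ℕ) (hu : u < M) (h : disp_v j u = true) : Good (fa g) T MG M (cP g H) Lt.v u := by
  unfold disp_v at h
  rcases brec_true h with h | h
  · rcases brec_true h with h | h
    · exact lF1_good (T := T) (x := Lt.v) (by decide) .vi (hole_rel hinv hr (by decide +kernel)) h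
    · exact lDef_good (T := T) (x := Lt.v) (by decide) rfl h
  · rcases brec_true h with h | h
    · rcases brec_true h with h | h
      · exact lPar_good (T := T) (x := Lt.v) (x' := Lt.vi) (by decide) rfl (inv_rel hinv _ _ rfl) h
      · exact lF3_good (T := T) (x := Lt.v) (by decide) .wi .vi .w (hole_rel hinv hr (by decide +kernel)) h
    · exact dp_v_12_s hinv hr hH j u hu h
theorem snc_v (hinv : ∀ x, g (inv x) = (g x)⁻¹) (hr : ∀ r ∈ rels, (r.map g).prod = 1) (hH : ∀ r ∈ subs, (r.map g).prod ∈ H)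
    (j u : ℕ) (hu : u < M) (h : chk_v j u = true) : (T Lt.v u < A ∧ Good (fa g) T MG M (cP g H) Lt.v u) ∨ (A ≤ T Lt.v u ∧ MG u < A) := by
  unfold chk_v at h
  cases hb : Nat.ble A (T_v u) with
  | true => rw [hb] at h; exact Or.inr ⟨le_of_ble hb, le_of_ble h⟩
  | false => rw [hb] at h; exact Or.inl ⟨lt_of_ble_false hb, snd_v hinv hr hH j u hu h⟩
theorem dp_vi_0_s (hinv : ∀ x, g (inv x) = (g x)⁻¹) (hr : ∀ r ∈ rels, (r.map g).prod = 1) (hH : ∀ r ∈ subs, (r.map g).prod ∈ H)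
    (j u : ℕ) (hu : u < M) (h : dp_vi_0 j u = true) : Good (fa g) T MG M (cP g H) Lt.vi u := by
  unfold dp_vi_0 at h
  rcases brec_true h with h | h
  · exact lS_good (T := T) (x := Lt.vi) (by decide) hu [Lt.v] (hole_rel hinv hr (by decide +kernel)) h
  · exact lF_good (T := T) (x := Lt.vi) (by decide) [Lt.ci, Lt.v, Lt.c, Lt.w, Lt.w] (hole_rel hinv hr (by decide +kernel)) h
theorem dp_vi_1_s (hinv : ∀ x, g (inv x) = (g x)⁻¹) (hr : ∀ r ∈ rels, (r.map g).prod = 1) (hH : ∀ r ∈ subs, (r.map g).prod ∈ H)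
    (j u : ℕ) (hu : u < M) (h : dp_vi_1 j u = true) : Good (fa g) T MG M (cP g H) Lt.vi u := by
  unfold dp_vi_1 at h
  rcases brec_true h with h | h
  · exact lF_good (T := T) (x := Lt.vi) (by decide) [Lt.c, Lt.v, Lt.wi, Lt.wi, Lt.ci] (hole_rel hinv hr (by decide +kernel)) h
  · exact lS_good (T := T) (x := Lt.vi) (by decide) hu [Lt.u, Lt.v, Lt.ui] (hole_rel hinv hr (by decide +kernel)) h
theorem dp_vi_2_s (hinv : ∀ x, g (inv x) = (g x)⁻¹) (hr : ∀ r ∈ rels, (r.map g).prod = 1) (hH : ∀ r ∈ subs, (r.map g).prod ∈ H)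
    (j u : ℕ) (hu : u < M) (h : dp_vi_2 j u = true) : Good (fa g) T MG M (cP g H) Lt.vi u := by
  unfold dp_vi_2 at h
  rcases brec_true h with h | h
  · exact lS_good (T := T) (x := Lt.vi) (by decide) hu [Lt.b, Lt.c, Lt.bi] (hole_rel hinv hr (by decide +kernel)) h
  · exact lS_good (T := T) (x := Lt.vi) (by decide) hu [Lt.w, Lt.v, Lt.wi] (hole_rel hinv hr (by decide +kernel)) h
theorem dp_vi_3_s (hinv : ∀ x, g (inv x) = (g x)⁻¹) (hr : ∀ r ∈ rels, (r.map g).prod = 1) (hH : ∀ r ∈ subs, (r.map g).prod ∈ H)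
    (j u : ℕ) (hu : u < M) (h : dp_vi_3 j u = true) : Good (fa g) T MG M (cP g H) Lt.vi u := by
  unfold dp_vi_3 at h
  rcases brec_true h with h | h
  · exact lS_good (T := T) (x := Lt.vi) (by decide) hu [Lt.wi, Lt.v, Lt.w] (hole_rel hinv hr (by decide +kernel)) h
  · exact dp_vi_2_s hinv hr hH j u hu h
theorem dp_vi_4_s (hinv : ∀ x, g (inv x) = (g x)⁻¹) (hr : ∀ r ∈ rels, (r.map g).prod = 1) (hH : ∀ r ∈ subs, (r.map g).prod ∈ H)
    (j u : ℕ) (hu : u < M) (h : dp_vi_4 j u = true) : Good (fa g) T MG M (cP g H) Lt.vi u := by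
  unfold dp_vi_4 at h
  rcases brec_true h with h | h
  · exact lS_good (T := T) (x := Lt.vi) (by decide) hu [Lt.ui, Lt.v, Lt.u] (hole_rel hinv hr (by decide +kernel)) h
  · exact lF_good (T := T) (x := Lt.vi) (by decide) [Lt.bi, Lt.c, Lt.b, Lt.v, Lt.w, Lt.bi, Lt.ci, Lt.b] (hole_rel hinv hr (by decide +kernel)) h
theorem dp_vi_5_s (hinv : ∀ x, g (inv x) = (g x)⁻¹) (hr : ∀ r ∈ rels, (r.map g).prod = 1) (hH : ∀ r ∈ subs, (r.map g).prod ∈ H)
    (j u : ℕ) (hu : u < M) (h : dp_vi_5 j u = true) : Good (fa g) T MG M (cP g H) Lt.vi u := by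
  unfold dp_vi_5 at h
  rcases brec_true h with h | h
  · exact lF_good (T := T) (x := Lt.vi) (by decide) [Lt.ci, Lt.vi, Lt.bi, Lt.ui, Lt.b, Lt.u, Lt.bi, Lt.c, Lt.b] (hole_rel hinv hr (by decide +kernel)) h
  · exact lS_good (T := T) (x := Lt.vi) (by decide) hu [Lt.c, Lt.v, Lt.wi, Lt.wi, Lt.ci] (hole_rel hinv hr (by decide +kernel)) h
theorem dp_vi_6_s (hinv : ∀ x, g (inv x) = (g x)⁻¹) (hr : ∀ r ∈ rels, (r.map g).prod = 1) (hH : ∀ r ∈ subs, (r.map g).prod ∈ H)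
    (j u : ℕ) (hu : u < M) (h : dp_vi_6 j u = true) : Good (fa g) T MG M (cP g H) Lt.vi u := by
  unfold dp_vi_6 at h
  rcases brec_true h with h | h
  · exact lF_good (T := T) (x := Lt.vi) (by decide) [Lt.bi, Lt.ci, Lt.b, Lt.v, Lt.bi, Lt.c, Lt.b, Lt.wi] (hole_rel hinv hr (by decide +kernel)) h
  · exact dp_vi_5_s hinv hr hH j u hu h
theorem dp_vi_7_s (hinv : ∀ x, g (inv x) = (g x)⁻¹) (hr : ∀ r ∈ rels, (r.map g).prod = 1) (hH : ∀ r ∈ subs, (r.map g).prod ∈ H)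
    (j u : ℕ) (hu : u < M) (h : dp_vi_7 j u = true) : Good (fa g) T MG M (cP g H) Lt.vi u := by
  unfold dp_vi_7 at h
  rcases brec_true h with h | h
  · exact dp_vi_4_s hinv hr hH j u hu h
  · exact dp_vi_6_s hinv hr hH j u hu h
theorem dp_vi_8_s (hinv : ∀ x, g (inv x) = (g x)⁻¹) (hr : ∀ r ∈ rels, (r.map g).prod = 1) (hH : ∀ r ∈ subs, (r.map g).prod ∈ H)
    (j u : ℕ) (hu : u < M) (h : dp_vi_8 j u = true) : Good (fa g) T MG M (cP g H) Lt.vi u := by
  unfold dp_vi_8 at h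
  rcases brec_true h with h | h
  · exact dp_vi_3_s hinv hr hH j u hu h
  · exact dp_vi_7_s hinv hr hH j u hu h
theorem dp_vi_9_s (hinv : ∀ x, g (inv x) = (g x)⁻¹) (hr : ∀ r ∈ rels, (r.map g).prod = 1) (hH : ∀ r ∈ subs, (r.map g).prod ∈ H)
    (j u : ℕ) (hu : u < M) (h : dp_vi_9 j u = true) : Good (fa g) T MG M (cP g H) Lt.vi u := by
  unfold dp_vi_9 at h
  rcases brec_true h with h | h
  · exact dp_vi_1_s hinv hr hH j u hu h
  · exact dp_vi_8_s hinv hr hH j u hu h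
theorem dp_vi_10_s (hinv : ∀ x, g (inv x) = (g x)⁻¹) (hr : ∀ r ∈ rels, (r.map g).prod = 1) (hH : ∀ r ∈ subs, (r.map g).prod ∈ H)
    (j u : ℕ) (hu : u < M) (h : dp_vi_10 j u = true) : Good (fa g) T MG M (cP g H) Lt.vi u := by
  unfold dp_vi_10 at h
  rcases brec_true h with h | h
  · exact dp_vi_0_s hinv hr hH j u hu h
  · exact dp_vi_9_s hinv hr hH j u hu h
theorem dp_vi_11_s (hinv : ∀ x, g (inv x) = (g x)⁻¹) (hr : ∀ r ∈ rels, (r.map g).prod = 1) (hH : ∀ r ∈ subs, (r.map g).prod ∈ H)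
    (j u : ℕ) (hu : u < M) (h : dp_vi_11 j u = true) : Good (fa g) T MG M (cP g H) Lt.vi u := by
  unfold dp_vi_11 at h
  rcases brec_true h with h | h
  · exact lF3_good (T := T) (x := Lt.vi) (by decide) .b .c .bi (hole_rel hinv hr (by decide +kernel)) h
  · exact dp_vi_10_s hinv hr hH j u hu h
theorem dp_vi_12_s (hinv : ∀ x, g (inv x) = (g x)⁻¹) (hr : ∀ r ∈ rels, (r.map g).prod = 1) (hH : ∀ r ∈ subs, (r.map g).prod ∈ H)
    (j u : ℕ) (hu : u < M) (h : dp_vi_12 j u = true) : Good (fa g) T MG M (cP g H) Lt.vi u := by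
  unfold dp_vi_12 at h
  rcases brec_true h with h | h
  · exact lF3_good (T := T) (x := Lt.vi) (by decide) .ui .v .u (hole_rel hinv hr (by decide +kernel)) h
  · exact dp_vi_11_s hinv hr hH j u hu h
theorem dp_vi_13_s (hinv : ∀ x, g (inv x) = (g x)⁻¹) (hr : ∀ r ∈ rels, (r.map g).prod = 1) (hH : ∀ r ∈ subs, (r.map g).prod ∈ H)
    (j u : ℕ) (hu : u < M) (h : dp_vi_13 j u = true) : Good (fa g) T MG M (cP g H) Lt.vi u := by
  unfold dp_vi_13 at h
  rcases brec_true h with h | h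
  · rcases brec_true h with h | h
    · exact lF3_good (T := T) (x := Lt.vi) (by decide) .w .v .wi (hole_rel hinv hr (by decide +kernel)) h
    · exact lF3_good (T := T) (x := Lt.vi) (by decide) .u .v .ui (hole_rel hinv hr (by decide +kernel)) h
  · exact dp_vi_12_s hinv hr hH j u hu h
theorem snd_vi (hinv : ∀ x, g (inv x) = (g x)⁻¹) (hr : ∀ r ∈ rels, (r.map g).prod = 1) (hH : ∀ r ∈ subs, (r.map g).prod ∈ H)
    (j u : ℕ) (hu : u < M) (h : disp_vi j u = true) : Good (fa g) T MG M (cP g H) Lt.vi u := by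
  unfold disp_vi at h
  rcases brec_true h with h | h
  · rcases brec_true h with h | h
    · exact lF1_good (T := T) (x := Lt.vi) (by decide) .v (hole_rel hinv hr (by decide +kernel)) h
    · exact lPar_good (T := T) (x := Lt.vi) (x' := Lt.v) (by decide) rfl (inv_rel hinv _ _ rfl) h
  · rcases brec_true h with h | h
    · rcases brec_true h with h | h
      · exact lDef_good (T := T) (x := Lt.vi) (by decide) rfl h
      · exact lF3_good (T := T) (x := Lt.vi) (by decide) .wi .v .w (hole_rel hinv hr (by decide +kernel)) h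
    · exact dp_vi_13_s hinv hr hH j u hu h
theorem snc_vi (hinv : ∀ x, g (inv x) = (g x)⁻¹) (hr : ∀ r ∈ rels, (r.map g).prod = 1) (hH : ∀ r ∈ subs, (r.map g).prod ∈ H)
    (j u : ℕ) (hu : u < M) (h : chk_vi j u = true) : (T Lt.vi u < A ∧ Good (fa g) T MG M (cP g H) Lt.vi u) ∨ (A ≤ T Lt.vi u ∧ MG u < A) := by
  unfold chk_vi at h
  cases hb : Nat.ble A (T_vi u) with
  | true => rw [hb] at h; exact Or.inr ⟨le_of_ble hb, le_of_ble h⟩
  | false => rw [hb] at h; exact Or.inl ⟨lt_of_ble_false hb, snd_vi hinv hr hH j u hu h⟩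
theorem dp_w_0_s (hinv : ∀ x, g (inv x) = (g x)⁻¹) (hr : ∀ r ∈ rels, (r.map g).prod = 1) (hH : ∀ r ∈ subs, (r.map g).prod ∈ H)
    (j u : ℕ) (hu : u < M) (h : dp_w_0 j u = true) : Good (fa g) T MG M (cP g H) Lt.w u := by
  unfold dp_w_0 at h
  rcases brec_true h with h | h
  · exact lF3_good (T := T) (x := Lt.w) (by decide) .c .wi .ci (hole_rel hinv hr (by decide +kernel)) h
  · exact lF3_good (T := T) (x := Lt.w) (by decide) .ui .wi .u (hole_rel hinv hr (by decide +kernel)) h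
theorem dp_w_1_s (hinv : ∀ x, g (inv x) = (g x)⁻¹) (hr : ∀ r ∈ rels, (r.map g).prod = 1) (hH : ∀ r ∈ subs, (r.map g).prod ∈ H)
    (j u : ℕ) (hu : u < M) (h : dp_w_1 j u = true) : Good (fa g) T MG M (cP g H) Lt.w u := by
  unfold dp_w_1 at h
  rcases brec_true h with h | h
  · exact lF3_good (T := T) (x := Lt.w) (by decide) .bi .wi .b (hole_rel hinv hr (by decide +kernel)) h
  · exact lF3_good (T := T) (x := Lt.w) (by decide) .v .wi .vi (hole_rel hinv hr (by decide +kernel)) h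
theorem dp_w_2_s (hinv : ∀ x, g (inv x) = (g x)⁻¹) (hr : ∀ r ∈ rels, (r.map g).prod = 1) (hH : ∀ r ∈ subs, (r.map g).prod ∈ H)
    (j u : ℕ) (hu : u < M) (h : dp_w_2 j u = true) : Good (fa g) T MG M (cP g H) Lt.w u := by
  unfold dp_w_2 at h
  rcases brec_true h with h | h
  · exact lF3_good (T := T) (x := Lt.w) (by decide) .b .wi .bi (hole_rel hinv hr (by decide +kernel)) h
  · exact lF3_good (T := T) (x := Lt.w) (by decide) .vi .wi .v (hole_rel hinv hr (by decide +kernel)) h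
theorem dp_w_3_s (hinv : ∀ x, g (inv x) = (g x)⁻¹) (hr : ∀ r ∈ rels, (r.map g).prod = 1) (hH : ∀ r ∈ subs, (r.map g).prod ∈ H)
    (j u : ℕ) (hu : u < M) (h : dp_w_3 j u = true) : Good (fa g) T MG M (cP g H) Lt.w u := by
  unfold dp_w_3 at h
  rcases brec_true h with h | h
  · exact lS_good (T := T) (x := Lt.w) (by decide) hu [Lt.wi] (hole_rel hinv hr (by decide +kernel)) h
  · exact lF_good (T := T) (x := Lt.w) (by decide) [Lt.a, Lt.wi, Lt.wi, Lt.ai] (hole_rel hinv hr (by decide +kernel)) h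
theorem dp_w_4_s (hinv : ∀ x, g (inv x) = (g x)⁻¹) (hr : ∀ r ∈ rels, (r.map g).prod = 1) (hH : ∀ r ∈ subs, (r.map g).prod ∈ H)
    (j u : ℕ) (hu : u < M) (h : dp_w_4 j u = true) : Good (fa g) T MG M (cP g H) Lt.w u := by
  unfold dp_w_4 at h
  rcases brec_true h with h | h
  · exact lF_good (T := T) (x := Lt.w) (by decide) [Lt.ai, Lt.wi, Lt.a, Lt.w] (hole_rel hinv hr (by decide +kernel)) h
  · exact lF_good (T := T) (x := Lt.w) (by decide) [Lt.w, Lt.w, Lt.w, Lt.w] (hole_rel hinv hr (by decide +kernel)) h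
theorem dp_w_5_s (hinv : ∀ x, g (inv x) = (g x)⁻¹) (hr : ∀ r ∈ rels, (r.map g).prod = 1) (hH : ∀ r ∈ subs, (r.map g).prod ∈ H)
    (j u : ℕ) (hu : u < M) (h : dp_w_5 j u = true) : Good (fa g) T MG M (cP g H) Lt.w u := by
  unfold dp_w_5 at h
  rcases brec_true h with h | h
  · exact lF_good (T := T) (x := Lt.w) (by decide) [Lt.w, Lt.ai, Lt.wi, Lt.a] (hole_rel hinv hr (by decide +kernel)) h
  · exact lS_good (T := T) (x := Lt.w) (by decide) hu [Lt.c, Lt.wi, Lt.ci] (hole_rel hinv hr (by decide +kernel)) h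
theorem dp_w_6_s (hinv : ∀ x, g (inv x) = (g x)⁻¹) (hr : ∀ r ∈ rels, (r.map g).prod = 1) (hH : ∀ r ∈ subs, (r.map g).prod ∈ H)
    (j u : ℕ) (hu : u < M) (h : dp_w_6 j u = true) : Good (fa g) T MG M (cP g H) Lt.w u := by
  unfold dp_w_6 at h
  rcases brec_true h with h | h
  · exact lF_good (T := T) (x := Lt.w) (by decide) [Lt.ui, Lt.ci, Lt.u, Lt.c] (hole_rel hinv hr (by decide +kernel)) h
  · exact dp_w_5_s hinv hr hH j u hu h
theorem dp_w_7_s (hinv : ∀ x, g (inv x) = (g x)⁻¹) (hr : ∀ r ∈ rels, (r.map g).prod = 1) (hH : ∀ r ∈ subs, (r.map g).prod ∈ H)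
    (j u : ℕ) (hu : u < M) (h : dp_w_7 j u = true) : Good (fa g) T MG M (cP g H) Lt.w u := by
  unfold dp_w_7 at h
  rcases brec_true h with h | h
  · exact lS_good (T := T) (x := Lt.w) (by decide) hu [Lt.ci, Lt.wi, Lt.c] (hole_rel hinv hr (by decide +kernel)) h
  · exact lS_good (T := T) (x := Lt.w) (by decide) hu [Lt.u, Lt.wi, Lt.ui] (hole_rel hinv hr (by decide +kernel)) h
theorem dp_w_8_s (hinv : ∀ x, g (inv x) = (g x)⁻¹) (hr : ∀ r ∈ rels, (r.map g).prod = 1) (hH : ∀ r ∈ subs, (r.map g).prod ∈ H)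
    (j u : ℕ) (hu : u < M) (h : dp_w_8 j u = true) : Good (fa g) T MG M (cP g H) Lt.w u := by
  unfold dp_w_8 at h
  rcases brec_true h with h | h
  · exact lS_good (T := T) (x := Lt.w) (by decide) hu [Lt.b, Lt.wi, Lt.bi] (hole_rel hinv hr (by decide +kernel)) h
  · exact dp_w_7_s hinv hr hH j u hu h
theorem dp_w_9_s (hinv : ∀ x, g (inv x) = (g x)⁻¹) (hr : ∀ r ∈ rels, (r.map g).prod = 1) (hH : ∀ r ∈ subs, (r.map g).prod ∈ H)
    (j u : ℕ) (hu : u < M) (h : dp_w_9 j u = true) : Good (fa g) T MG M (cP g H) Lt.w u := by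
  unfold dp_w_9 at h
  rcases brec_true h with h | h
  · exact lS_good (T := T) (x := Lt.w) (by decide) hu [Lt.vi, Lt.wi, Lt.v] (hole_rel hinv hr (by decide +kernel)) h
  · exact lF_good (T := T) (x := Lt.w) (by decide) [Lt.vi, Lt.ci, Lt.v, Lt.c, Lt.w] (hole_rel hinv hr (by decide +kernel)) h
theorem dp_w_10_s (hinv : ∀ x, g (inv x) = (g x)⁻¹) (hr : ∀ r ∈ rels, (r.map g).prod = 1) (hH : ∀ r ∈ subs, (r.map g).prod ∈ H)
    (j u : ℕ) (hu : u < M) (h : dp_w_10 j u = true) : Good (fa g) T MG M (cP g H) Lt.w u := by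
  unfold dp_w_10 at h
  rcases brec_true h with h | h
  · exact lF_good (T := T) (x := Lt.w) (by decide) [Lt.w, Lt.vi, Lt.ci, Lt.v, Lt.c] (hole_rel hinv hr (by decide +kernel)) h
  · exact dp_w_9_s hinv hr hH j u hu h
theorem dp_w_11_s (hinv : ∀ x, g (inv x) = (g x)⁻¹) (hr : ∀ r ∈ rels, (r.map g).prod = 1) (hH : ∀ r ∈ subs, (r.map g).prod ∈ H)
    (j u : ℕ) (hu : u < M) (h : dp_w_11 j u = true) : Good (fa g) T MG M (cP g H) Lt.w u := by
  unfold dp_w_11 at h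
  rcases brec_true h with h | h
  · exact lS_good (T := T) (x := Lt.w) (by decide) hu [Lt.v, Lt.wi, Lt.vi] (hole_rel hinv hr (by decide +kernel)) h
  · exact lS_good (T := T) (x := Lt.w) (by decide) hu [Lt.bi, Lt.wi, Lt.b] (hole_rel hinv hr (by decide +kernel)) h
theorem dp_w_12_s (hinv : ∀ x, g (inv x) = (g x)⁻¹) (hr : ∀ r ∈ rels, (r.map g).prod = 1) (hH : ∀ r ∈ subs, (r.map g).prod ∈ H)
    (j u : ℕ) (hu : u < M) (h : dp_w_12 j u = true) : Good (fa g) T MG M (cP g H) Lt.w u := by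
  unfold dp_w_12 at h
  rcases brec_true h with h | h
  · exact lS_good (T := T) (x := Lt.w) (by decide) hu [Lt.ui, Lt.wi, Lt.u] (hole_rel hinv hr (by decide +kernel)) h
  · exact lS_good (T := T) (x := Lt.w) (by decide) hu [Lt.ui, Lt.bi, Lt.ci, Lt.b, Lt.u, Lt.bi, Lt.c, Lt.b] (hole_rel hinv hr (by decide +kernel)) h
theorem dp_w_13_s (hinv : ∀ x, g (inv x) = (g x)⁻¹) (hr : ∀ r ∈ rels, (r.map g).prod = 1) (hH : ∀ r ∈ subs, (r.map g).prod ∈ H)
    (j u : ℕ) (hu : u < M) (h : dp_w_13 j u = true) : Good (fa g) T MG M (cP g H) Lt.w u := by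
  unfold dp_w_13 at h
  rcases brec_true h with h | h
  · exact lF_good (T := T) (x := Lt.w) (by decide) [Lt.ui, Lt.bi, Lt.ci, Lt.b, Lt.u, Lt.bi, Lt.c, Lt.b] (hole_rel hinv hr (by decide +kernel)) h
  · exact dp_w_12_s hinv hr hH j u hu h
theorem dp_w_14_s (hinv : ∀ x, g (inv x) = (g x)⁻¹) (hr : ∀ r ∈ rels, (r.map g).prod = 1) (hH : ∀ r ∈ subs, (r.map g).prod ∈ H)
    (j u : ℕ) (hu : u < M) (h : dp_w_14 j u = true) : Good (fa g) T MG M (cP g H) Lt.w u := by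
  unfold dp_w_14 at h
  rcases brec_true h with h | h
  · exact dp_w_11_s hinv hr hH j u hu h
  · exact dp_w_13_s hinv hr hH j u hu h
theorem dp_w_15_s (hinv : ∀ x, g (inv x) = (g x)⁻¹) (hr : ∀ r ∈ rels, (r.map g).prod = 1) (hH : ∀ r ∈ subs, (r.map g).prod ∈ H)
    (j u : ℕ) (hu : u < M) (h : dp_w_15 j u = true) : Good (fa g) T MG M (cP g H) Lt.w u := by
  unfold dp_w_15 at h
  rcases brec_true h with h | h
  · exact dp_w_10_s hinv hr hH j u hu h
  · exact dp_w_14_s hinv hr hH j u hu h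
theorem dp_w_16_s (hinv : ∀ x, g (inv x) = (g x)⁻¹) (hr : ∀ r ∈ rels, (r.map g).prod = 1) (hH : ∀ r ∈ subs, (r.map g).prod ∈ H)
    (j u : ℕ) (hu : u < M) (h : dp_w_16 j u = true) : Good (fa g) T MG M (cP g H) Lt.w u := by
  unfold dp_w_16 at h
  rcases brec_true h with h | h
  · exact dp_w_8_s hinv hr hH j u hu h
  · exact dp_w_15_s hinv hr hH j u hu h
theorem dp_w_17_s (hinv : ∀ x, g (inv x) = (g x)⁻¹) (hr : ∀ r ∈ rels, (r.map g).prod = 1) (hH : ∀ r ∈ subs, (r.map g).prod ∈ H)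
    (j u : ℕ) (hu : u < M) (h : dp_w_17 j u = true) : Good (fa g) T MG M (cP g H) Lt.w u := by
  unfold dp_w_17 at h
  rcases brec_true h with h | h
  · exact dp_w_6_s hinv hr hH j u hu h
  · exact dp_w_16_s hinv hr hH j u hu h
theorem dp_w_18_s (hinv : ∀ x, g (inv x) = (g x)⁻¹) (hr : ∀ r ∈ rels, (r.map g).prod = 1) (hH : ∀ r ∈ subs, (r.map g).prod ∈ H)
    (j u : ℕ) (hu : u < M) (h : dp_w_18 j u = true) : Good (fa g) T MG M (cP g H) Lt.w u := by
  unfold dp_w_18 at h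
  rcases brec_true h with h | h
  · exact dp_w_4_s hinv hr hH j u hu h
  · exact dp_w_17_s hinv hr hH j u hu h
theorem dp_w_19_s (hinv : ∀ x, g (inv x) = (g x)⁻¹) (hr : ∀ r ∈ rels, (r.map g).prod = 1) (hH : ∀ r ∈ subs, (r.map g).prod ∈ H)
    (j u : ℕ) (hu : u < M) (h : dp_w_19 j u = true) : Good (fa g) T MG M (cP g H) Lt.w u := by
  unfold dp_w_19 at h
  rcases brec_true h with h | h
  · exact dp_w_3_s hinv hr hH j u hu h
  · exact dp_w_18_s hinv hr hH j u hu h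
theorem dp_w_20_s (hinv : ∀ x, g (inv x) = (g x)⁻¹) (hr : ∀ r ∈ rels, (r.map g).prod = 1) (hH : ∀ r ∈ subs, (r.map g).prod ∈ H)
    (j u : ℕ) (hu : u < M) (h : dp_w_20 j u = true) : Good (fa g) T MG M (cP g H) Lt.w u := by
  unfold dp_w_20 at h
  rcases brec_true h with h | h
  · exact dp_w_2_s hinv hr hH j u hu h
  · exact dp_w_19_s hinv hr hH j u hu h
theorem dp_w_21_s (hinv : ∀ x, g (inv x) = (g x)⁻¹) (hr : ∀ r ∈ rels, (r.map g).prod = 1) (hH : ∀ r ∈ subs, (r.map g).prod ∈ H)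
    (j u : ℕ) (hu : u < M) (h : dp_w_21 j u = true) : Good (fa g) T MG M (cP g H) Lt.w u := by
  unfold dp_w_21 at h
  rcases brec_true h with h | h
  · rcases brec_true h with h | h
    · exact lF3_good (T := T) (x := Lt.w) (by decide) .ci .wi .c (hole_rel hinv hr (by decide +kernel)) h
    · exact dp_w_1_s hinv hr hH j u hu h
  · exact dp_w_20_s hinv hr hH j u hu h
theorem dp_w_22_s (hinv : ∀ x, g (inv x) = (g x)⁻¹) (hr : ∀ r ∈ rels, (r.map g).prod = 1) (hH : ∀ r ∈ subs, (r.map g).prod ∈ H)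
    (j u : ℕ) (hu : u < M) (h : dp_w_22 j u = true) : Good (fa g) T MG M (cP g H) Lt.w u := by
  unfold dp_w_22 at h
  rcases brec_true h with h | h
  · rcases brec_true h with h | h
    · rcases brec_true h with h | h
      · exact lPar_good (T := T) (x := Lt.w) (x' := Lt.wi) (by decide) rfl (inv_rel hinv _ _ rfl) h
      · exact lF3_good (T := T) (x := Lt.w) (by decide) .u .wi .ui (hole_rel hinv hr (by decide +kernel)) h
    · exact dp_w_0_s hinv hr hH j u hu h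
  · exact dp_w_21_s hinv hr hH j u hu h
theorem snd_w (hinv : ∀ x, g (inv x) = (g x)⁻¹) (hr : ∀ r ∈ rels, (r.map g).prod = 1) (hH : ∀ r ∈ subs, (r.map g).prod ∈ H)
    (j u : ℕ) (hu : u < M) (h : disp_w j u = true) : Good (fa g) T MG M (cP g H) Lt.w u := by
  unfold disp_w at h
  rcases brec_true h with h | h
  · rcases brec_true h with h | h
    · exact lF1_good (T := T) (x := Lt.w) (by decide) .wi (hole_rel hinv hr (by decide +kernel)) h
    · exact lDef_good (T := T) (x := Lt.w) (by decide) rfl h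
  · exact dp_w_22_s hinv hr hH j u hu h
theorem snc_w (hinv : ∀ x, g (inv x) = (g x)⁻¹) (hr : ∀ r ∈ rels, (r.map g).prod = 1) (hH : ∀ r ∈ subs, (r.map g).prod ∈ H)
    (j u : ℕ) (hu : u < M) (h : chk_w j u = true) : (T Lt.w u < A ∧ Good (fa g) T MG M (cP g H) Lt.w u) ∨ (A ≤ T Lt.w u ∧ MG u < A) := by
  unfold chk_w at h
  cases hb : Nat.ble A (T_w u) with
  | true => rw [hb] at h; exact Or.inr ⟨le_of_ble hb, le_of_ble h⟩
  | false => rw [hb] at h; exact Or.inl ⟨lt_of_ble_false hb, snd_w hinv hr hH j u hu h⟩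
theorem dp_wi_0_s (hinv : ∀ x, g (inv x) = (g x)⁻¹) (hr : ∀ r ∈ rels, (r.map g).prod = 1) (hH : ∀ r ∈ subs, (r.map g).prod ∈ H)
    (j u : ℕ) (hu : u < M) (h : dp_wi_0 j u = true) : Good (fa g) T MG M (cP g H) Lt.wi u := by
  unfold dp_wi_0 at h
  rcases brec_true h with h | h
  · exact lF3_good (T := T) (x := Lt.wi) (by decide) .ui .w .u (hole_rel hinv hr (by decide +kernel)) h
  · exact lF3_good (T := T) (x := Lt.wi) (by decide) .c .w .ci (hole_rel hinv hr (by decide +kernel)) h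
theorem dp_wi_1_s (hinv : ∀ x, g (inv x) = (g x)⁻¹) (hr : ∀ r ∈ rels, (r.map g).prod = 1) (hH : ∀ r ∈ subs, (r.map g).prod ∈ H)
    (j u : ℕ) (hu : u < M) (h : dp_wi_1 j u = true) : Good (fa g) T MG M (cP g H) Lt.wi u := by
  unfold dp_wi_1 at h
  rcases brec_true h with h | h
  · exact lF3_good (T := T) (x := Lt.wi) (by decide) .bi .w .b (hole_rel hinv hr (by decide +kernel)) h
  · exact lF3_good (T := T) (x := Lt.wi) (by decide) .b .w .bi (hole_rel hinv hr (by decide +kernel)) h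
theorem dp_wi_2_s (hinv : ∀ x, g (inv x) = (g x)⁻¹) (hr : ∀ r ∈ rels, (r.map g).prod = 1) (hH : ∀ r ∈ subs, (r.map g).prod ∈ H)
    (j u : ℕ) (hu : u < M) (h : dp_wi_2 j u = true) : Good (fa g) T MG M (cP g H) Lt.wi u := by
  unfold dp_wi_2 at h
  rcases brec_true h with h | h
  · exact lF3_good (T := T) (x := Lt.wi) (by decide) .v .w .vi (hole_rel hinv hr (by decide +kernel)) h
  · exact lF3_good (T := T) (x := Lt.wi) (by decide) .vi .w .v (hole_rel hinv hr (by decide +kernel)) h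
theorem dp_wi_3_s (hinv : ∀ x, g (inv x) = (g x)⁻¹) (hr : ∀ r ∈ rels, (r.map g).prod = 1) (hH : ∀ r ∈ subs, (r.map g).prod ∈ H)
    (j u : ℕ) (hu : u < M) (h : dp_wi_3 j u = true) : Good (fa g) T MG M (cP g H) Lt.wi u := by
  unfold dp_wi_3 at h
  rcases brec_true h with h | h
  · exact lF_good (T := T) (x := Lt.wi) (by decide) [Lt.a, Lt.w, Lt.w, Lt.ai] (hole_rel hinv hr (by decide +kernel)) h
  · exact lS_good (T := T) (x := Lt.wi) (by decide) hu [Lt.w] (hole_rel hinv hr (by decide +kernel)) h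
theorem dp_wi_4_s (hinv : ∀ x, g (inv x) = (g x)⁻¹) (hr : ∀ r ∈ rels, (r.map g).prod = 1) (hH : ∀ r ∈ subs, (r.map g).prod ∈ H)
    (j u : ℕ) (hu : u < M) (h : dp_wi_4 j u = true) : Good (fa g) T MG M (cP g H) Lt.wi u := by
  unfold dp_wi_4 at h
  rcases brec_true h with h | h
  · exact lF_good (T := T) (x := Lt.wi) (by decide) [Lt.ci, Lt.ui, Lt.c, Lt.u] (hole_rel hinv hr (by decide +kernel)) h
  · exact lF_good (T := T) (x := Lt.wi) (by decide) [Lt.ai, Lt.w, Lt.a, Lt.wi] (hole_rel hinv hr (by decide +kernel)) h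
theorem dp_wi_5_s (hinv : ∀ x, g (inv x) = (g x)⁻¹) (hr : ∀ r ∈ rels, (r.map g).prod = 1) (hH : ∀ r ∈ subs, (r.map g).prod ∈ H)
    (j u : ℕ) (hu : u < M) (h : dp_wi_5 j u = true) : Good (fa g) T MG M (cP g H) Lt.wi u := by
  unfold dp_wi_5 at h
  rcases brec_true h with h | h
  · exact lF_good (T := T) (x := Lt.wi) (by decide) [Lt.wi, Lt.ai, Lt.w, Lt.a] (hole_rel hinv hr (by decide +kernel)) h
  · exact lF_good (T := T) (x := Lt.wi) (by decide) [Lt.ci, Lt.vi, Lt.c, Lt.v, Lt.wi] (hole_rel hinv hr (by decide +kernel)) h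
theorem dp_wi_6_s (hinv : ∀ x, g (inv x) = (g x)⁻¹) (hr : ∀ r ∈ rels, (r.map g).prod = 1) (hH : ∀ r ∈ subs, (r.map g).prod ∈ H)
    (j u : ℕ) (hu : u < M) (h : dp_wi_6 j u = true) : Good (fa g) T MG M (cP g H) Lt.wi u := by
  unfold dp_wi_6 at h
  rcases brec_true h with h | h
  · exact lS_good (T := T) (x := Lt.wi) (by decide) hu [Lt.v, Lt.w, Lt.vi] (hole_rel hinv hr (by decide +kernel)) h
  · exact lS_good (T := T) (x := Lt.wi) (by decide) hu [Lt.b, Lt.w, Lt.bi] (hole_rel hinv hr (by decide +kernel)) h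
theorem dp_wi_7_s (hinv : ∀ x, g (inv x) = (g x)⁻¹) (hr : ∀ r ∈ rels, (r.map g).prod = 1) (hH : ∀ r ∈ subs, (r.map g).prod ∈ H)
    (j u : ℕ) (hu : u < M) (h : dp_wi_7 j u = true) : Good (fa g) T MG M (cP g H) Lt.wi u := by
  unfold dp_wi_7 at h
  rcases brec_true h with h | h
  · exact dp_wi_5_s hinv hr hH j u hu h
  · exact dp_wi_6_s hinv hr hH j u hu h
theorem dp_wi_8_s (hinv : ∀ x, g (inv x) = (g x)⁻¹) (hr : ∀ r ∈ rels, (r.map g).prod = 1) (hH : ∀ r ∈ subs, (r.map g).prod ∈ H)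
    (j u : ℕ) (hu : u < M) (h : dp_wi_8 j u = true) : Good (fa g) T MG M (cP g H) Lt.wi u := by
  unfold dp_wi_8 at h
  rcases brec_true h with h | h
  · exact lS_good (T := T) (x := Lt.wi) (by decide) hu [Lt.u, Lt.w, Lt.ui] (hole_rel hinv hr (by decide +kernel)) h
  · exact lS_good (T := T) (x := Lt.wi) (by decide) hu [Lt.ci, Lt.w, Lt.c] (hole_rel hinv hr (by decide +kernel)) h
theorem dp_wi_9_s (hinv : ∀ x, g (inv x) = (g x)⁻¹) (hr : ∀ r ∈ rels, (r.map g).prod = 1) (hH : ∀ r ∈ subs, (r.map g).prod ∈ H)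
    (j u : ℕ) (hu : u < M) (h : dp_wi_9 j u = true) : Good (fa g) T MG M (cP g H) Lt.wi u := by
  unfold dp_wi_9 at h
  rcases brec_true h with h | h
  · exact lS_good (T := T) (x := Lt.wi) (by decide) hu [Lt.c, Lt.w, Lt.ci] (hole_rel hinv hr (by decide +kernel)) h
  · exact dp_wi_8_s hinv hr hH j u hu h
theorem dp_wi_10_s (hinv : ∀ x, g (inv x) = (g x)⁻¹) (hr : ∀ r ∈ rels, (r.map g).prod = 1) (hH : ∀ r ∈ subs, (r.map g).prod ∈ H)
    (j u : ℕ) (hu : u < M) (h : dp_wi_10 j u = true) : Good (fa g) T MG M (cP g H) Lt.wi u := by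
  unfold dp_wi_10 at h
  rcases brec_true h with h | h
  · exact lS_good (T := T) (x := Lt.wi) (by decide) hu [Lt.ui, Lt.w, Lt.u] (hole_rel hinv hr (by decide +kernel)) h
  · exact lS_good (T := T) (x := Lt.wi) (by decide) hu [Lt.vi, Lt.w, Lt.v] (hole_rel hinv hr (by decide +kernel)) h
theorem dp_wi_11_s (hinv : ∀ x, g (inv x) = (g x)⁻¹) (hr : ∀ r ∈ rels, (r.map g).prod = 1) (hH : ∀ r ∈ subs, (r.map g).prod ∈ H)
    (j u : ℕ) (hu : u < M) (h : dp_wi_11 j u = true) : Good (fa g) T MG M (cP g H) Lt.wi u := by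
  unfold dp_wi_11 at h
  rcases brec_true h with h | h
  · exact lS_good (T := T) (x := Lt.wi) (by decide) hu [Lt.a, Lt.w, Lt.w, Lt.ai] (hole_rel hinv hr (by decide +kernel)) h
  · exact lS_good (T := T) (x := Lt.wi) (by decide) hu [Lt.bi, Lt.w, Lt.b] (hole_rel hinv hr (by decide +kernel)) h
theorem dp_wi_12_s (hinv : ∀ x, g (inv x) = (g x)⁻¹) (hr : ∀ r ∈ rels, (r.map g).prod = 1) (hH : ∀ r ∈ subs, (r.map g).prod ∈ H)
    (j u : ℕ) (hu : u < M) (h : dp_wi_12 j u = true) : Good (fa g) T MG M (cP g H) Lt.wi u := by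
  unfold dp_wi_12 at h
  rcases brec_true h with h | h
  · exact lF_good (T := T) (x := Lt.wi) (by decide) [Lt.wi, Lt.ci, Lt.vi, Lt.c, Lt.v] (hole_rel hinv hr (by decide +kernel)) h
  · exact dp_wi_11_s hinv hr hH j u hu h
theorem dp_wi_13_s (hinv : ∀ x, g (inv x) = (g x)⁻¹) (hr : ∀ r ∈ rels, (r.map g).prod = 1) (hH : ∀ r ∈ subs, (r.map g).prod ∈ H)
    (j u : ℕ) (hu : u < M) (h : dp_wi_13 j u = true) : Good (fa g) T MG M (cP g H) Lt.wi u := by
  unfold dp_wi_13 at h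
  rcases brec_true h with h | h
  · exact lF_good (T := T) (x := Lt.wi) (by decide) [Lt.wi, Lt.wi, Lt.wi, Lt.wi] (hole_rel hinv hr (by decide +kernel)) h
  · exact dp_wi_12_s hinv hr hH j u hu h
theorem dp_wi_14_s (hinv : ∀ x, g (inv x) = (g x)⁻¹) (hr : ∀ r ∈ rels, (r.map g).prod = 1) (hH : ∀ r ∈ subs, (r.map g).prod ∈ H)
    (j u : ℕ) (hu : u < M) (h : dp_wi_14 j u = true) : Good (fa g) T MG M (cP g H) Lt.wi u := by
  unfold dp_wi_14 at h
  rcases brec_true h with h | h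
  · exact dp_wi_10_s hinv hr hH j u hu h
  · exact dp_wi_13_s hinv hr hH j u hu h
theorem dp_wi_15_s (hinv : ∀ x, g (inv x) = (g x)⁻¹) (hr : ∀ r ∈ rels, (r.map g).prod = 1) (hH : ∀ r ∈ subs, (r.map g).prod ∈ H)
    (j u : ℕ) (hu : u < M) (h : dp_wi_15 j u = true) : Good (fa g) T MG M (cP g H) Lt.wi u := by
  unfold dp_wi_15 at h
  rcases brec_true h with h | h
  · exact dp_wi_9_s hinv hr hH j u hu h
  · exact dp_wi_14_s hinv hr hH j u hu h
theorem dp_wi_16_s (hinv : ∀ x, g (inv x) = (g x)⁻¹) (hr : ∀ r ∈ rels, (r.map g).prod = 1) (hH : ∀ r ∈ subs, (r.map g).prod ∈ H)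
    (j u : ℕ) (hu : u < M) (h : dp_wi_16 j u = true) : Good (fa g) T MG M (cP g H) Lt.wi u := by
  unfold dp_wi_16 at h
  rcases brec_true h with h | h
  · exact dp_wi_7_s hinv hr hH j u hu h
  · exact dp_wi_15_s hinv hr hH j u hu h
theorem dp_wi_17_s (hinv : ∀ x, g (inv x) = (g x)⁻¹) (hr : ∀ r ∈ rels, (r.map g).prod = 1) (hH : ∀ r ∈ subs, (r.map g).prod ∈ H)
    (j u : ℕ) (hu : u < M) (h : dp_wi_17 j u = true) : Good (fa g) T MG M (cP g H) Lt.wi u := by
  unfold dp_wi_17 at h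
  rcases brec_true h with h | h
  · exact dp_wi_4_s hinv hr hH j u hu h
  · exact dp_wi_16_s hinv hr hH j u hu h
theorem dp_wi_18_s (hinv : ∀ x, g (inv x) = (g x)⁻¹) (hr : ∀ r ∈ rels, (r.map g).prod = 1) (hH : ∀ r ∈ subs, (r.map g).prod ∈ H)
    (j u : ℕ) (hu : u < M) (h : dp_wi_18 j u = true) : Good (fa g) T MG M (cP g H) Lt.wi u := by
  unfold dp_wi_18 at h
  rcases brec_true h with h | h
  · exact dp_wi_3_s hinv hr hH j u hu h
  · exact dp_wi_17_s hinv hr hH j u hu h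
theorem dp_wi_19_s (hinv : ∀ x, g (inv x) = (g x)⁻¹) (hr : ∀ r ∈ rels, (r.map g).prod = 1) (hH : ∀ r ∈ subs, (r.map g).prod ∈ H)
    (j u : ℕ) (hu : u < M) (h : dp_wi_19 j u = true) : Good (fa g) T MG M (cP g H) Lt.wi u := by
  unfold dp_wi_19 at h
  rcases brec_true h with h | h
  · exact dp_wi_2_s hinv hr hH j u hu h
  · exact dp_wi_18_s hinv hr hH j u hu h
theorem dp_wi_20_s (hinv : ∀ x, g (inv x) = (g x)⁻¹) (hr : ∀ r ∈ rels, (r.map g).prod = 1) (hH : ∀ r ∈ subs, (r.map g).prod ∈ H)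
    (j u : ℕ) (hu : u < M) (h : dp_wi_20 j u = true) : Good (fa g) T MG M (cP g H) Lt.wi u := by
  unfold dp_wi_20 at h
  rcases brec_true h with h | h
  · rcases brec_true h with h | h
    · exact lF3_good (T := T) (x := Lt.wi) (by decide) .ci .w .c (hole_rel hinv hr (by decide +kernel)) h
    · exact dp_wi_1_s hinv hr hH j u hu h
  · exact dp_wi_19_s hinv hr hH j u hu h
theorem snd_wi (hinv : ∀ x, g (inv x) = (g x)⁻¹) (hr : ∀ r ∈ rels, (r.map g).prod = 1) (hH : ∀ r ∈ subs, (r.map g).prod ∈ H)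
    (j u : ℕ) (hu : u < M) (h : disp_wi j u = true) : Good (fa g) T MG M (cP g H) Lt.wi u := by
  unfold disp_wi at h
  rcases brec_true h with h | h
  · rcases brec_true h with h | h
    · exact lF1_good (T := T) (x := Lt.wi) (by decide) .w (hole_rel hinv hr (by decide +kernel)) h
    · exact lPar_good (T := T) (x := Lt.wi) (x' := Lt.w) (by decide) rfl (inv_rel hinv _ _ rfl) h
  · rcases brec_true h with h | h
    · rcases brec_true h with h | h
      · rcases brec_true h with h | h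
        · exact lDef_good (T := T) (x := Lt.wi) (by decide) rfl h
        · exact lF3_good (T := T) (x := Lt.wi) (by decide) .u .w .ui (hole_rel hinv hr (by decide +kernel)) h
      · exact dp_wi_0_s hinv hr hH j u hu h
    · exact dp_wi_20_s hinv hr hH j u hu h
theorem snc_wi (hinv : ∀ x, g (inv x) = (g x)⁻¹) (hr : ∀ r ∈ rels, (r.map g).prod = 1) (hH : ∀ r ∈ subs, (r.map g).prod ∈ H)
    (j u : ℕ) (hu : u < M) (h : chk_wi j u = true) : (T Lt.wi u < A ∧ Good (fa g) T MG M (cP g H) Lt.wi u) ∨ (A ≤ T Lt.wi u ∧ MG u < A) := by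
  unfold chk_wi at h
  cases hb : Nat.ble A (T_wi u) with
  | true => rw [hb] at h; exact Or.inr ⟨le_of_ble hb, le_of_ble h⟩
  | false => rw [hb] at h; exact Or.inl ⟨lt_of_ble_false hb, snd_wi hinv hr hH j u hu h⟩
theorem dM_0_s (hinv : ∀ x, g (inv x) = (g x)⁻¹) (hr : ∀ r ∈ rels, (r.map g).prod = 1) (j z1 z2 u : ℕ) (h : dM_0 j z1 z2 u = true) : GoodM (fa g) T MG M (cP g H) u := by
  unfold dM_0 at h
  rcases brec_true h with h | h
  · rcases brec_true h with h | h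
    · exact mCo_good (T := T) (y := .a) (by decide) h
    · exact mCo_good (T := T) (y := .c) (by decide) h
  · rcases brec_true h with h | h
    · exact mCo_good (T := T) (y := .w) (by decide) h
    · exact mCo_good (T := T) (y := .wi) (by decide) h
theorem dM_1_s (hinv : ∀ x, g (inv x) = (g x)⁻¹) (hr : ∀ r ∈ rels, (r.map g).prod = 1) (j z1 z2 u : ℕ) (h : dM_1 j z1 z2 u = true) : GoodM (fa g) T MG M (cP g H) u := by
  unfold dM_1 at h
  rcases brec_true h with h | h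
  · rcases brec_true h with h | h
    · exact mCo_good (T := T) (y := .ci) (by decide) h
    · rcases brec_true h with h | h
      · exact mCo_good (T := T) (y := .bi) (by decide) h
      · exact mCo_good (T := T) (y := .b) (by decide) h
  · rcases brec_true h with h | h
    · rcases brec_true h with h | h
      · exact mCo_good (T := T) (y := .ai) (by decide) h
      · exact mCo_good (T := T) (y := .v) (by decide) h
    · rcases brec_true h with h | h
      · rcases brec_true h with h | h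
        · exact mRel_good (T := T) (by decide) [Lt.ci, Lt.w] [Lt.w, Lt.ci] (pair_rel hinv hr (by decide +kernel)) h
        · exact mCo_good (T := T) (y := .u) (by decide) h
      · rcases brec_true h with h | h
        · exact mCo_good (T := T) (y := .ui) (by decide) h
        · exact mRel_good (T := T) (by decide) [Lt.u, Lt.wi] [Lt.wi, Lt.u] (pair_rel hinv hr (by decide +kernel)) h
theorem dM_2_s (hinv : ∀ x, g (inv x) = (g x)⁻¹) (hr : ∀ r ∈ rels, (r.map g).prod = 1) (j z1 z2 u : ℕ) (h : dM_2 j z1 z2 u = true) : GoodM (fa g) T MG M (cP g H) u := by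
  unfold dM_2 at h
  rcases brec_true h with h | h
  · exact dM_0_s hinv hr j z1 z2 u h
  · exact dM_1_s hinv hr j z1 z2 u h
theorem dM_3_s (hinv : ∀ x, g (inv x) = (g x)⁻¹) (hr : ∀ r ∈ rels, (r.map g).prod = 1) (j z1 z2 u : ℕ) (h : dM_3 j z1 z2 u = true) : GoodM (fa g) T MG M (cP g H) u := by
  unfold dM_3 at h
  rcases brec_true h with h | h
  · rcases brec_true h with h | h
    · rcases brec_true h with h | h
      · exact mRel_good (T := T) (by decide) [Lt.v, Lt.wi] [Lt.wi, Lt.v] (pair_rel hinv hr (by decide +kernel)) h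
      · rcases brec_true h with h | h
        · exact mRel_good (T := T) (by decide) [Lt.ai, Lt.ai] [Lt.b, Lt.ai, Lt.ai, Lt.bi] (pair_rel hinv hr (by decide +kernel)) h
        · exact mRel_good (T := T) (by decide) [Lt.ci, Lt.w, Lt.c] [Lt.w] (pair_rel hinv hr (by decide +kernel)) h
    · rcases brec_true h with h | h
      · exact mRel_good (T := T) (by decide) [Lt.ci, Lt.bi] [Lt.bi, Lt.vi] (pair_rel hinv hr (by decide +kernel)) h
      · rcases brec_true h with h | h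
        · exact mCo_good (T := T) (y := .vi) (by decide) h
        · exact mRel_good (T := T) (by decide) [Lt.a, Lt.ui] [Lt.ci, Lt.a] (pair_rel hinv hr (by decide +kernel)) h
  · rcases brec_true h with h | h
    · rcases brec_true h with h | h
      · exact mRel_good (T := T) (by decide) [Lt.vi, Lt.b] [Lt.b, Lt.ci] (pair_rel hinv hr (by decide +kernel)) h
      · rcases brec_true h with h | h
        · exact mRel_good (T := T) (by decide) [Lt.b, Lt.wi, Lt.bi] [Lt.wi] (pair_rel hinv hr (by decide +kernel)) h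
        · exact mRel_good (T := T) (by decide) [Lt.bi, Lt.w] [Lt.w, Lt.bi] (pair_rel hinv hr (by decide +kernel)) h
    · rcases brec_true h with h | h
      · exact mRel_good (T := T) (by decide) [Lt.ui, Lt.w] [Lt.w, Lt.ui] (pair_rel hinv hr (by decide +kernel)) h
      · rcases brec_true h with h | h
        · exact mRel_good (T := T) (by decide) [Lt.bi, Lt.w, Lt.b] [Lt.w] (pair_rel hinv hr (by decide +kernel)) h
        · exact mRel_good (T := T) (by decide) [Lt.v, Lt.u, Lt.vi] [Lt.u] (pair_rel hinv hr (by decide +kernel)) h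
theorem dM_4_s (hinv : ∀ x, g (inv x) = (g x)⁻¹) (hr : ∀ r ∈ rels, (r.map g).prod = 1) (j z1 z2 u : ℕ) (h : dM_4 j z1 z2 u = true) : GoodM (fa g) T MG M (cP g H) u := by
  unfold dM_4 at h
  rcases brec_true h with h | h
  · rcases brec_true h with h | h
    · exact mRel_good (T := T) (by decide) [Lt.ai, Lt.c] [Lt.u, Lt.ai] (pair_rel hinv hr (by decide +kernel)) h
    · rcases brec_true h with h | h
      · exact mRel_good (T := T) (by decide) [Lt.wi, Lt.u, Lt.w] [Lt.u] (pair_rel hinv hr (by decide +kernel)) h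
      · exact mRel_good (T := T) (by decide) [Lt.vi, Lt.ui] [Lt.ui, Lt.vi] (pair_rel hinv hr (by decide +kernel)) h
  · rcases brec_true h with h | h
    · rcases brec_true h with h | h
      · exact mRel_good (T := T) (by decide) [Lt.ai] [Lt.w, Lt.w, Lt.ai, Lt.wi] (pair_rel hinv hr (by decide +kernel)) h
      · exact mRel_good (T := T) (by decide) [Lt.a, Lt.vi, Lt.ci, Lt.vi, Lt.bi, Lt.c, Lt.b, Lt.u, Lt.ci] [Lt.vi, Lt.a] (pair_rel hinv hr (by decide +kernel)) h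
    · rcases brec_true h with h | h
      · exact mRel_good (T := T) (by decide) [Lt.ci, Lt.a, Lt.u] [Lt.a] (pair_rel hinv hr (by decide +kernel)) h
      · rcases brec_true h with h | h
        · exact mRel_good (T := T) (by decide) [Lt.bi, Lt.vi] [Lt.ci, Lt.bi] (pair_rel hinv hr (by decide +kernel)) h
        · exact mRel_good (T := T) (by decide) [Lt.wi, Lt.v, Lt.w] [Lt.v] (pair_rel hinv hr (by decide +kernel)) h
theorem dM_5_s (hinv : ∀ x, g (inv x) = (g x)⁻¹) (hr : ∀ r ∈ rels, (r.map g).prod = 1) (j z1 z2 u : ℕ) (h : dM_5 j z1 z2 u = true) : GoodM (fa g) T MG M (cP g H) u := by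
  unfold dM_5 at h
  rcases brec_true h with h | h
  · rcases brec_true h with h | h
    · rcases brec_true h with h | h
      · exact mRel_good (T := T) (by decide) [Lt.bi, Lt.v, Lt.b] [Lt.c] (pair_rel hinv hr (by decide +kernel)) h
      · rcases brec_true h with h | h
        · exact mRel_good (T := T) (by decide) [Lt.v, Lt.wi, Lt.vi] [Lt.wi] (pair_rel hinv hr (by decide +kernel)) h
        · exact mRel_good (T := T) (by decide) [Lt.wi, Lt.ci] [Lt.ci, Lt.wi] (pair_rel hinv hr (by decide +kernel)) h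
    · rcases brec_true h with h | h
      · exact mRel_good (T := T) (by decide) [Lt.c, Lt.v, Lt.wi, Lt.wi] [Lt.v, Lt.c] (pair_rel hinv hr (by decide +kernel)) h
      · rcases brec_true h with h | h
        · exact mRel_good (T := T) (by decide) [Lt.wi, Lt.ui, Lt.w] [Lt.ui] (pair_rel hinv hr (by decide +kernel)) h
        · exact mRel_good (T := T) (by decide) [Lt.a, Lt.bi, Lt.ci, Lt.ci, Lt.b, Lt.c] [Lt.bi, Lt.c, Lt.b, Lt.a, Lt.vi] (pair_rel hinv hr (by decide +kernel)) h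
  · rcases brec_true h with h | h
    · rcases brec_true h with h | h
      · exact mRel_good (T := T) (by decide) [Lt.b, Lt.c] [Lt.v, Lt.b] (pair_rel hinv hr (by decide +kernel)) h
      · rcases brec_true h with h | h
        · exact mRel_good (T := T) (by decide) [Lt.c, Lt.w, Lt.ci] [Lt.w] (pair_rel hinv hr (by decide +kernel)) h
        · exact mRel_good (T := T) (by decide) [Lt.vi, Lt.u] [Lt.u, Lt.vi] (pair_rel hinv hr (by decide +kernel)) h
    · rcases brec_true h with h | h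
      · exact mRel_good (T := T) (by decide) [Lt.bi, Lt.v] [Lt.c, Lt.bi] (pair_rel hinv hr (by decide +kernel)) h
      · rcases brec_true h with h | h
        · exact mRel_good (T := T) (by decide) [Lt.v, Lt.w] [Lt.w, Lt.v] (pair_rel hinv hr (by decide +kernel)) h
        · exact mRel_good (T := T) (by decide) [Lt.u, Lt.w] [Lt.w, Lt.u] (pair_rel hinv hr (by decide +kernel)) h
theorem dM_6_s (hinv : ∀ x, g (inv x) = (g x)⁻¹) (hr : ∀ r ∈ rels, (r.map g).prod = 1) (j z1 z2 u : ℕ) (h : dM_6 j z1 z2 u = true) : GoodM (fa g) T MG M (cP g H) u := by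
  unfold dM_6 at h
  rcases brec_true h with h | h
  · exact dM_4_s hinv hr j z1 z2 u h
  · exact dM_5_s hinv hr j z1 z2 u h
theorem dM_7_s (hinv : ∀ x, g (inv x) = (g x)⁻¹) (hr : ∀ r ∈ rels, (r.map g).prod = 1) (j z1 z2 u : ℕ) (h : dM_7 j z1 z2 u = true) : GoodM (fa g) T MG M (cP g H) u := by
  unfold dM_7 at h
  rcases brec_true h with h | h
  · exact dM_3_s hinv hr j z1 z2 u h
  · exact dM_6_s hinv hr j z1 z2 u h
theorem dM_8_s (hinv : ∀ x, g (inv x) = (g x)⁻¹) (hr : ∀ r ∈ rels, (r.map g).prod = 1) (j z1 z2 u : ℕ) (h : dM_8 j z1 z2 u = true) : GoodM (fa g) T MG M (cP g H) u := by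
  unfold dM_8 at h
  rcases brec_true h with h | h
  · rcases brec_true h with h | h
    · rcases brec_true h with h | h
      · exact mRel_good (T := T) (by decide) [Lt.v, Lt.w, Lt.vi] [Lt.w] (pair_rel hinv hr (by decide +kernel)) h
      · exact mRel_good (T := T) (by decide) [Lt.b, Lt.wi] [Lt.wi, Lt.b] (pair_rel hinv hr (by decide +kernel)) h
    · rcases brec_true h with h | h
      · exact mRel_good (T := T) (by decide) [Lt.a, Lt.a] [Lt.b, Lt.a, Lt.a, Lt.bi] (pair_rel hinv hr (by decide +kernel)) h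
      · rcases brec_true h with h | h
        · exact mRel_good (T := T) (by decide) [Lt.ui, Lt.bi, Lt.ci, Lt.b, Lt.u] [Lt.wi, Lt.bi, Lt.ci, Lt.b] (pair_rel hinv hr (by decide +kernel)) h
        · exact mRel_good (T := T) (by decide) [Lt.b, Lt.a, Lt.a] [Lt.a, Lt.a, Lt.b] (pair_rel hinv hr (by decide +kernel)) h
  · rcases brec_true h with h | h
    · rcases brec_true h with h | h
      · exact mRel_good (T := T) (by decide) [Lt.v, Lt.u] [Lt.u, Lt.v] (pair_rel hinv hr (by decide +kernel)) h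
      · rcases brec_true h with h | h
        · exact mRel_good (T := T) (by decide) [Lt.wi, Lt.ai, Lt.w, Lt.a] [Lt.w] (pair_rel hinv hr (by decide +kernel)) h
        · exact mRel_good (T := T) (by decide) [Lt.ai, Lt.u, Lt.a] [Lt.ci, Lt.ci] (pair_rel hinv hr (by decide +kernel)) h
    · rcases brec_true h with h | h
      · exact mRel_good (T := T) (by decide) [Lt.w, Lt.c] [Lt.c, Lt.w] (pair_rel hinv hr (by decide +kernel)) h
      · rcases brec_true h with h | h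
        · exact mRel_good (T := T) (by decide) [Lt.w, Lt.ci, Lt.wi] [Lt.ci] (pair_rel hinv hr (by decide +kernel)) h
        · exact mRel_good (T := T) (by decide) [Lt.wi, Lt.v] [Lt.v, Lt.wi] (pair_rel hinv hr (by decide +kernel)) h
theorem dM_9_s (hinv : ∀ x, g (inv x) = (g x)⁻¹) (hr : ∀ r ∈ rels, (r.map g).prod = 1) (j z1 z2 u : ℕ) (h : dM_9 j z1 z2 u = true) : GoodM (fa g) T MG M (cP g H) u := by
  unfold dM_9 at h
  rcases brec_true h with h | h
  · rcases brec_true h with h | h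
    · rcases brec_true h with h | h
      · exact mRel_good (T := T) (by decide) [Lt.ci, Lt.bi, Lt.v] [Lt.bi] (pair_rel hinv hr (by decide +kernel)) h
      · rcases brec_true h with h | h
        · exact mRel_good (T := T) (by decide) [Lt.u, Lt.w, Lt.ui] [Lt.w] (pair_rel hinv hr (by decide +kernel)) h
        · exact mRel_good (T := T) (by decide) [Lt.c, Lt.wi] [Lt.wi, Lt.c] (pair_rel hinv hr (by decide +kernel)) h
    · rcases brec_true h with h | h
      · exact mRel_good (T := T) (by decide) [Lt.wi, Lt.bi] [Lt.bi, Lt.wi] (pair_rel hinv hr (by decide +kernel)) h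
      · rcases brec_true h with h | h
        · exact mRel_good (T := T) (by decide) [Lt.v, Lt.ui] [Lt.ui, Lt.v] (pair_rel hinv hr (by decide +kernel)) h
        · exact mRel_good (T := T) (by decide) [Lt.b, Lt.w, Lt.bi] [Lt.w] (pair_rel hinv hr (by decide +kernel)) h
  · rcases brec_true h with h | h
    · rcases brec_true h with h | h
      · exact mRel_good (T := T) (by decide) [Lt.w, Lt.ui, Lt.ci] [Lt.ci, Lt.ui] (pair_rel hinv hr (by decide +kernel)) h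
      · rcases brec_true h with h | h
        · exact mRel_good (T := T) (by decide) [Lt.ui, Lt.ai] [Lt.ai, Lt.ci] (pair_rel hinv hr (by decide +kernel)) h
        · exact mRel_good (T := T) (by decide) [Lt.ci, Lt.w, Lt.c, Lt.wi] [] (pair_rel hinv hr (by decide +kernel)) h
    · rcases brec_true h with h | h
      · exact mRel_good (T := T) (by decide) [Lt.w, Lt.ci, Lt.wi, Lt.c] [] (pair_rel hinv hr (by decide +kernel)) h
      · rcases brec_true h with h | h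
        · exact mRel_good (T := T) (by decide) [Lt.bi, Lt.ai, Lt.ai, Lt.b] [Lt.ai, Lt.ai] (pair_rel hinv hr (by decide +kernel)) h
        · exact mRel_good (T := T) (by decide) [Lt.u, Lt.wi, Lt.bi, Lt.ci, Lt.b] [Lt.bi, Lt.ci, Lt.b, Lt.u] (pair_rel hinv hr (by decide +kernel)) h
theorem dM_10_s (hinv : ∀ x, g (inv x) = (g x)⁻¹) (hr : ∀ r ∈ rels, (r.map g).prod = 1) (j z1 z2 u : ℕ) (h : dM_10 j z1 z2 u = true) : GoodM (fa g) T MG M (cP g H) u := by
  unfold dM_10 at h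
  rcases brec_true h with h | h
  · exact dM_8_s hinv hr j z1 z2 u h
  · exact dM_9_s hinv hr j z1 z2 u h
theorem dM_11_s (hinv : ∀ x, g (inv x) = (g x)⁻¹) (hr : ∀ r ∈ rels, (r.map g).prod = 1) (j z1 z2 u : ℕ) (h : dM_11 j z1 z2 u = true) : GoodM (fa g) T MG M (cP g H) u := by
  unfold dM_11 at h
  rcases brec_true h with h | h
  · rcases brec_true h with h | h
    · rcases brec_true h with h | h
      · exact mRel_good (T := T) (by decide) [Lt.wi, Lt.c, Lt.w] [Lt.c] (pair_rel hinv hr (by decide +kernel)) h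
      · rcases brec_true h with h | h
        · exact mRel_good (T := T) (by decide) [Lt.wi, Lt.ui] [Lt.ui, Lt.wi] (pair_rel hinv hr (by decide +kernel)) h
        · exact mRel_good (T := T) (by decide) [Lt.u, Lt.ai] [Lt.ai, Lt.c] (pair_rel hinv hr (by decide +kernel)) h
    · rcases brec_true h with h | h
      · exact mRel_good (T := T) (by decide) [Lt.w, Lt.ui] [Lt.ui, Lt.w] (pair_rel hinv hr (by decide +kernel)) h
      · rcases brec_true h with h | h
        · exact mRel_good (T := T) (by decide) [Lt.ai, Lt.wi, Lt.a] [Lt.wi, Lt.wi] (pair_rel hinv hr (by decide +kernel)) h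
        · exact mRel_good (T := T) (by decide) [Lt.w, Lt.ci] [Lt.ci, Lt.w] (pair_rel hinv hr (by decide +kernel)) h
  · rcases brec_true h with h | h
    · rcases brec_true h with h | h
      · exact mRel_good (T := T) (by decide) [Lt.a, Lt.u] [Lt.c, Lt.a] (pair_rel hinv hr (by decide +kernel)) h
      · rcases brec_true h with h | h
        · exact mRel_good (T := T) (by decide) [Lt.ci, Lt.a] [Lt.a, Lt.ui] (pair_rel hinv hr (by decide +kernel)) h
        · exact mRel_good (T := T) (by decide) [Lt.a, Lt.ui, Lt.ai] [Lt.ci] (pair_rel hinv hr (by decide +kernel)) h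
    · rcases brec_true h with h | h
      · exact mRel_good (T := T) (by decide) [Lt.w, Lt.ui, Lt.wi] [Lt.ui] (pair_rel hinv hr (by decide +kernel)) h
      · rcases brec_true h with h | h
        · exact mRel_good (T := T) (by decide) [Lt.ci, Lt.wi] [Lt.wi, Lt.ci] (pair_rel hinv hr (by decide +kernel)) h
        · exact mRel_good (T := T) (by decide) [Lt.v, Lt.ui, Lt.vi] [Lt.ui] (pair_rel hinv hr (by decide +kernel)) h
theorem dM_12_s (hinv : ∀ x, g (inv x) = (g x)⁻¹) (hr : ∀ r ∈ rels, (r.map g).prod = 1) (j z1 z2 u : ℕ) (h : dM_12 j z1 z2 u = true) : GoodM (fa g) T MG M (cP g H) u := by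
  unfold dM_12 at h
  rcases brec_true h with h | h
  · rcases brec_true h with h | h
    · rcases brec_true h with h | h
      · exact mRel_good (T := T) (by decide) [Lt.ui, Lt.a, Lt.ci, Lt.ci] [Lt.a] (pair_rel hinv hr (by decide +kernel)) h
      · rcases brec_true h with h | h
        · exact mRel_good (T := T) (by decide) [Lt.c, Lt.a] [Lt.a, Lt.u] (pair_rel hinv hr (by decide +kernel)) h
        · exact mRel_good (T := T) (by decide) [Lt.w, Lt.w, Lt.ai] [Lt.ai, Lt.w] (pair_rel hinv hr (by decide +kernel)) h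
    · rcases brec_true h with h | h
      · exact mRel_good (T := T) (by decide) [Lt.w] [Lt.v, Lt.w, Lt.vi] (pair_rel hinv hr (by decide +kernel)) h
      · rcases brec_true h with h | h
        · exact mRel_good (T := T) (by decide) [Lt.a, Lt.ci, Lt.ci] [Lt.u, Lt.a] (pair_rel hinv hr (by decide +kernel)) h
        · exact mRel_good (T := T) (by decide) [Lt.bi, Lt.wi] [Lt.wi, Lt.bi] (pair_rel hinv hr (by decide +kernel)) h
  · rcases brec_true h with h | h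
    · rcases brec_true h with h | h
      · exact mRel_good (T := T) (by decide) [Lt.ui, Lt.w, Lt.u] [Lt.w] (pair_rel hinv hr (by decide +kernel)) h
      · rcases brec_true h with h | h
        · exact mRel_good (T := T) (by decide) [Lt.u, Lt.v] [Lt.v, Lt.u] (pair_rel hinv hr (by decide +kernel)) h
        · exact mRel_good (T := T) (by decide) [Lt.c, Lt.bi] [Lt.bi, Lt.v] (pair_rel hinv hr (by decide +kernel)) h
    · rcases brec_true h with h | h
      · exact mRel_good (T := T) (by decide) [Lt.b, Lt.ci] [Lt.vi, Lt.b] (pair_rel hinv hr (by decide +kernel)) h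
      · rcases brec_true h with h | h
        · exact mRel_good (T := T) (by decide) [Lt.b, Lt.w] [Lt.w, Lt.b] (pair_rel hinv hr (by decide +kernel)) h
        · exact mRel_good (T := T) (by decide) [Lt.vi, Lt.wi, Lt.v] [Lt.wi] (pair_rel hinv hr (by decide +kernel)) h
theorem dM_13_s (hinv : ∀ x, g (inv x) = (g x)⁻¹) (hr : ∀ r ∈ rels, (r.map g).prod = 1) (j z1 z2 u : ℕ) (h : dM_13 j z1 z2 u = true) : GoodM (fa g) T MG M (cP g H) u := by
  unfold dM_13 at h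
  rcases brec_true h with h | h
  · exact dM_11_s hinv hr j z1 z2 u h
  · exact dM_12_s hinv hr j z1 z2 u h
theorem dM_14_s (hinv : ∀ x, g (inv x) = (g x)⁻¹) (hr : ∀ r ∈ rels, (r.map g).prod = 1) (j z1 z2 u : ℕ) (h : dM_14 j z1 z2 u = true) : GoodM (fa g) T MG M (cP g H) u := by
  unfold dM_14 at h
  rcases brec_true h with h | h
  · exact dM_10_s hinv hr j z1 z2 u h
  · exact dM_13_s hinv hr j z1 z2 u h
theorem dM_15_s (hinv : ∀ x, g (inv x) = (g x)⁻¹) (hr : ∀ r ∈ rels, (r.map g).prod = 1) (j z1 z2 u : ℕ) (h : dM_15 j z1 z2 u = true) : GoodM (fa g) T MG M (cP g H) u := by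
  unfold dM_15 at h
  rcases brec_true h with h | h
  · exact dM_7_s hinv hr j z1 z2 u h
  · exact dM_14_s hinv hr j z1 z2 u h
theorem dM_16_s (hinv : ∀ x, g (inv x) = (g x)⁻¹) (hr : ∀ r ∈ rels, (r.map g).prod = 1) (j z1 z2 u : ℕ) (h : dM_16 j z1 z2 u = true) : GoodM (fa g) T MG M (cP g H) u := by
  unfold dM_16 at h
  rcases brec_true h with h | h
  · exact dM_2_s hinv hr j z1 z2 u h
  · exact dM_15_s hinv hr j z1 z2 u h
theorem sndM (hinv : ∀ x, g (inv x) = (g x)⁻¹) (hr : ∀ r ∈ rels, (r.map g).prod = 1) (u : ℕ) (h : chkM u = true) :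
    MG u < A → MG u % M < u ∧ GoodM (fa g) T MG M (cP g H) u := by
  intro hA
  unfold chkM at h
  cases hb : Nat.ble A (MG u) with
  | true => exact absurd (le_of_ble hb) (by omega)
  | false =>
    rw [hb] at h
    obtain ⟨h1, h2⟩ := band_eq_true.1 h
    exact ⟨le_of_ble h1, dM_16_s hinv hr _ _ _ _ h2⟩
theorem sndN (hinv : ∀ x, g (inv x) = (g x)⁻¹) (hr : ∀ r ∈ rels, (r.map g).prod = 1) (hH : ∀ r ∈ subs, (r.map g).prod ∈ H)
    (u : ℕ) (hu : u < M) (h : chkP u = true) : (∀ x, (T x u < A ∧ Good (fa g) T MG M (cP g H) x u) ∨ (A ≤ T x u ∧ MG u < A)) ∧ (MG u < A → MG u % M < u ∧ GoodM (fa g) T MG M (cP g H) u) := by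
  unfold chkP at h
  cases hb : Nat.ble M u with
  | true => exact absurd (le_of_ble hb) (by omega)
  | false =>
    rw [hb] at h
    change chkN u = true at h
    unfold chkN at h
    obtain ⟨h0, h⟩ := band_eq_true.1 h
    obtain ⟨h1, h⟩ := band_eq_true.1 h
    obtain ⟨h2, h⟩ := band_eq_true.1 h
    obtain ⟨h3, h⟩ := band_eq_true.1 h
    obtain ⟨h4, h⟩ := band_eq_true.1 h
    obtain ⟨h5, h⟩ := band_eq_true.1 h
    obtain ⟨h6, h⟩ := band_eq_true.1 h
    obtain ⟨h7, h⟩ := band_eq_true.1 h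
    obtain ⟨h8, h⟩ := band_eq_true.1 h
    obtain ⟨h9, h⟩ := band_eq_true.1 h
    obtain ⟨h10, h⟩ := band_eq_true.1 h
    obtain ⟨h11, h⟩ := band_eq_true.1 h
    refine ⟨?_, sndM hinv hr u h⟩
    intro x
    cases x
    · exact snc_a hinv hr hH _ u hu h0
    · exact snc_ai hinv hr hH _ u hu h1
    · exact snc_b hinv hr hH _ u hu h2
    · exact snc_bi hinv hr hH _ u hu h3
    · exact snc_c hinv hr hH _ u hu h4
    · exact snc_ci hinv hr hH _ u hu h5
    · exact snc_u hinv hr hH _ u hu h6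
    · exact snc_ui hinv hr hH _ u hu h7
    · exact snc_v hinv hr hH _ u hu h8
    · exact snc_vi hinv hr hH _ u hu h9
    · exact snc_w hinv hr hH _ u hu h10
    · exact snc_wi hinv hr hH _ u hu h11
theorem final (hinv : ∀ x, g (inv x) = (g x)⁻¹) (hr : ∀ r ∈ rels, (r.map g).prod = 1) (hH : ∀ r ∈ subs, (r.map g).prod ∈ H)
    (hall : ∀ u, u < M → chkP u = true) (hc : cntB liveP 12 0 = 3125) :
    H.relIndex (Subgroup.closure (Set.range g)) ≤ 3125 ∧ H.relIndex (Subgroup.closure (Set.range g)) ≠ 0 := by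
  have hn := fun u hu => sndN hinv hr hH u hu (hall u hu)
  have h1 : ∀ x u, u < M → T x u < A → Good (fa g) T MG M (cP g H) x u := by
    intro x u hu hx
    rcases (hn u hu).1 x with h | h
    · exact h.2
    · exact absurd h.1 (by omega)
  have h2 : ∀ u, u < M → MG u < A → GoodM (fa g) T MG M (cP g H) u := fun u hu h => ((hn u hu).2 h).2
  refine relIndex_le (M := M) (A := A) (T := T) (MG := MG) (c := cP g H) (by decide) cc_zero (sound_of_good h1 h2) ?_ ?_ ?_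
  · intro u hu h
    exact ((hn u hu).2 h).1
  · intro x u hu h
    rcases (hn u hu).1 x with h' | h'
    · exact h'.1
    · exact absurd h'.2 (by omega)
  · rw [← hc, ← cntB_spec]
    apply Finset.card_le_card
    intro u
    simp only [Finset.mem_filter, Finset.mem_Ico]
    rintro ⟨⟨_, h3⟩, h4⟩
    refine ⟨⟨Nat.zero_le _, lt_of_lt_of_le h3 (by decide)⟩, ?_⟩
    unfold liveP
    cases hb : Nat.ble M u with
    | true => exact absurd (le_of_ble hb) (by omega)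
    | false => exact h4
end
end H34.TCLyB
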